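import Cfsg.Agent.H14.Perm
import Cfsg.Agent.H42.SylIn
import Mathlib.LinearAlgebra.Matrix.GeneralLinearGroup.Defs
import Mathlib.LinearAlgebra.Matrix.NonsingularInverse
import Mathlib.LinearAlgebra.Matrix.Notation
import Mathlib.Algebra.Field.ZMod

/-! Packed `8 × 8` matrices over the field with three elements, and the normaliser of `2^(1+6)₋` in `Sp₈(3)`. -/

set_option autoImplicit false

namespace Cfsg.Agent.B3

open Subgroup Matrix
open Cfsg.Agent.H14 (app pack force force_eq app_pack pack_congr)

abbrev F : Type := ZMod 3
abbrev V : Type := Fin 8 → F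
abbrev M8 : Type := Matrix (Fin 8) (Fin 8) F
abbrev GG : Type := GL (Fin 8) F

instance : Fact (Nat.Prime 3) := ⟨Nat.prime_three⟩

/-- an entry of a packed matrix -/
def ent (a i j : ℕ) : ℕ := app 2 4 a (Nat.add (Nat.mul 8 i) j)

/-- packed product -/
noncomputable def mulN (a b : ℕ) : ℕ := force a fun a => force b fun b => pack 2 64 fun n =>
  force (Nat.div n 8) fun i => force (Nat.mod n 8) fun j =>
    Nat.mod (Nat.rec 0 (fun k acc => Nat.add (Nat.mul (ent a i k) (ent b k j)) acc) 8) 3

/-- packed transpose -/
noncomputable def trN (a : ℕ) : ℕ := force a fun a => pack 2 64 fun n => Nat.mod (ent a (Nat.mod n 8) (Nat.div n 8)) 3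

/-- packed sum -/
noncomputable def addN (a b : ℕ) : ℕ := force a fun a => force b fun b => pack 2 64 fun n =>
  Nat.mod (Nat.add (app 2 4 a n) (app 2 4 b n)) 3

/-- the matrix of a code -/
def dec (a : ℕ) : M8 := Matrix.of fun i j => (ent a i j : F)

/-- the code of a matrix -/
noncomputable def pkM (A : M8) : ℕ := pack 2 64 fun n =>
  (A ⟨n / 8 % 8, Nat.mod_lt _ (by norm_num)⟩ ⟨n % 8, Nat.mod_lt _ (by norm_num)⟩).val

theorem app_pkM (A : M8) {n : ℕ} (hn : n < 64) :
    app 2 4 (pkM A) n = (A ⟨n / 8 % 8, Nat.mod_lt _ (by norm_num)⟩ ⟨n % 8, Nat.mod_lt _ (by norm_num)⟩).val :=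
  app_pack (k := 2) (fun _ _ => (ZMod.val_lt _).trans (by norm_num)) hn

theorem ent_pkM (A : M8) (i j : Fin 8) : ent (pkM A) i j = (A i j).val := by
  have h : Nat.add (Nat.mul 8 i) j = 8 * i + j := rfl
  rw [ent, h, app_pkM A (by omega)]
  congr 2 <;> ext <;> simp <;> omega

theorem dec_pkM (A : M8) : dec (pkM A) = A := by
  ext i j; simp [dec, ent_pkM]

theorem pkM_inj {A B : M8} (h : pkM A = pkM B) : A = B := by rw [← dec_pkM A, h, dec_pkM]

theorem pkM_mul' (a b : ℕ) : pkM (dec a * dec b) = mulN a b := by
  simp only [mulN, force_eq]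
  refine pack_congr fun n hn => ?_
  have h1 : Nat.div n 8 = n / 8 % 8 := by change n / 8 = _; omega
  have h2 : Nat.mod n 8 = n % 8 := rfl
  rw [h1, h2]
  generalize hi : (⟨n / 8 % 8, _⟩ : Fin 8) = i
  generalize hj : (⟨n % 8, _⟩ : Fin 8) = j
  rw [show n / 8 % 8 = i from by rw [← hi], show n % 8 = j from by rw [← hj]]
  change _ = _ % 3
  rw [← ZMod.val_natCast, Matrix.mul_apply, Fin.sum_univ_eight]
  congr 1
  simp only [dec, of_apply]
  have : (Nat.rec 0 (fun k acc => Nat.add (Nat.mul (ent a i k) (ent b k j)) acc) 8 : ℕ) =
      ent a i 0 * ent b 0 j + ent a i 1 * ent b 1 j + ent a i 2 * ent b 2 j + ent a i 3 * ent b 3 j +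
      ent a i 4 * ent b 4 j + ent a i 5 * ent b 5 j + ent a i 6 * ent b 6 j + ent a i 7 * ent b 7 j := by
    change ent a i 7 * ent b 7 j + (ent a i 6 * ent b 6 j + (ent a i 5 * ent b 5 j + (ent a i 4 * ent b 4 j +
      (ent a i 3 * ent b 3 j + (ent a i 2 * ent b 2 j + (ent a i 1 * ent b 1 j + (ent a i 0 * ent b 0 j + 0))))))) = _
    ring
  rw [this]
  push_cast
  rfl

theorem pkM_mul (A B : M8) : pkM (A * B) = mulN (pkM A) (pkM B) := by rw [← pkM_mul', dec_pkM, dec_pkM]

theorem pkM_tr (A : M8) : pkM Aᵀ = trN (pkM A) := by
  simp only [trN, force_eq]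
  refine pack_congr fun n hn => ?_
  have h1 : Nat.div n 8 = n / 8 % 8 := by change n / 8 = _; omega
  have h2 : Nat.mod n 8 = n % 8 := rfl
  rw [h1, h2]
  refine Eq.trans ?_ (congrArg (· % 3) (ent_pkM A ⟨n % 8, Nat.mod_lt _ (by norm_num)⟩
    ⟨n / 8 % 8, Nat.mod_lt _ (by norm_num)⟩)).symm
  rw [Nat.mod_eq_of_lt (ZMod.val_lt _), transpose_apply]

theorem pkM_add (A B : M8) : pkM (A + B) = addN (pkM A) (pkM B) := by
  simp only [addN, force_eq]
  refine pack_congr fun n hn => ?_
  rw [app_pkM A hn, app_pkM B hn, Matrix.add_apply, ZMod.val_add]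
  rfl

/-- codes of `1`, `-1`, the Gram matrix and its inverse -/
def oneN : ℕ := 85070916250026219054240312625736187905
def negN : ℕ := 170141832500052438108480625251472375810
def omN : ℕ := 10384910649064886683553259119984640
def omiN : ℕ := 5192930722521748706639682073559040

/-- the Gram matrix of the symplectic form -/
def Om : M8 := !![0,0,0,0,0,0,0,1; 0,0,0,0,0,0,2,0; 0,0,0,0,0,2,0,0; 0,0,0,0,1,0,0,0; 0,0,0,2,0,0,0,0; 0,0,1,0,0,0,0,0; 0,1,0,0,0,0,0,0; 2,0,0,0,0,0,0,0]

theorem dec_one : dec oneN = 1 := by decide +kernel
theorem pkM_dec (a : ℕ) : pkM (dec a) = mulN a oneN := by rw [← pkM_mul', dec_one, mul_one]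
theorem pkM_one : pkM 1 = oneN := by rw [← dec_one, pkM_dec]; decide +kernel
theorem pkM_neg_one : pkM (-1) = negN := by
  rw [show (-1 : M8) = dec negN by decide +kernel, pkM_dec]; decide +kernel
theorem pkM_Om : pkM Om = omN := by rw [show Om = dec omN by decide +kernel, pkM_dec]; decide +kernel

/-- the code of a group element -/
noncomputable def pk (g : GG) : ℕ := pkM g.val

theorem pk_inj {g h : GG} (e : pk g = pk h) : g = h := Units.ext (pkM_inj e)
theorem pk_eq_iff {g h : GG} : g = h ↔ pk g = pk h := ⟨congrArg pk, pk_inj⟩
theorem val_eq (g : GG) : g.val = dec (pk g) := (dec_pkM _).symm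
@[simp] theorem pk_mul (g h : GG) : pk (g * h) = mulN (pk g) (pk h) := pkM_mul _ _
@[simp] theorem pk_one : pk 1 = oneN := pkM_one
@[simp] theorem pk_neg_one : pk (-1) = negN := pkM_neg_one
@[simp] theorem pk_neg (g : GG) : pk (-g) = mulN negN (pk g) := by rw [← neg_one_mul, pk_mul, pk_neg_one]

open Classical in
/-- the group element of a code -/
noncomputable def gm (a : ℕ) : GG := if h : IsUnit (dec a) then h.unit else 1

theorem pk_gm {a : ℕ} (b : ℕ) (h : mulN a b = oneN) (h' : mulN a oneN = a) : pk (gm a) = a := by
  have : IsUnit (dec a) := IsUnit.of_mul_eq_one (dec b) (pkM_inj (by rw [pkM_mul', h, pkM_one]))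
  rw [gm, dif_pos this, pk, IsUnit.unit_spec, pkM_dec, h']

/-- the symplectic form -/
def om (v w : V) : F := v ⬝ᵥ (Om *ᵥ w)

theorem om_eq (v w : V) : om v w = v 0 * w 7 - v 1 * w 6 - v 2 * w 5 + v 3 * w 4 - v 4 * w 3 + v 5 * w 2 +
    v 6 * w 1 - v 7 * w 0 := by
  have h2 : (2 : F) = -1 := rfl
  simp [om, Om, dotProduct, mulVec, Fin.sum_univ_eight, h2]
  ring

/-- the symplectic group -/
def Sp : Subgroup GG where
  carrier := {g | g.valᵀ * Om * g.val = Om}
  mul_mem' := fun {a b} ha hb => by
    change (a.val * b.val)ᵀ * Om * (a.val * b.val) = Om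
    rw [transpose_mul, show b.valᵀ * a.valᵀ * Om * (a.val * b.val) = b.valᵀ * (a.valᵀ * Om * a.val) * b.val by
      simp only [Matrix.mul_assoc], ha, hb]
  one_mem' := by simp
  inv_mem' := fun {a} ha => by
    change (a⁻¹).valᵀ * Om * (a⁻¹).val = Om
    conv_lhs => rw [← ha]
    rw [show (a⁻¹).valᵀ * (a.valᵀ * Om * a.val) * (a⁻¹).val = (a.val * (a⁻¹).val)ᵀ * Om * (a.val * (a⁻¹).val) by
      simp only [transpose_mul, Matrix.mul_assoc], Units.mul_inv]
    simp

theorem mem_Sp {g : GG} : g ∈ Sp ↔ g.valᵀ * Om * g.val = Om := Iff.rfl

theorem om_Sp {g : GG} (h : g ∈ Sp) (v w : V) : om (g.val *ᵥ v) (g.val *ᵥ w) = om v w := by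
  rw [om, om, mulVec_mulVec, ← vecMul_transpose, ← dotProduct_mulVec, mulVec_mulVec, ← Matrix.mul_assoc,
    mem_Sp.1 h]

theorem mem_Sp_of_om {g : GG} (h : ∀ v w, om (g.val *ᵥ v) (g.val *ᵥ w) = om v w) : g ∈ Sp := by
  rw [mem_Sp]
  ext i j
  have := h (Pi.single i 1) (Pi.single j 1)
  rw [om, om, mulVec_mulVec, ← vecMul_transpose, ← dotProduct_mulVec, mulVec_mulVec, ← Matrix.mul_assoc] at this
  simpa using this

theorem mem_Sp_pk {g : GG} : g ∈ Sp ↔ mulN (mulN (trN (pk g)) omN) (pk g) = omN := by
  rw [mem_Sp, pk, ← pkM_tr, ← pkM_Om, ← pkM_mul, ← pkM_mul]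
  exact ⟨congrArg pkM, pkM_inj⟩

/-- packed inverse of a symplectic matrix -/
noncomputable def invN (a : ℕ) : ℕ := mulN omiN (mulN (trN a) omN)

theorem pk_inv {g : GG} (h : g ∈ Sp) : pk g⁻¹ = invN (pk g) := by
  have h1 : dec omiN * Om = 1 := by decide +kernel
  have h2 : (g⁻¹).val = dec omiN * (g.valᵀ * Om) := by
    rw [← Matrix.mul_one (dec omiN * _), ← Units.mul_inv g, ← Matrix.mul_assoc, Matrix.mul_assoc (dec omiN),
      mem_Sp.1 h, h1, Matrix.one_mul]
  rw [pk, h2, pkM_mul, pkM_mul, pkM_tr, pkM_Om, pkM_dec, invN, pk, show mulN omiN oneN = omiN by decide +kernel]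

/-! ### The elements.  The basis vector number `4 b₀ + 2 b₁ + b₂` is `e_{b₀} ⊗ e_{b₁} ⊗ e_{b₂}`. -/

def cI : Fin 3 → ℕ := ![332308266601664927403963073542750720, 5316932305163499516146398718001676320, 21270244081297444169032890387919863816]
def cJ : Fin 3 → ℕ := ![170474140766654103031254870247105364225, 175458764784170876676545350512215851025, 191410453988581566532047185167465906181]
def cT : Fin 3 → ℕ := ![85070916250026219063463719847097270785, 85070916289640451427099933251163389985, 85073512398455524246986441380818321417]
def cf : Fin 3 → ℕ := ![85070916250026219058870030703645950210, 85070916271071280002321986082994389010, 85072538842794534799706643097662521350]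
def cd : Fin 4 → ℕ := ![85070672864824795352051366031879307265, 2658780511362034674730147884740903040, 199386268201371407092219667371198644394, 225972105928372215776953228960514769046]
def cc : ℕ := 85070672859950401799920582813086121985

/-- `i`, `j` of the quaternion group acting on the tensor factor number `a` -/
noncomputable def gI (a : Fin 3) : GG := gm (cI a)
noncomputable def gJ (a : Fin 3) : GG := gm (cJ a)
/-- `1 - i - j - k`, of order three -/
noncomputable def gT (a : Fin 3) : GG := gm (cT a)
/-- `i - j`, an involution inverting `gT a` and the symplectic form -/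
noncomputable def gf (a : Fin 3) : GG := gm (cf a)
/-- `-1` on one of the four joint eigenspaces of `ga`, `gb`; `gd 0` swaps the last two tensor factors -/
noncomputable def gd (i : Fin 4) : GG := gm (cd i)
/-- the cyclic permutation of the tensor factors -/
noncomputable def gc : GG := gm cc
noncomputable def ga : GG := gI 1 * gI 2
noncomputable def gb : GG := gJ 1 * gJ 2
noncomputable def x0 : GG := gT 0 * gT 1 * gT 2

@[simp] theorem pk_gI (a : Fin 3) : pk (gI a) = cI a :=
  pk_gm (invN (cI a)) (by revert a; decide +kernel) (by revert a; decide +kernel)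
@[simp] theorem pk_gJ (a : Fin 3) : pk (gJ a) = cJ a :=
  pk_gm (invN (cJ a)) (by revert a; decide +kernel) (by revert a; decide +kernel)
@[simp] theorem pk_gT (a : Fin 3) : pk (gT a) = cT a :=
  pk_gm (invN (cT a)) (by revert a; decide +kernel) (by revert a; decide +kernel)
@[simp] theorem pk_gf (a : Fin 3) : pk (gf a) = cf a :=
  pk_gm (cf a) (by revert a; decide +kernel) (by revert a; decide +kernel)
@[simp] theorem pk_gd (a : Fin 4) : pk (gd a) = cd a :=
  pk_gm (cd a) (by revert a; decide +kernel) (by revert a; decide +kernel)
@[simp] theorem pk_gc : pk gc = cc := pk_gm (invN cc) (by decide +kernel) (by decide +kernel)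
@[simp] theorem pk_ga : pk ga = mulN (cI 1) (cI 2) := by simp [ga]
@[simp] theorem pk_gb : pk gb = mulN (cJ 1) (cJ 2) := by simp [gb]
@[simp] theorem pk_x0 : pk x0 = mulN (mulN (cT 0) (cT 1)) (cT 2) := by simp [x0]

/-- the extraspecial group `Q₈ ∘ Q₈ ∘ Q₈` -/
noncomputable def R0 : Subgroup GG := closure (Set.range gI ∪ Set.range gJ)

/-- the codes of its elements -/
def R0L : List ℕ := [
  85070916250026219054240312625736187905, 332308266601664927403963073542750720,
  170474140766654103031254870247105364225, 85403224516627883977050586555827618050,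
  5316932305163499516146398718001676320, 20769266817044920561405424329297920,
  10654633817722695393275414543404638240, 5337701571980544436420698571938996240,
  175458764784170876676545350512215851025, 685385799938167492205776703571632640,
  96390166621915097971871489981260501265, 176144150584109044173057710786574029090,
  90387848536620547145608764175568863250, 353077533346174022087329642753040640,
  181128774602873434023430193101538857490, 90740926069966721162815299102473196065,
  21270244081297444169032890387919863816, 83086890942568143591180511735710720,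
  42619680830893498691380413694323263496, 21353330972240012311475723088525658116,
  1329390264965567632005426004115849280, 5192930722521748706639682073559040,
  2663730056883132721175506319438790720, 1334583195688089380640293948262203520,
  43865984199655574134909982614884515976, 171351500779904587761637663285724160,
  24100132713498883776462780181075036296, 44037335700435478723748196350804789316,
  22599634341621019995707112539875836036, 88279821646957111808245179013416960,
  45283410892400490437397548850620826756, 22687914163267977106295238169330811976,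
  191410453988581566532047185167465906181, 747697085892896751183355935646026240,
  128356829868638362103308773684750648581, 192158151074474463286675707200767657226,
  11963153403823577635975302315864228000, 46731067983685850572875190742568960,
  8022301911355436808510977072944947360, 12009884471807263486763500386905006160,
  139572286202352377084366087641867288661, 545204242977938983794427641808857600,
  199931229059147922370569973099845473621, 140117490445330316064930672068023178666,
  203373607406331615432496800352557203546, 794428153930982880133083910279046400,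
  136379131766121727925722290673874786906, 204168035560262598316290373242294196901,
  106340186775662673775993404730500251654, 415391354592432330966759650598324480,
  213094791350256790429886592324471162374, 106755578130255106101218022285717931529,
  6646261722900482866731730610449023120, 25961959855080011918751162364354560,
  13318424484149925738521714407633883280, 6672223682755562878291597893194256480,
  219325661692258374295933784594775867494, 856740865985384281078608839124752640,
  120489390192249370464967112509520963174, 220182402558243758582395651646821131929,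
  112986448475351568399632526052551164009, 441353314356842076310930309188195840,
  226413215857527634144926335514202237289, 113427801789708410469842430384232819094,
  170141832500052438108480625251472375810, 664616533203329840972815315043877120,
  85735532783229548899842846018689827330, 170806449033255767954047129709967573505,
  10633864550905650473003366497862549520, 41538533401975197448392082066513920,
  5358470838565474713884148178855399440, 10675403084307625670738864150321041440,
  95704780821976930475325352580856938530, 373846800085847394180799191410807040,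
  175832611584256724066385789006794727970, 96078627622062777865199568201481200145,
  180775697069527260006261938917503926305, 706155066677840864299246252229399040,
  91094003603298388014827085886516371745, 181481852136205100875441979885582033170,
  42536593939950930548946587643216527364, 166158570077933323609849664647464960,
  21436402651375377493800094513196303364, 42702752510028863873704785118993908744,
  2658537126160610972541201290884022400, 10384910649064886683553259119984640,
  1339775175614632518761313916754624640, 2668922036809675859296526287931211840,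
  23928781212718979187616122711251746884, 93471801612183514829585454290995200,
  43959456001267757648654548262637945924, 24022253014331162701369132092908192904,
  45195131070753533326818992786260426824, 176543480745130990782977938563302400,
  22776177822366150987719779593092155464, 45371674551498664318822090274382170244,
  127609132782745465348653230740879048714, 498473174932599484394452629323777280,
  191908927163514166012969450788564109834, 128107605957678064829602517272547101189,
  7975570843371750957721090194999869520, 31154573606920902827115256846786560,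
  11994307977430498538585405885508505680, 8006725416978671860332882571548446880,
  199386024816169983390030720777341763754, 778851659438164005183371370750301440,
  140351137861790541092804634331922737834, 200164876475608147398443935363745032789,
  135584703612190745041900008066651848869, 529627748485120108844715102280112640,
  203903235154816735537652316757893424549, 136114331360675865147084234189474014554,
  212679399995664358104707011177844703241, 830778906233063904611048914371479040,
  107170965681895737686391632148843596041, 213510178901897422015060202187596826886,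
  13292462524294845726964661900415074400, 51923681735526741481239285225000960,
  6698185404636009608574668550819569760, 13344386206030372468804785065259196560,
  119632649326263986178463023824433184921, 467315036430718707899190173434406400,
  219792976728689092998407494922247248281, 120099964362694704880978955784947079526,
  225971862543170792074764282366657888406, 882702588059260912666868703370963200,
  113869151063410829318448271917565974166, 226854565131230052993532177047535392361]

theorem gI_mem (a : Fin 3) : gI a ∈ R0 := subset_closure (Or.inl ⟨a, rfl⟩)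
theorem gJ_mem (a : Fin 3) : gJ a ∈ R0 := subset_closure (Or.inr ⟨a, rfl⟩)
theorem gI_sq (a : Fin 3) : gI a * gI a = -1 := pk_inj (by simp only [pk_mul, pk_gI, pk_neg_one]; revert a; decide +kernel)
theorem gJ_sq (a : Fin 3) : gJ a * gJ a = -1 := pk_inj (by simp only [pk_mul, pk_gJ, pk_neg_one]; revert a; decide +kernel)
theorem neg_one_mem : (-1 : GG) ∈ R0 := gI_sq 0 ▸ mul_mem (gI_mem 0) (gI_mem 0)

noncomputable def dbl (c : ℕ) (L : List ℕ) : List ℕ := L ++ L.map fun y => mulN y c

theorem mem_R0 {g : GG} : g ∈ R0 ↔ pk g ∈ R0L := by
  constructor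
  · intro h
    have key : ∀ x ∈ R0L, ∀ a : Fin 3, mulN (cI a) x ∈ R0L ∧ mulN (cJ a) x ∈ R0L := by decide +kernel
    have key2 : ∀ x ∈ R0L, mulN negN x ∈ R0L := by decide +kernel
    induction h using closure_induction_left with
    | one => rw [pk_one]; decide +kernel
    | mul_left x hx y _ ih =>
      rcases hx with ⟨a, rfl⟩ | ⟨a, rfl⟩
      · simpa using (key _ ih a).1
      · simpa using (key _ ih a).2
    | inv_mul_cancel x hx y _ ih =>
      rcases hx with ⟨a, rfl⟩ | ⟨a, rfl⟩
      · rw [show (gI a)⁻¹ = -gI a from inv_eq_of_mul_eq_one_right (by rw [mul_neg, gI_sq, neg_neg]), neg_mul]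
        simpa using key2 _ (key _ ih a).1
      · rw [show (gJ a)⁻¹ = -gJ a from inv_eq_of_mul_eq_one_right (by rw [mul_neg, gJ_sq, neg_neg]), neg_mul]
        simpa using key2 _ (key _ ih a).2
  · intro h
    have step : ∀ (L : List ℕ) (c : GG), c ∈ R0 → (∀ x ∈ L, ∃ y ∈ R0, pk y = x) →
        ∀ x ∈ dbl (pk c) L, ∃ y ∈ R0, pk y = x := fun L c hc hL x hx => by
      rcases List.mem_append.1 hx with hx | hx
      · exact hL x hx
      · obtain ⟨y, hy, rfl⟩ := List.mem_map.1 hx
        obtain ⟨y, hy', rfl⟩ := hL y hy
        exact ⟨y * c, mul_mem hy' hc, pk_mul ..⟩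
    have := step _ _ neg_one_mem (step _ _ (gJ_mem 2) (step _ _ (gI_mem 2) (step _ _ (gJ_mem 1) (step _ _ (gI_mem 1)
      (step _ _ (gJ_mem 0) (step [oneN] _ (gI_mem 0) (by simpa using ⟨1, one_mem _, pk_one⟩)))))))
    simp only [pk_gI, pk_gJ, pk_neg_one] at this
    have e0 : R0L = dbl negN (dbl (cJ 2) (dbl (cI 2) (dbl (cJ 1) (dbl (cI 1) (dbl (cJ 0) (dbl (cI 0) [oneN])))))) := by
      decide +kernel
    obtain ⟨y, hy, e⟩ := this (pk g) (e0 ▸ h)
    exact pk_inj e ▸ hy

/-- the normaliser of `R0` in the general linear group, and in the symplectic group -/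
noncomputable def NN : Subgroup GG := normalizer (R0 : Set GG)
noncomputable def HH : Subgroup GG := NN ⊓ Sp

theorem mem_normalizer_closure {Γ : Type*} [Group Γ] [Finite Γ] {s : Set Γ} {g : Γ} :
    g ∈ normalizer ((closure s : Subgroup Γ) : Set Γ) ↔ ∀ x ∈ s, g * x * g⁻¹ ∈ closure s :=
  ⟨fun h _ hx => H42.conj_mem_of_mem_normalizer h (subset_closure hx), fun h =>
    H42.mem_normalizer_of_conj_mem fun _ hx => (closure_le ((closure s).comap (MulAut.conj g).toMonoidHom)).2 h hx⟩

theorem mem_NN {g : GG} : g ∈ NN ↔ ∀ a, g * gI a * g⁻¹ ∈ R0 ∧ g * gJ a * g⁻¹ ∈ R0 := by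
  rw [NN, R0, mem_normalizer_closure]
  refine ⟨fun h a => ⟨h _ (Or.inl ⟨a, rfl⟩), h _ (Or.inr ⟨a, rfl⟩)⟩, fun h => ?_⟩
  rintro _ (⟨a, rfl⟩ | ⟨a, rfl⟩)
  exacts [(h a).1, (h a).2]

/-- membership test for `HH` -/
noncomputable def hhOK (a : ℕ) : Bool := force a fun a => Nat.beq (mulN (mulN (trN a) omN) a) omN &&
  force (invN a) fun b => decide (∀ i : Fin 3, mulN (mulN a (cI i)) b ∈ R0L ∧ mulN (mulN a (cJ i)) b ∈ R0L)

theorem mem_HH_of {g : GG} (h : hhOK (pk g) = true) : g ∈ HH := by
  simp only [hhOK, force_eq, Bool.and_eq_true, Nat.beq_eq, decide_eq_true_eq] at h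
  have h1 := mem_Sp_pk.2 h.1
  exact ⟨mem_NN.2 fun a => by simpa only [mem_R0, pk_mul, pk_gI, pk_gJ, pk_inv h1] using h.2 a, h1⟩

theorem R0_le_HH : R0 ≤ HH := (closure_le _).2 (by
  rintro _ (⟨a, rfl⟩ | ⟨a, rfl⟩) <;> refine mem_HH_of ?_ <;> simp only [pk_gI, pk_gJ] <;> revert a <;> decide +kernel)
theorem gT_mem (a : Fin 3) : gT a ∈ HH := mem_HH_of (by rw [pk_gT]; revert a; decide +kernel)
theorem gd_mem (a : Fin 4) : gd a ∈ HH := mem_HH_of (by rw [pk_gd]; revert a; decide +kernel)
theorem gc_mem : gc ∈ HH := mem_HH_of (by rw [pk_gc]; decide +kernel)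
theorem gff_mem (a b : Fin 3) : gf a * gf b ∈ HH := mem_HH_of (by rw [pk_mul, pk_gf, pk_gf]; revert a b; decide +kernel)

end Cfsg.Agent.B3
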