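/-
Project B3 (3-local recognition of the Baby Monster and of `Fi₂₃`): definitions.
-/
import Cfsg.Agent.B3.Eng
import Cfsg.Agent.F3.Bas1
import Mathlib.LinearAlgebra.Matrix.Action

set_option autoImplicit false

namespace Cfsg.Agent.B3

open Subgroup Matrix H49 T3.Fr2 F3

attribute [local irreducible] gm

theorem smul_def (g : GG) (v : V) : g • v = g.val *ᵥ v := rfl

theorem om_smul {g : GG} (h : g ∈ HH) (v w : V) : om (g • v) (g • w) = om v w := om_Sp h.2 v w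

theorem om_add_left (u v w : V) : om (u + v) w = om u w + om v w := by simp only [om_eq, Pi.add_apply]; ring
theorem om_add_right (u v w : V) : om u (v + w) = om u v + om u w := by simp only [om_eq, Pi.add_apply]; ring
theorem om_neg_left (u w : V) : om (-u) w = -om u w := by simp only [om_eq, Pi.neg_apply]; ring
theorem om_neg_right (u w : V) : om u (-w) = -om u w := by simp only [om_eq, Pi.neg_apply]; ring
theorem om_sub_left (u v w : V) : om (u - v) w = om u w - om v w := by simp only [om_eq, Pi.sub_apply]; ring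
theorem om_sub_right (u v w : V) : om u (v - w) = om u v - om u w := by simp only [om_eq, Pi.sub_apply]; ring
theorem om_smul_left (c : F) (u w : V) : om (c • u) w = c * om u w := by
  simp only [om_eq, Pi.smul_apply, smul_eq_mul]; ring
theorem om_smul_right (c : F) (u w : V) : om u (c • w) = c * om u w := by
  simp only [om_eq, Pi.smul_apply, smul_eq_mul]; ring
theorem om_self (v : V) : om v v = 0 := by simp only [om_eq]; ring
theorem om_swap (v w : V) : om w v = -om v w := by simp only [om_eq]; ring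
theorem om_zero_left (w : V) : om 0 w = 0 := by simp [om_eq]
theorem om_zero_right (w : V) : om w 0 = 0 := by simp [om_eq]

theorem om_nondeg {v : V} (h : ∀ w, om v w = 0) : v = 0 := by
  ext i
  have := h (Pi.single (Fin.rev i) 1)
  fin_cases i <;> simpa [om_eq, Fin.rev] using this

/-- the elements of `X` that centralise `c` modulo `A` -/
def Cm {Γ : Type*} [Group Γ] (X A : Subgroup Γ) (c : Γ) : Subgroup Γ where
  carrier := {x | x ∈ X ⊓ 𝒩(A) ∧ x * c * x⁻¹ * c⁻¹ ∈ A}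
  one_mem' := ⟨one_mem _, by simp⟩
  mul_mem' := fun {x y} a b => ⟨mul_mem a.1 b.1, by
    rw [show x * y * c * (x * y)⁻¹ * c⁻¹ = x * (y * c * y⁻¹ * c⁻¹) * x⁻¹ * (x * c * x⁻¹ * c⁻¹) by group]
    exact mul_mem (conj_mem_of_norm le_rfl a.1.2 b.2) a.2⟩
  inv_mem' := fun {x} a => ⟨inv_mem a.1, by
    rw [show x⁻¹ * c * x⁻¹⁻¹ * c⁻¹ = x⁻¹ * (x * c * x⁻¹ * c⁻¹)⁻¹ * x by group]
    exact conj_mem_of_norm' le_rfl a.1.2 (inv_mem a.2)⟩

theorem mem_Cm {Γ : Type*} [Group Γ] {X A : Subgroup Γ} (h : X ≤ 𝒩(A)) {c x : Γ} :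
    x ∈ Cm X A c ↔ x ∈ X ∧ x * c * x⁻¹ * c⁻¹ ∈ A :=
  ⟨fun a => ⟨a.1.1, a.2⟩, fun a => ⟨⟨a.1, h a.1⟩, a.2⟩⟩

/-- the elementary abelian group of order 27 -/
noncomputable def J0 : Subgroup GG := closure (Set.range gT)
/-- a Sylow 3-subgroup of `HH` -/
noncomputable def T3 : Subgroup GG := J0 ⊔ zpowers gc
/-- the centraliser of `x0` modulo `R0` -/
noncomputable def C0 : Subgroup GG := Cm HH R0 x0
noncomputable def A8 : Subgroup GG := closure {-1, ga, gb}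
noncomputable def KK : Subgroup GG := HH ⊓ 𝒞[ga] ⊓ 𝒞[gb]
/-- the largest normal 2-subgroup of the centraliser of `gd 0` in `HH` -/
noncomputable def K0 : Subgroup GG := Cm KK A8 (gI 0) ⊓ Cm KK A8 (gJ 0)

theorem HH_le_norm : HH ≤ 𝒩(R0) := inf_le_left

theorem mem_C0 {g : GG} : g ∈ C0 ↔ g ∈ HH ∧ g * x0 * g⁻¹ * x0⁻¹ ∈ R0 := mem_Cm HH_le_norm

theorem KK_le_cent : KK ≤ 𝒞(A8) := fun g hg => by
  rw [A8, centralizer_closure, mem_centralizer_iff]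
  rintro _ (rfl | rfl | rfl)
  exacts [by simp, (mem_cent1.1 hg.1.2).symm, (mem_cent1.1 hg.2).symm]

theorem mem_Cm2 {Γ : Type*} [Group Γ] {X A : Subgroup Γ} (h : X ≤ 𝒩(A)) {c c' x : Γ} :
    x ∈ Cm X A c ⊓ Cm X A c' ↔ x ∈ X ∧ x * c * x⁻¹ * c⁻¹ ∈ A ∧ x * c' * x⁻¹ * c'⁻¹ ∈ A := by
  rw [mem_inf, mem_Cm h, mem_Cm h]
  tauto

theorem K0_eq : K0 = Cm KK A8 (gI 0) ⊓ Cm KK A8 (gJ 0) := rfl

theorem mem_K0' {g : GG} (a : Fin 3) : g ∈ Cm KK A8 (gI a) ⊓ Cm KK A8 (gJ a) ↔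
    g ∈ KK ∧ g * gI a * g⁻¹ * (gI a)⁻¹ ∈ A8 ∧ g * gJ a * g⁻¹ * (gJ a)⁻¹ ∈ A8 :=
  mem_Cm2 (norm_of_cent KK_le_cent)

theorem mem_K0 {g : GG} : g ∈ K0 ↔ g ∈ KK ∧ g * gI 0 * g⁻¹ * (gI 0)⁻¹ ∈ A8 ∧ g * gJ 0 * g⁻¹ * (gJ 0)⁻¹ ∈ A8 :=
  K0_eq ▸ mem_K0' 0

/-- the fixed vectors -/
def Fix (τ : GG) : AddSubgroup V where
  carrier := {v | τ • v = v}
  zero_mem' := smul_zero τ
  add_mem' := fun {v w} a b => by rw [Set.mem_ofPred_eq, smul_add, a, b]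
  neg_mem' := fun {v} a => by rw [Set.mem_ofPred_eq, smul_neg, a]

theorem mem_Fix {τ : GG} {v : V} : v ∈ Fix τ ↔ τ • v = v := Iff.rfl

/-- the joint eigenspaces of `ga` and `gb` -/
def W (i : Fin 4) : AddSubgroup V where
  carrier := {v | gd i • v = -v}
  zero_mem' := by simp
  add_mem' := fun {v w} a b => by rw [Set.mem_ofPred_eq, smul_add, a, b, neg_add]
  neg_mem' := fun {v} a => by rw [Set.mem_ofPred_eq, smul_neg, a]

theorem mem_W {i : Fin 4} {v : V} : v ∈ W i ↔ gd i • v = -v := Iff.rfl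

/-- the vector `e ⊗ e ⊗ e` -/
def e0 : V := Pi.single 0 1

variable {G : Type*} [Group G]

/-- Coordinates on `Q = 3^(1+8)` and on `C(z)/Q = X`. -/
structure ST (z r : G) (Q : Subgroup G) (s : V → G) (ρ : G → GG) (X : Subgroup GG) : Prop extends E1 z Q where
  memQ : ∀ g, g ∈ Q ↔ ∃ v k, g = s v * zp z k
  mul : ∀ v w, s v * s w = s (v + w) * zp z (om v w)
  inj : ∀ v, s v ∈ zpowers z → v = 0
  r2 : r * r = 1
  rz : r ∈ 𝒞[z]
  rs : ∀ v, r * s v * r⁻¹ = s (-v)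
  hom : ∀ g ∈ 𝒞[z], ∀ k ∈ 𝒞[z], ρ (g * k) = ρ g * ρ k
  act : ∀ g ∈ 𝒞[z], ∀ v, ∃ k, g * s v * g⁻¹ = s (ρ g • v) * zp z k
  img : ∀ x, x ∈ X ↔ ∃ g ∈ 𝒞[z], ρ g = x
  XH : X ≤ HH
  RX : R0 ≤ X

variable {z r : G} {Q : Subgroup G} {s : V → G} {ρ : G → GG} {X : Subgroup GG}

theorem ST.zp_cent (_ : ST z r Q s ρ X) {g : G} (hg : g ∈ 𝒞[z]) (k : F) : zp z k * g = g * zp z k :=
  Z_comm hg (zp_mem (mem_zpowers z) k)

theorem ST.s_mem (h : ST z r Q s ρ X) (v : V) : s v ∈ Q := (h.memQ _).2 ⟨v, 0, by rw [zp_zero, mul_one]⟩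

theorem ST.zc (h : ST z r Q s ρ X) : z ^ 3 = 1 := h.exp z h.zQ

theorem ST.s_zero (h : ST z r Q s ρ X) : s 0 = 1 := by
  have := h.mul 0 0
  rwa [om_self, zp_zero, add_zero, mul_left_cancel_iff] at this

theorem ST.s_neg (h : ST z r Q s ρ X) (v : V) : s (-v) = (s v)⁻¹ :=
  eq_inv_of_mul_eq_one_right (by rw [h.mul, om_neg_right, om_self, neg_zero, zp_zero, mul_one, add_neg_cancel, h.s_zero])

theorem ST.mul' (h : ST z r Q s ρ X) (v w : V) (k l : F) :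
    s v * zp z k * (s w * zp z l) = s (v + w) * zp z (om v w + k + l) := by
  rw [mul_assoc, ← mul_assoc (zp z k), h.zp_cent (h.Qc (h.s_mem w)), ← mul_assoc, ← mul_assoc, h.mul,
    zp_add h.zc, zp_add h.zc, mul_assoc (s _), mul_assoc (s _)]

theorem ST.inv' (h : ST z r Q s ρ X) (v : V) (k : F) : (s v * zp z k)⁻¹ = s (-v) * zp z (-k) :=
  inv_eq_of_mul_eq_one_right (by
    rw [h.mul', om_neg_right, om_self, add_neg_cancel, h.s_zero]; simp [zp_zero])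

/-- `ρ` as a homomorphism -/
def ST.hm (h : ST z r Q s ρ X) : 𝒞[z] →* GG := MonoidHom.mk' (fun g => ρ g) fun a b => h.hom a a.2 b b.2

/-- the image of `A ∩ Q` in `Q/⟨z⟩` -/
def ST.bar (h : ST z r Q s ρ X) (A : Subgroup G) : AddSubgroup V where
  carrier := {v | ∃ k, s v * zp z k ∈ A}
  zero_mem' := ⟨0, by rw [h.s_zero, zp_zero, mul_one]; exact one_mem _⟩
  add_mem' := fun ⟨_, a⟩ ⟨_, b⟩ => ⟨_, h.mul' .. ▸ mul_mem a b⟩
  neg_mem' := fun ⟨_, a⟩ => ⟨_, h.inv' .. ▸ inv_mem a⟩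

theorem ST.mem_bar (h : ST z r Q s ρ X) {A : Subgroup G} {v : V} : v ∈ h.bar A ↔ ∃ k, s v * zp z k ∈ A := Iff.rfl

/-- the preimage of `U` in `Q` -/
def ST.pre (h : ST z r Q s ρ X) (U : AddSubgroup V) : Subgroup G where
  carrier := {g | ∃ v ∈ U, ∃ k, g = s v * zp z k}
  one_mem' := ⟨0, zero_mem _, 0, by rw [h.s_zero, zp_zero, mul_one]⟩
  mul_mem' := by
    rintro _ _ ⟨v, a, k, rfl⟩ ⟨w, b, l, rfl⟩
    exact ⟨_, add_mem a b, _, h.mul' ..⟩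
  inv_mem' := by
    rintro _ ⟨v, a, k, rfl⟩
    exact ⟨_, neg_mem a, _, h.inv' ..⟩

theorem ST.mem_pre (h : ST z r Q s ρ X) {U : AddSubgroup V} {g : G} :
    g ∈ h.pre U ↔ ∃ v ∈ U, ∃ k, g = s v * zp z k := Iff.rfl

/-- the image of `A ∩ C(z)` in `X` -/
def ST.im (h : ST z r Q s ρ X) (A : Subgroup G) : Subgroup GG := (A.subgroupOf 𝒞[z]).map h.hm

theorem ST.mem_im (h : ST z r Q s ρ X) {A : Subgroup G} {x : GG} :
    x ∈ h.im A ↔ ∃ g ∈ A, g ∈ 𝒞[z] ∧ ρ g = x :=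
  ⟨fun ⟨g, a, e⟩ => ⟨g, a, g.2, e⟩, fun ⟨g, a, b, e⟩ => ⟨⟨g, b⟩, a, e⟩⟩

/-- the involutions over `gd i` -/
structure DD (z r : G) (ρ : G → GG) (d : Fin 4 → G) : Prop where
  sq : ∀ i, d i * d i = 1
  dz : ∀ i, d i ∈ 𝒞[z]
  dr : ∀ i, d i ∈ 𝒞[r]
  rd : ∀ i, ρ (d i) = gd i

/-- Output of `StB`: the conjugate `y = g z g⁻¹` lies in `Q` over `± e0`. -/
structure YD (z : G) (Q : Subgroup G) (s : V → G) (ρ : G → GG) (g : G) : Prop where
  zQ : z ∈ cj g Q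
  ye : ∃ k, g * z * g⁻¹ = s e0 * zp z k ∨ g * z * g⁻¹ = s (-e0) * zp z k
  jj : ∀ j ∈ J0, ∃ c ∈ cj g Q, c ∈ 𝒞[z] ∧ ρ c = j

end Cfsg.Agent.B3
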