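/-
Project B3: basic properties of the coordinates.
-/
import Cfsg.Agent.B3.Defs

set_option autoImplicit false
set_option linter.unusedSectionVars false

namespace Cfsg.Agent.B3

open Subgroup H49 T3.Fr2 F3

variable {G : Type*} [Group G] [Finite G] {z r : G} {Q : Subgroup G} {s : V → G} {ρ : G → GG} {X : Subgroup GG}

theorem eq_of_smul_eq {a b : GG} (h : ∀ v : V, a • v = b • v) : a = b :=
  Units.ext (Matrix.ext fun i j => by simpa [smul_def] using congrFun (h (Pi.single j 1)) i)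

omit [Finite G] in
theorem conj_inv' (h : E1 z Q) {s t : G} (ss : s * s = 1) (tt : t * t = 1) (e : s * t ∈ Q) :
    ∃ q ∈ Q, q * s * q⁻¹ = t := by
  refine ⟨s * t, e, ?_⟩
  have k := h.exp _ e
  rw [pow_three'] at k
  rw [mul_inv_rev, inv_eq_of_mul_eq_one_right ss, inv_eq_of_mul_eq_one_right tt]
  calc s * t * s * (t * s) = s * t * (s * t) * (s * t) * t⁻¹ := by group
    _ = t := by rw [k, one_mul, inv_eq_of_mul_eq_one_right tt]

omit [Finite G] in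
theorem ST.uniq (h : ST z r Q s ρ X) {v w : V} {k l : F} (e : s v * zp z k = s w * zp z l) : v = w ∧ k = l := by
  have e1 : s (v - w) * zp z (om v (-w) + k + -l) = 1 := by
    rw [sub_eq_add_neg, ← h.mul', ← h.inv', e, mul_inv_cancel]
  have e2 : v = w := sub_eq_zero.1 (h.inj _ (by
    rw [eq_inv_of_mul_eq_one_left e1]; exact inv_mem (zp_mem (mem_zpowers z) _)))
  subst e2
  exact ⟨rfl, zp_inj h.z3 (mul_left_cancel e)⟩

omit [Finite G] in
theorem ST.conj_s (h : ST z r Q s ρ X) (v w : V) (k l : F) :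
    s v * zp z k * (s w * zp z l) * (s v * zp z k)⁻¹ = s w * zp z (l - om v w) := by
  rw [h.inv', h.mul', h.mul', om_neg_right, om_add_left, om_self, om_swap v w]
  congr 2
  · abel
  · have : (3 : F) = 0 := rfl
    linear_combination (om v w) * this

omit [Finite G] in
theorem ST.comm_iff (h : ST z r Q s ρ X) (v w : V) (k l : F) :
    s v * zp z k * (s w * zp z l) = s w * zp z l * (s v * zp z k) ↔ om v w = 0 := by
  rw [← mul_inv_eq_iff_eq_mul, h.conj_s]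
  exact ⟨fun e => by simpa using (h.uniq e).2, fun e => by rw [e, sub_zero]⟩

omit [Finite G] in
theorem ST.mem_Z (h : ST z r Q s ρ X) {v : V} {k : F} : s v * zp z k ∈ zpowers z ↔ v = 0 := by
  rw [mul_mem_cancel_right (zp_mem (mem_zpowers z) _)]
  exact ⟨h.inj v, fun e => by rw [e, h.s_zero]; exact one_mem _⟩

omit [Finite G] in
theorem ST.rho_one (h : ST z r Q s ρ X) : ρ 1 = 1 := h.hm.map_one

omit [Finite G] in
theorem ST.rho_inv (h : ST z r Q s ρ X) {g : G} (hg : g ∈ 𝒞[z]) : ρ g⁻¹ = (ρ g)⁻¹ := h.hm.map_inv ⟨g, hg⟩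

omit [Finite G] in
theorem ST.rho_pow (h : ST z r Q s ρ X) {g : G} (hg : g ∈ 𝒞[z]) (n : ℕ) : ρ (g ^ n) = ρ g ^ n := h.hm.map_pow ⟨g, hg⟩ n

omit [Finite G] in
theorem ST.rho_conj (h : ST z r Q s ρ X) {g k : G} (hg : g ∈ 𝒞[z]) (hk : k ∈ 𝒞[z]) :
    ρ (g * k * g⁻¹) = ρ g * ρ k * (ρ g)⁻¹ := by
  rw [h.hom _ (mul_mem hg hk) _ (inv_mem hg), h.hom _ hg _ hk, h.rho_inv hg]

omit [Finite G] in
theorem ST.rho_mem (h : ST z r Q s ρ X) {g : G} (hg : g ∈ 𝒞[z]) : ρ g ∈ X := (h.img _).2 ⟨g, hg, rfl⟩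

omit [Finite G] in
theorem ST.ker (h : ST z r Q s ρ X) {g : G} (hg : g ∈ 𝒞[z]) : ρ g = 1 ↔ g ∈ Q := by
  constructor
  · intro e
    refine h.faith g hg fun q hq => ?_
    obtain ⟨v, k, rfl⟩ := (h.memQ q).1 hq
    obtain ⟨l, e1⟩ := h.act g hg v
    rw [e, one_smul] at e1
    rw [← mul_assoc, mul_assoc _ (zp z k), h.zp_cent (inv_mem hg), ← mul_assoc, e1, mul_inv_rev,
      mul_assoc _ (zp z k), mul_inv_cancel_left, Z_conj (h.Qc (h.s_mem v)) (zp_mem (mem_zpowers z) _)]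
    exact zp_mem (mem_zpowers z) _
  · intro hq
    refine eq_of_smul_eq fun v => ?_
    obtain ⟨l, e1⟩ := h.act g hg v
    obtain ⟨w, k, rfl⟩ := (h.memQ g).1 hq
    have := h.conj_s w v k 0
    rw [zp_zero, mul_one, e1] at this
    rw [one_smul, (h.uniq this).1]

omit [Finite G] in
theorem ST.rho_r (h : ST z r Q s ρ X) : ρ r = -1 := eq_of_smul_eq fun v => by
  obtain ⟨l, e⟩ := h.act r h.rz v
  rw [h.rs, ← mul_one (s (-v)), ← zp_zero z] at e
  rw [← (h.uniq e).1, Units.neg_smul, one_smul]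

omit [Finite G] in
theorem ST.act' (h : ST z r Q s ρ X) {g : G} (hg : g ∈ 𝒞[z]) (v : V) (k : F) :
    ∃ l, g * (s v * zp z k) * g⁻¹ = s (ρ g • v) * zp z l := by
  obtain ⟨l, e⟩ := h.act g hg v
  exact ⟨l + k, by
    rw [← mul_assoc, mul_assoc _ (zp z k), h.zp_cent (inv_mem hg), ← mul_assoc, e, zp_add h.zc, mul_assoc]⟩

omit [Finite G] in
theorem ST.actL (h : ST z r Q s ρ X) {l : G} (hz : l ∈ 𝒞[z]) (hr : l ∈ 𝒞[r]) (v : V) :
    l * s v * l⁻¹ = s (ρ l • v) := by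
  obtain ⟨k, e⟩ := h.act l hz v
  have e1 : r * (l * s v * l⁻¹) * r⁻¹ = (l * s v * l⁻¹)⁻¹ := by
    rw [show r * (l * s v * l⁻¹) * r⁻¹ = r * l * s v * (r * l)⁻¹ by group, ← mem_cent1.1 hr,
      show l * r * s v * (l * r)⁻¹ = l * (r * s v * r⁻¹) * l⁻¹ by group, h.rs, h.s_neg]
    group
  rw [e, h.inv', ← mul_assoc, mul_assoc _ (zp z k), h.zp_cent (inv_mem h.rz), ← mul_assoc, h.rs] at e1
  have e2 := (h.uniq e1).2
  rw [e, show k = 0 by revert e2; generalize k = k; revert k; decide, zp_zero, mul_one]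

omit [Finite G] in
theorem ST.dec (h : ST z r Q s ρ X) {g : G} (hg : g ∈ 𝒞[z]) :
    ∃ l ∈ 𝒞[z], l ∈ 𝒞[r] ∧ ρ l = ρ g ∧ ∃ q, g = s q * l := by
  have c : g * r * g⁻¹ ∈ 𝒞[z] := mul_mem (mul_mem hg h.rz) (inv_mem hg)
  obtain ⟨q, hq, e⟩ := conj_inv' h.toE1 (s := g * r * g⁻¹) (t := r)
    (by rw [show g * r * g⁻¹ * (g * r * g⁻¹) = g * (r * r) * g⁻¹ by group, h.r2]; group) h.r2
    ((h.ker (mul_mem c h.rz)).1 (by rw [h.hom _ c _ h.rz, h.rho_conj hg h.rz, h.rho_r]; simp))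
  obtain ⟨v, k, e1⟩ := (h.memQ _).1 (inv_mem hq)
  have zk := zp_mem (mem_zpowers z) k
  have hl : zp z k * (q * g) ∈ 𝒞[z] := mul_mem (zp_mem (self_mem_cent1 z) k) (mul_mem (h.Qc hq) hg)
  refine ⟨_, hl, mul_mem (mem_cent1.2 (Z_comm h.rz zk)) (mem_cent1.2 ?_), ?_, v, ?_⟩
  · rw [← mul_inv_eq_iff_eq_mul]
    exact Eq.trans (by group) e
  · rw [← mul_assoc, h.hom _ (h.Qc (mul_mem (zp_mem h.zQ k) hq)) _ hg,
      (h.ker (h.Qc (mul_mem (zp_mem h.zQ k) hq))).2 (mul_mem (zp_mem h.zQ k) hq), one_mul]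
  · rw [← mul_assoc, ← e1, inv_mul_cancel_left]

omit [Finite G] in
theorem ST.liftL (h : ST z r Q s ρ X) {x : GG} (hx : x ∈ X) : ∃ l ∈ 𝒞[z], l ∈ 𝒞[r] ∧ ρ l = x := by
  obtain ⟨g, hg, rfl⟩ := (h.img x).1 hx
  obtain ⟨l, a, b, c, -⟩ := h.dec hg
  exact ⟨l, a, b, c⟩

omit [Finite G] in
theorem ST.kerL (h : ST z r Q s ρ X) {l : G} (hz : l ∈ 𝒞[z]) (hr : l ∈ 𝒞[r]) (e : ρ l = 1) : l ∈ zpowers z := by
  refine h.cen l ((h.ker hz).1 e) fun b hb => ?_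
  obtain ⟨v, k, rfl⟩ := (h.memQ b).1 hb
  have := h.actL hz hr v
  rw [e, one_smul, mul_inv_eq_iff_eq_mul] at this
  rw [← mul_assoc, this, mul_assoc, ← h.zp_cent hz, mul_assoc]

omit [Finite G] in
theorem ST.lift4 (h : ST z r Q s ρ X) {x : GG} (hx : x ∈ X) (h4 : x ^ 4 = 1) :
    ∃ l ∈ 𝒞[z], l ∈ 𝒞[r] ∧ ρ l = x ∧ l ^ 4 = 1 := by
  obtain ⟨l, a, b, rfl⟩ := h.liftL hx
  have := h.kerL (pow_mem a 4) (pow_mem b 4) (by rw [h.rho_pow a, h4])
  have e := h.exp _ (zpowers_le.2 h.zQ this)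
  refine ⟨l ^ 9, pow_mem a 9, pow_mem b 9, ?_, ?_⟩
  · rw [h.rho_pow a, show 9 = 4 * 2 + 1 from rfl, pow_succ, pow_mul, h4, one_pow, one_mul]
  · rw [← pow_mul, show 9 * 4 = 4 * 3 * 3 from rfl, pow_mul, pow_mul, e, one_pow]

omit [Finite G] in
theorem ST.eqL (h : ST z r Q s ρ X) {a b : G} (az : a ∈ 𝒞[z]) (ar : a ∈ 𝒞[r]) (bz : b ∈ 𝒞[z]) (br : b ∈ 𝒞[r])
    (e : ρ a = ρ b) (ha : a ^ 4 = 1) (hb : b ^ 4 = 1) : a = b := by
  have c := h.kerL (mul_mem (inv_mem bz) az) (mul_mem (inv_mem br) ar)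
    (by rw [h.hom _ (inv_mem bz) _ az, h.rho_inv bz, e, inv_mul_cancel])
  have e3 := h.exp _ (zpowers_le.2 h.zQ c)
  have cm : Commute b (b⁻¹ * a) := (Z_comm bz c).symm
  have e4 : (b * (b⁻¹ * a)) ^ 4 = 1 := by rw [mul_inv_cancel_left, ha]
  rw [cm.mul_pow, hb, one_mul, pow_succ, e3, one_mul] at e4
  exact (inv_mul_eq_one.1 e4).symm

omit [Finite G] in
theorem ST.commL (h : ST z r Q s ρ X) {a b : G} (az : a ∈ 𝒞[z]) (ar : a ∈ 𝒞[r]) (bz : b ∈ 𝒞[z]) (br : b ∈ 𝒞[r])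
    (e : Commute (ρ a) (ρ b)) (hb : b ^ 4 = 1) : Commute a b := by
  have := h.eqL (mul_mem (mul_mem az bz) (inv_mem az)) (mul_mem (mul_mem ar br) (inv_mem ar)) bz br
    (by rw [h.rho_conj az bz, e.eq, mul_inv_cancel_right]) (by rw [conj_pow, hb]; group) hb
  exact mul_inv_eq_iff_eq_mul.1 this

omit [Finite G] in
theorem ST.conj (h : ST z r Q s ρ X) (g : G) :
    ST (g * z * g⁻¹) (g * r * g⁻¹) (cj g Q) (fun v => g * s v * g⁻¹) (fun c => ρ (g⁻¹ * c * g)) X := by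
  have zc : ∀ k, zp (g * z * g⁻¹) k = g * zp z k * g⁻¹ := fun k => conj_pow
  have mc : ∀ c, c ∈ 𝒞[g * z * g⁻¹] ↔ g⁻¹ * c * g ∈ 𝒞[z] := fun c => by rw [← cj_cent1, mem_cj]
  exact
    { toE1 := h.toE1.conj g
      memQ := fun c => by
        simp only [mem_cj, h.memQ, zc]
        exact ⟨fun ⟨v, k, e⟩ => ⟨v, k, by rw [conj_mul, ← e]; group⟩, fun ⟨v, k, e⟩ => ⟨v, k, by rw [e]; group⟩⟩
      mul := fun v w => by rw [zc, conj_mul, conj_mul, h.mul]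
      inj := fun v e => h.inj v (Bas1a.mz.1 e)
      r2 := by rw [conj_mul, h.r2]; group
      rz := Bas1a.mc.2 h.rz
      rs := fun v => by rw [← h.rs]; group
      hom := fun a ha b hb => by
        rw [← h.hom _ ((mc a).1 ha) _ ((mc b).1 hb)]; congr 1; group
      act := fun a ha v => by
        obtain ⟨k, e⟩ := h.act _ ((mc a).1 ha) v
        exact ⟨k, by rw [zc, conj_mul, ← e]; group⟩
      img := fun x => (h.img x).trans ⟨fun ⟨c, hc, e⟩ => ⟨_, Bas1a.mc.2 hc, by rw [← e]; congr 1; group⟩,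
        fun ⟨c, hc, e⟩ => ⟨_, (mc c).1 hc, e⟩⟩
      XH := h.XH
      RX := h.RX }

omit [Finite G] in
theorem ST.recoord (h : ST z r Q s ρ X) {f : GG} (hf : f ∈ HH) :
    ST z r Q (fun v => s (f⁻¹ • v)) (fun c => f * ρ c * f⁻¹) (cj f X) :=
  { toE1 := h.toE1
    memQ := fun c => (h.memQ c).trans ⟨fun ⟨v, k, e⟩ => ⟨f • v, k, by rw [inv_smul_smul, e]⟩,
      fun ⟨v, k, e⟩ => ⟨_, k, e⟩⟩
    mul := fun v w => by rw [h.mul, smul_add, om_smul (inv_mem hf)]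
    inj := fun v e => by rw [← smul_inv_smul f v, h.inj _ e, smul_zero]
    r2 := h.r2
    rz := h.rz
    rs := fun v => by rw [h.rs, smul_neg]
    hom := fun a ha b hb => by rw [h.hom a ha b hb]; group
    act := fun a ha v => by
      obtain ⟨k, e⟩ := h.act a ha (f⁻¹ • v)
      exact ⟨k, by rw [e, mul_smul, mul_smul, inv_smul_smul]⟩
    img := fun x => by
      rw [mem_cj, h.img]
      exact ⟨fun ⟨c, hc, e⟩ => ⟨c, hc, by rw [e]; group⟩, fun ⟨c, hc, e⟩ => ⟨c, hc, by rw [← e]; group⟩⟩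
    XH := cj_le_of_mem h.XH hf
    RX := by
      have := cj_mono f h.RX
      rwa [cj_eq_of_mem_norm (HH_le_norm hf)] at this }

omit [Finite G] in
theorem ST.card_pre' (h : ST z r Q s ρ X) (U : AddSubgroup V) : Nat.card (h.pre U) = 3 * Nat.card U := by
  rw [← Nat.card_eq_of_bijective (fun x : U × F => (⟨_, x.1, x.1.2, x.2, rfl⟩ : h.pre U))
    ⟨fun x y e => let a := h.uniq (congrArg Subtype.val e); Prod.ext (Subtype.ext a.1) a.2,
      fun ⟨_, v, hv, k, e⟩ => ⟨(⟨v, hv⟩, k), Subtype.ext e.symm⟩⟩, Nat.card_prod, Nat.card_zmod, mul_comm]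

theorem ST.card_bar (h : ST z r Q s ρ X) {A : Subgroup G} (hA : A ≤ Q) (hz : z ∈ A) :
    Nat.card A = 3 * Nat.card (h.bar A) := by
  rw [← h.card_pre', show h.pre (h.bar A) = A from le_antisymm ?_ fun g hg => ?_]
  · rintro _ ⟨v, ⟨k, a⟩, l, rfl⟩
    exact mul_mem ((mul_mem_cancel_right (zp_mem hz k)).1 a) (zp_mem hz l)
  · obtain ⟨v, k, rfl⟩ := (h.memQ g).1 (hA hg)
    exact ⟨v, ⟨k, hg⟩, k, rfl⟩

theorem ST.card_bar' (h : ST z r Q s ρ X) {A : Subgroup G} (hA : A ≤ Q) (hz : z ∉ A) :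
    Nat.card A = Nat.card (h.bar A) := by
  symm
  refine Nat.card_eq_of_bijective (fun v => ⟨_, v.2.choose_spec⟩) ⟨fun v w e => ?_, fun ⟨g, hg⟩ => ?_⟩
  · exact Subtype.ext (h.uniq (congrArg Subtype.val e)).1
  · obtain ⟨v, k, rfl⟩ := (h.memQ g).1 (hA hg)
    refine ⟨⟨v, k, hg⟩, Subtype.ext ?_⟩
    have a := (⟨k, hg⟩ : ∃ k, s v * zp z k ∈ A).choose_spec
    change s v * zp z (⟨k, hg⟩ : ∃ k, s v * zp z k ∈ A).choose = s v * zp z k
    generalize (⟨k, hg⟩ : ∃ k, s v * zp z k ∈ A).choose = l at a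
    have b := mul_mem (inv_mem a) hg
    rw [h.inv', h.mul', neg_add_cancel, h.s_zero, one_mul, om_neg_left, om_self, neg_zero, zero_add] at b
    have : -l + k = 0 ∨ -l + k = 1 ∨ -l + k + (-l + k) = 1 := by generalize -l + k = m; revert m; decide
    rcases this with e | e | e
    · rw [neg_add_eq_zero.1 e]
    · rw [e, zp_one] at b; exact (hz b).elim
    · have := mul_mem b b
      rw [← zp_add h.zc, e, zp_one] at this; exact (hz this).elim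

theorem ST.card_pre (h : ST z r Q s ρ X) (U : AddSubgroup V) : Nat.card (h.pre U) = 3 * Nat.card U := h.card_pre' U

theorem ST.card_Q (h : ST z r Q s ρ X) : Nat.card Q = 19683 := by
  rw [show Q = h.pre ⊤ from Subgroup.ext fun g => by simp [h.memQ, h.mem_pre], h.card_pre, AddSubgroup.card_top]
  simp

theorem ST.card_im (h : ST z r Q s ρ X) {A : Subgroup G} (hA : A ≤ 𝒞[z]) :
    Nat.card A = Nat.card ↥(A ⊓ Q) * Nat.card (h.im A) := by
  let f : A →* GG := h.hm.comp (inclusion hA)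
  have k1 : f.ker = (A ⊓ Q).subgroupOf A := Subgroup.ext fun g => by
    rw [MonoidHom.mem_ker, mem_subgroupOf, mem_inf, and_iff_right g.2]; exact h.ker (hA g.2)
  have k2 : f.range = h.im A := Subgroup.ext fun x => by
    rw [h.mem_im]
    exact ⟨fun ⟨g, e⟩ => ⟨g, g.2, hA g.2, e⟩, fun ⟨g, a, _, e⟩ => ⟨⟨g, a⟩, e⟩⟩
  rw [← f.ker.card_mul_index, index_ker, k1, k2, Nat.card_congr (subgroupOfEquivOfLe inf_le_left).toEquiv]

end Cfsg.Agent.B3
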