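import Cfsg.Agent.B3.ModW
import Cfsg.Agent.H42.Index2

set_option autoImplicit false

namespace Cfsg.Agent.B3

open Subgroup H49 T3.Fr2 F3
open Cfsg.Agent.H14 (force force_eq)

attribute [local irreducible] gm

namespace MK

theorem mem_inf3 {Γ : Type*} [Group Γ] {X : Subgroup Γ} {a b g : Γ} :
    g ∈ X ⊓ 𝒞[a] ⊓ 𝒞[b] ↔ g ∈ X ∧ g * a = a * g ∧ g * b = b * g := by
  rw [mem_inf, mem_inf, mem_cent1, mem_cent1, and_assoc]

theorem mem_inf2 {Γ : Type*} [Group Γ] {X : Subgroup Γ} {a g : Γ} :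
    g ∈ X ⊓ 𝒞[a] ↔ g ∈ X ∧ g * a = a * g := by
  rw [mem_inf, mem_cent1]

theorem quot3 {Γ : Type*} [Group Γ] [Finite Γ] {A B : Subgroup Γ} (hA : A ≤ B) (hn : B ≤ 𝒩(A)) {T : Γ}
    (hT : T ∈ B) (h3 : T ^ 3 = 1) (h : ∀ x ∈ B, ∃ k : ℕ, T ^ k * x ∈ A) {m : ℕ} (hm : Nat.card A = m) :
    (∀ x ∈ B, x ^ 3 ∈ A) ∧ Nat.card B ∣ 3 * m := by
  subst hm
  haveI : (A.subgroupOf B).Normal := ⟨fun _ a g => conj_mem_of_norm hn g.2 a⟩
  have : zpowers (QuotientGroup.mk (s := A.subgroupOf B) ⟨T, hT⟩) = ⊤ := eq_top_iff.2 fun q _ => by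
    obtain ⟨x, rfl⟩ := QuotientGroup.mk_surjective q
    obtain ⟨k, hk⟩ := h x x.2
    have : (QuotientGroup.mk (s := A.subgroupOf B) ⟨T, hT⟩) ^ k * QuotientGroup.mk x = 1 := by
      rw [← QuotientGroup.mk_pow, ← QuotientGroup.mk_mul, QuotientGroup.eq_one_iff]
      exact hk
    rw [eq_inv_of_mul_eq_one_right this]
    exact inv_mem (pow_mem (mem_zpowers _) k)
  have q : Nat.card (B ⧸ A.subgroupOf B) ∣ 3 := by
    rw [← card_top, ← this, Nat.card_zpowers]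
    refine orderOf_dvd_of_pow_eq_one ?_
    rw [← QuotientGroup.mk_pow, show (⟨T, hT⟩ : B) ^ 3 = 1 from Subtype.ext h3, QuotientGroup.mk_one]
  refine ⟨fun x hx => ?_, ?_⟩
  · have h3 : (QuotientGroup.mk (s := A.subgroupOf B) ⟨x, hx⟩) ^ 3 = 1 :=
      orderOf_dvd_iff_pow_eq_one.1 ((_root_.orderOf_dvd_natCard _).trans q)
    rwa [← QuotientGroup.mk_pow, QuotientGroup.eq_one_iff] at h3
  · rw [card_eq_card_quotient_mul_card_subgroup (A.subgroupOf B),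
      Nat.card_congr (subgroupOfEquivOfLe hA).toEquiv]
    exact mul_dvd_mul_right q _

theorem perm3 {Γ : Type*} [Group Γ] [Finite Γ] {A B : Subgroup Γ} (hA : A ≤ B) (d : Fin 3 → Γ)
    (inj : ∀ i j, d i = d j → i = j) (h : ∀ x ∈ B, ∀ i, ∃ j, x * d i * x⁻¹ = d j)
    (hk : ∀ x ∈ B, x ∈ A ↔ ∀ i, Commute x (d i)) {m : ℕ} (hm : Nat.card A ∣ m) : Nat.card B ∣ m * 6 := by
  choose σ hσ using fun x : B => h x x.2
  let φ : B →* Equiv.Perm (Fin 3) := MonoidHom.toHomPerm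
    { toFun := σ
      map_one' := funext fun i => inj _ _ (by rw [← hσ]; simp; rfl)
      map_mul' := fun x y => funext fun i => inj _ _ (by
        show _ = d (σ x (σ y i))
        rw [← hσ, ← hσ, ← hσ, coe_mul]; group) }
  have hk : φ.ker = A.subgroupOf _ := by
    ext x
    rw [MonoidHom.mem_ker, mem_subgroupOf, hk x x.2, Equiv.ext_iff]
    refine forall_congr' fun i => ⟨fun e => ?_, fun e => inj _ _ ?_⟩
    · have := hσ x i
      rw [show σ x i = i from e] at this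
      exact mul_inv_eq_iff_eq_mul.1 this
    · show d (σ x i) = d i
      rw [← hσ, e.eq, mul_inv_cancel_right]
  have h2 : Nat.card φ.range ∣ 6 := by
    have := card_subgroup_dvd_card φ.range
    rwa [Nat.card_perm, Nat.card_fin] at this
  rw [← φ.ker.card_mul_index, index_ker, hk, Nat.card_congr (subgroupOfEquivOfLe hA).toEquiv]
  exact mul_dvd_mul hm h2

theorem fs {Γ : Type*} [Group Γ] {d : Fin 4 → Γ} {x : Γ} (h : x * d 0 = d 0 * x) :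
    (∀ i, Commute x (d i)) ↔ ∀ i : Fin 3, Commute x (d i.succ) := by
  rw [Fin.forall_fin_succ]; exact and_iff_right h

theorem reps' {A B : Subgroup GG} (hA : A ≤ B) {n : ℕ} (c : Fin n → GG) (hc : ∀ i, c i ∈ B)
    (h : ∀ i j, (c i)⁻¹ * c j ∈ A → i = j) {m : ℕ} (hm : m ≤ Nat.card A) : n * m ≤ Nat.card B :=
  (Nat.mul_le_mul_left n hm).trans (card_reps hA c hc h)

theorem reps2 (g : ℕ → GG) {A B : Subgroup GG} (hA : A ≤ B) {n : ℕ} (c : Fin n → ℕ) (hc : ∀ i, g (c i) ∈ B)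
    (h : ∀ i j, (g (c i))⁻¹ * g (c j) ∈ A → i = j) {m : ℕ} (hm : m ≤ Nat.card A) : n * m ≤ Nat.card B :=
  reps' hA _ hc h hm

theorem perm3' {A B : Subgroup GG} (hA : A ≤ B) (d : Fin 4 → GG)
    (inj : ∀ i j : Fin 3, d i.succ = d j.succ → i = j)
    (h : ∀ x ∈ B, ∀ i : Fin 3, ∃ j : Fin 3, x * d i.succ * x⁻¹ = d j.succ)
    (hk : ∀ x ∈ B, x ∈ A ↔ ∀ i : Fin 3, Commute x (d i.succ)) {m : ℕ} (hm : Nat.card A ∣ m) :
    Nat.card B ∣ m * 6 := perm3 hA (fun i => d i.succ) inj h hk hm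

theorem cm2 {x a b c : GG} (e : c = a * b) (h1 : x * a = a * x) (h2 : x * c = c * x) : x * b = b * x := by
  have := (Commute.inv_right h1).mul_right h2
  rwa [e, inv_mul_cancel_left] at this

theorem ga_eq : ga = gI 1 * gI 2 := pk_inj (by rw [pk_ga, pk_mul, pk_gI, pk_gI])
theorem gb_eq : gb = gJ 1 * gJ 2 := pk_inj (by rw [pk_gb, pk_mul, pk_gJ, pk_gJ])

theorem chain' {X : Subgroup GG} {a : GG} {L : List ℕ} (h : ∀ x ∈ X, pk (x * a * x⁻¹) ∈ L) {m : ℕ}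
    (hm : Nat.card ↥(X ⊓ 𝒞[a]) ≤ m) : Nat.card X ≤ L.length * m :=
  (card_chain X a L h).trans (Nat.mul_le_mul_left _ hm)

theorem sup' {A : Subgroup GG} {t : GG} (hn : t ∈ 𝒩(A)) (h2 : t * t ∈ A) (ht : t ∉ A) {m : ℕ}
    (hm : m ≤ Nat.card A) : 2 * m ≤ Nat.card ↥(A ⊔ zpowers t) := by
  rw [H42.card_sup_zpowers hn h2 ht]; omega

theorem HN : HH ≤ NN := inf_le_left
theorem HS : HH ≤ Sp := inf_le_right
theorem KK_eq : KK = HH ⊓ 𝒞[ga] ⊓ 𝒞[gb] := rfl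
theorem mem_KK' {g : GG} : g ∈ KK ↔ g ∈ HH ∧ g * ga = ga * g ∧ g * gb = gb * g := by
  rw [KK_eq, mem_inf3]

def A8c : Fin 8 → ℕ := ![85070916250026219054240312625736187905, 170141832500052438108480625251472375810,
  1329390264965567632005426004115849280, 2658537126160610972541201290884022400,
  139572286202352377084366087641867288661, 199386024816169983390030720777341763754,
  112986448475351568399632526052551164009, 225971862543170792074764282366657888406]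

def A8L : List ℕ := List.ofFn A8c

noncomputable def a8 : Fin 8 → GG := ![1, -1, ga, -ga, gb, -gb, ga * gb, -(ga * gb)]

theorem pk_a8 (i : Fin 8) : pk (a8 i) = A8c i := by
  fin_cases i <;>
    simp only [a8, Fin.reduceFinMk, Matrix.cons_val, Fin.isValue, Fin.zero_eta, Fin.mk_one,
      Matrix.cons_val_zero, Matrix.cons_val_one, pk_one, pk_neg_one, pk_neg, pk_mul, pk_ga, pk_gb] <;>
    decide +kernel

theorem n1A : (-1 : GG) ∈ A8 := subset_closure (by simp)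
theorem gaA : ga ∈ A8 := subset_closure (by simp)
theorem gbA : gb ∈ A8 := subset_closure (by simp)
theorem negA {g : GG} (h : g ∈ A8) : -g ∈ A8 := neg_one_mul g ▸ mul_mem n1A h

theorem a8_mem (i : Fin 8) : a8 i ∈ A8 := by
  fin_cases i
  exacts [one_mem _, n1A, gaA, negA gaA, gbA, negA gbA, mul_mem gaA gbA, negA (mul_mem gaA gbA)]

theorem ga_sq : ga * ga = 1 := pk_inj (by simp only [pk_mul, pk_ga, pk_one]; decide +kernel)
theorem gb_sq : gb * gb = 1 := pk_inj (by simp only [pk_mul, pk_gb, pk_one]; decide +kernel)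

theorem mem_A8 {g : GG} : g ∈ A8 ↔ pk g ∈ A8L := by
  refine ⟨fun h => ?_, fun h => ?_⟩
  · have key : ∀ x ∈ A8L, mulN negN x ∈ A8L ∧ mulN (mulN (cI 1) (cI 2)) x ∈ A8L ∧
        mulN (mulN (cJ 1) (cJ 2)) x ∈ A8L := by decide +kernel
    induction h using closure_induction_left with
    | one => rw [pk_one]; decide +kernel
    | mul_left x hx y _ ih =>
      rcases hx with rfl | rfl | rfl <;> rw [pk_mul]
      · rw [pk_neg_one]; exact (key _ ih).1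
      · rw [pk_ga]; exact (key _ ih).2.1
      · rw [pk_gb]; exact (key _ ih).2.2
    | inv_mul_cancel x hx y _ ih =>
      rcases hx with rfl | rfl | rfl
      · rw [inv_neg_one, pk_mul, pk_neg_one]; exact (key _ ih).1
      · rw [inv_eq_of_mul_eq_one_right ga_sq, pk_mul, pk_ga]; exact (key _ ih).2.1
      · rw [inv_eq_of_mul_eq_one_right gb_sq, pk_mul, pk_gb]; exact (key _ ih).2.2
  · obtain ⟨i, e⟩ := List.mem_ofFn.1 h
    rw [← pk_inj ((pk_a8 i).trans e)]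
    exact a8_mem i

theorem sqA {g : GG} (h : g ∈ A8) : g * g = 1 :=
  pk_inj (by
    rw [pk_mul, pk_one]
    exact (by decide +kernel : ∀ x ∈ A8L, mulN x x = oneN) _ (mem_A8.1 h))

theorem card_A8 : 8 ≤ Nat.card A8 := by
  exact reps' (A := ⊥) (B := A8) bot_le a8 a8_mem (fun i j h =>
    (by decide +kernel : ∀ i j, A8c i = A8c j → i = j) i j (by
      rw [← pk_a8, ← pk_a8, inv_mul_eq_one.1 (mem_bot.1 h)])) (m := 1) card_bot.ge

theorem AR : A8 ≤ R0 := fun _ h => mem_R0.2 ((by decide +kernel : ∀ x ∈ A8L, x ∈ R0L) _ (mem_A8.1 h))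

/-- the centraliser of `A8` in the full normaliser -/
noncomputable def KN : Subgroup GG := NN ⊓ 𝒞[ga] ⊓ 𝒞[gb]

theorem KN_eq : KN = NN ⊓ 𝒞[ga] ⊓ 𝒞[gb] := rfl
theorem mem_KN {g : GG} : g ∈ KN ↔ g ∈ NN ∧ g * ga = ga * g ∧ g * gb = gb * g := by
  rw [KN_eq, mem_inf3]

theorem KK_le : KK ≤ KN := fun _ h => mem_KN.2 ⟨HN (mem_KK'.1 h).1, (mem_KK'.1 h).2⟩
theorem KKH : KK ≤ HH := fun _ h => (mem_KK'.1 h).1

theorem cA_of {g : GG} (h1 : g * ga = ga * g) (h2 : g * gb = gb * g) : g ∈ 𝒞(A8) := by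
  rw [A8, centralizer_closure, mem_centralizer_iff]
  rintro _ (rfl | rfl | rfl)
  exacts [by simp, h1.symm, h2.symm]

theorem KN_cent : KN ≤ 𝒞(A8) := fun _ h => cA_of (mem_KN.1 h).2.1 (mem_KN.1 h).2.2

theorem cjA {g a : GG} (h : g ∈ 𝒞(A8)) (ha : a ∈ A8) : g * a * g⁻¹ = a := by
  rw [← mem_centralizer_iff.1 h a ha, mul_inv_cancel_right]

noncomputable def K0N : Subgroup GG := Cm KN A8 (gI 0) ⊓ Cm KN A8 (gJ 0)

theorem mem_K0N' {g : GG} (a : Fin 3) : g ∈ Cm KN A8 (gI a) ⊓ Cm KN A8 (gJ a) ↔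
    g ∈ KN ∧ g * gI a * g⁻¹ * (gI a)⁻¹ ∈ A8 ∧ g * gJ a * g⁻¹ * (gJ a)⁻¹ ∈ A8 :=
  mem_Cm2 (norm_of_cent KN_cent)

theorem K0N_eq : K0N = Cm KN A8 (gI 0) ⊓ Cm KN A8 (gJ 0) := rfl

theorem mem_K0N {g : GG} :
    g ∈ K0N ↔ g ∈ KN ∧ g * gI 0 * g⁻¹ * (gI 0)⁻¹ ∈ A8 ∧ g * gJ 0 * g⁻¹ * (gJ 0)⁻¹ ∈ A8 :=
  K0N_eq ▸ mem_K0N' 0

theorem K0_le_N : K0 ≤ K0N := fun _ h =>
  mem_K0N.2 ⟨KK_le (mem_K0.1 h).1, (mem_K0.1 h).2⟩

theorem cjR {x a : GG} (hx : x ∈ NN) (ha : a ∈ R0) : x * a * x⁻¹ ∈ R0 :=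
  H42.conj_mem_of_mem_normalizer hx ha

theorem cj_comm {x a b : GG} {c : ℕ} (hc : pk b = c) (hb : x * b = b * x) (h : a * b = b * a) :
    mulN (pk (x * a * x⁻¹)) c = mulN c (pk (x * a * x⁻¹)) := by
  have e : x * b * x⁻¹ = b := by rw [hb, mul_inv_cancel_right]
  rw [← hc, ← pk_mul, ← pk_mul, ← e, conj_mul, conj_mul, h]

theorem cj_sq {x a : GG} (h : a * a = -1) : mulN (pk (x * a * x⁻¹)) (pk (x * a * x⁻¹)) = negN := by
  rw [← pk_mul, conj_mul, h, ← pk_neg_one]; congr 1; simp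

/-- the centraliser of `I₀, J₀, ga, gb` -/
noncomputable def DN : Subgroup GG := KN ⊓ 𝒞[gI 0] ⊓ 𝒞[gJ 0]

theorem DN_eq : DN = KN ⊓ 𝒞[gI 0] ⊓ 𝒞[gJ 0] := rfl
theorem mem_DN {g : GG} : g ∈ DN ↔ (g ∈ NN ∧ g * ga = ga * g ∧ g * gb = gb * g) ∧
    g * gI 0 = gI 0 * g ∧ g * gJ 0 = gJ 0 * g := by
  rw [DN_eq, mem_inf3, mem_KN]

theorem cm {a b : GG} (h : mulN (pk a) (pk b) = mulN (pk b) (pk a)) : a * b = b * a :=
  pk_inj (by rw [pk_mul, pk_mul, h])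

theorem ncm {a b : GG} (h : mulN (pk a) (pk b) ≠ mulN (pk b) (pk a)) : a * b ≠ b * a := fun e =>
  h (by rw [← pk_mul, ← pk_mul, e])

theorem card_DN : Nat.card DN ≤ 16 := by
  have k1 : ∀ c ∈ R0L, mulN c c = negN → mulN c (cI 0) = mulN (cI 0) c → mulN c (cJ 0) = mulN (cJ 0) c →
      mulN c (mulN (cI 1) (cI 2)) = mulN (mulN (cI 1) (cI 2)) c →
      c ∈ [cI 1, cI 2, mulN negN (cI 1), mulN negN (cI 2)] := by decide +kernel
  have k2 : ∀ c ∈ R0L, mulN c c = negN → mulN c (cI 0) = mulN (cI 0) c → mulN c (cJ 0) = mulN (cJ 0) c →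
      mulN c (mulN (cJ 1) (cJ 2)) = mulN (mulN (cJ 1) (cJ 2)) c → mulN c (cI 2) = mulN (cI 2) c →
      c ∈ [cJ 1, mulN negN (cJ 1)] := by decide +kernel
  have i2 : ∀ x ∈ DN, x * gI 1 = gI 1 * x → x * gI 2 = gI 2 * x := fun x hx h =>
    cm2 ga_eq h (mem_DN.1 hx).1.2.1
  have h1 : ∀ x ∈ DN, pk (x * gI 1 * x⁻¹) ∈ _ := fun x hx => by
    obtain ⟨⟨a, b, -⟩, c, d⟩ := mem_DN.1 hx
    exact k1 _ (mem_R0.1 (cjR a (gI_mem 1))) (cj_sq (gI_sq 1))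
      (cj_comm (pk_gI 0) c (cm (by simp only [pk_gI]; decide +kernel)))
      (cj_comm (pk_gJ 0) d (cm (by simp only [pk_gI, pk_gJ]; decide +kernel)))
      (cj_comm pk_ga b (cm (by simp only [pk_gI, pk_ga]; decide +kernel)))
  have h2 : ∀ x ∈ DN ⊓ 𝒞[gI 1], pk (x * gJ 1 * x⁻¹) ∈ _ := fun x hx => by
    obtain ⟨hx, e⟩ := mem_inf2.1 hx
    obtain ⟨⟨a, -, b⟩, c, d⟩ := mem_DN.1 hx
    exact k2 _ (mem_R0.1 (cjR a (gJ_mem 1))) (cj_sq (gJ_sq 1))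
      (cj_comm (pk_gI 0) c (cm (by simp only [pk_gI, pk_gJ]; decide +kernel)))
      (cj_comm (pk_gJ 0) d (cm (by simp only [pk_gJ]; decide +kernel)))
      (cj_comm pk_gb b (cm (by simp only [pk_gJ, pk_gb]; decide +kernel)))
      (cj_comm (pk_gI 2) (i2 x hx e) (cm (by simp only [pk_gI, pk_gJ]; decide +kernel)))
  have h3 : DN ⊓ 𝒞[gI 1] ⊓ 𝒞[gJ 1] ≤ zpowers (-1) := fun x hx => by
    obtain ⟨hx, e1, e2⟩ := mem_inf3.1 hx
    obtain ⟨⟨-, -, b⟩, c, d⟩ := mem_DN.1 hx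
    have j2 := cm2 gb_eq e2 b
    have k : ∀ a : Fin 3, a = 0 ∨ a = 1 ∨ a = 2 := by decide
    rcases cent_R0 (g := x) (fun a => by
      rcases k a with rfl | rfl | rfl
      exacts [⟨c, d⟩, ⟨e1, e2⟩, ⟨i2 x hx e1, j2⟩]) with rfl | rfl
    exacts [one_mem _, mem_zpowers _]
  have h4 := card_le_of_le h3
  have h5 : Nat.card (zpowers (-1 : GG)) ≤ 2 := by
    rw [Nat.card_zpowers]; exact orderOf_le_of_pow_eq_one two_pos (by simp)
  exact chain' h1 (chain' h2 (h4.trans h5))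

theorem mapA {y u : GG} (h : y * u⁻¹ ∈ A8) : pk y ∈ A8L.map fun c => mulN c (pk u) :=
  List.mem_map.2 ⟨_, mem_A8.1 h, by rw [← pk_mul, inv_mul_cancel_right]⟩

theorem card_K0N : Nat.card K0N ≤ 1024 := by
  have h1 : ∀ x ∈ K0N, pk (x * gI 0 * x⁻¹) ∈ _ := fun x hx => mapA (mem_K0N.1 hx).2.1
  have h2 : ∀ x ∈ K0N ⊓ 𝒞[gI 0], pk (x * gJ 0 * x⁻¹) ∈ _ := fun x hx =>
    mapA (mem_K0N.1 (mem_inf2.1 hx).1).2.2
  have h3 : K0N ⊓ 𝒞[gI 0] ⊓ 𝒞[gJ 0] ≤ DN := fun x hx =>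
    mem_DN.2 ⟨mem_KN.1 (mem_K0N.1 (mem_inf3.1 hx).1).1, (mem_inf3.1 hx).2⟩
  refine (chain' h1 (chain' h2 ((card_le_of_le h3).trans card_DN))).trans ?_
  simp only [List.length_map, A8L, List.length_ofFn]
  decide

/-- code of a commutator -/
noncomputable def cmN (a b : ℕ) : ℕ := mulN (mulN (mulN a b) (invN a)) (invN b)

theorem pk_cm {a b : GG} (ha : a ∈ HH) (hb : b ∈ HH) : pk (a * b * a⁻¹ * b⁻¹) = cmN (pk a) (pk b) := by
  rw [pk_mul, pk_mul, pk_mul, pk_inv (HS ha), pk_inv (HS hb), cmN]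

noncomputable def kkOK (c : ℕ) : Bool := force c fun c => hhOK c &&
  (Nat.beq (mulN c (mulN (cI 1) (cI 2))) (mulN (mulN (cI 1) (cI 2)) c) &&
    Nat.beq (mulN c (mulN (cJ 1) (cJ 2))) (mulN (mulN (cJ 1) (cJ 2)) c))

theorem mem_KK_of {g : GG} (h : kkOK (pk g) = true) : g ∈ KK := by
  simp only [kkOK, force_eq, Bool.and_eq_true, Nat.beq_eq] at h
  exact mem_KK'.2 ⟨mem_HH_of h.1, cm (by rw [pk_ga]; exact h.2.1), cm (by rw [pk_gb]; exact h.2.2)⟩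

noncomputable def k0OK (c : ℕ) : Bool := force c fun c => kkOK c &&
  (force (cmN c (cI 0)) (fun d => decide (d ∈ A8L)) && force (cmN c (cJ 0)) fun d => decide (d ∈ A8L))

theorem mem_K0_of {g : GG} (h : k0OK (pk g) = true) : g ∈ K0 := by
  simp only [k0OK, force_eq, Bool.and_eq_true, decide_eq_true_eq] at h
  have h1 := mem_KK_of h.1
  refine mem_K0.2 ⟨h1, mem_A8.2 ?_, mem_A8.2 ?_⟩
  · rw [pk_cm (KKH h1) (R0_le_HH (gI_mem 0)), pk_gI]; exact h.2.1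
  · rw [pk_cm (KKH h1) (R0_le_HH (gJ_mem 0)), pk_gJ]; exact h.2.2

theorem x0_mem : x0 ∈ HH := mul_mem (mul_mem (gT_mem 0) (gT_mem 1)) (gT_mem 2)

noncomputable def c0OK (c : ℕ) : Bool :=
  force (cmN c (mulN (mulN (cT 0) (cT 1)) (cT 2))) fun d => decide (d ∈ R0L)

theorem mem_C0_iff {g : GG} (h : g ∈ HH) : g ∈ C0 ↔ c0OK (pk g) = true := by
  rw [mem_C0, and_iff_right h, mem_R0, pk_cm h x0_mem, pk_x0, c0OK, force_eq, decide_eq_true_eq]

theorem mem_KC_of {g : GG} (h : (k0OK (pk g) && c0OK (pk g)) = true) : g ∈ K0 ⊓ C0 := by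
  rw [Bool.and_eq_true] at h
  exact mem_inf.2 ⟨mem_K0_of h.1, (mem_C0_iff (KKH (mem_K0.1 (mem_K0_of h.1)).1)).2 h.2⟩

theorem pk_gm' {c : ℕ} (h : mulN c (invN c) = oneN ∧ mulN c oneN = c) : pk (gm c) = c := pk_gm _ h.1 h.2

def c8 : Fin 8 → ℕ := ![85070916250026219054240312625736187905, 85070672864824795352051366031879307265,
  88602015389521892813179101103856964648, 88601526717672159286127830434943751208,
  29685786163432946314762616331259445332, 112435421197901895693651494828612583702,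
  172249342348763376376512656288789326209, 171911843052958611386303552848734497409]

def c4 : Fin 4 → ℕ := ![85070916250026219054240312625736187905, 88066954573511016702892116672236520065,
  170479333697376624779871723775565250880, 1666891462289754303468019378448515330]

noncomputable def e4 : Fin 4 → ℕ := ![oneN, cI 0, cJ 0, mulN (cI 0) (cJ 0)]

theorem pk_c8 (i : Fin 8) : pk (gm (c8 i)) = c8 i := pk_gm' (by revert i; decide +kernel)
theorem pk_c4 (i : Fin 4) : pk (gm (c4 i)) = c4 i := pk_gm' (by revert i; decide +kernel)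
theorem pk_e4 (i : Fin 4) : pk (gm (e4 i)) = e4 i := pk_gm' (by revert i; decide +kernel)

theorem KH : K0 ≤ HH := fun _ h => KKH (mem_K0.1 h).1

theorem cards : 256 ≤ Nat.card ↥(K0 ⊓ C0) ∧ ∀ m ≤ Nat.card ↥(K0 ⊓ C0), 4 * m ≤ Nat.card K0 := by
  have m8 : ∀ i, gm (c8 i) ∈ K0 ⊓ C0 := fun i => mem_KC_of (by rw [pk_c8]; revert i; decide +kernel)
  have m4 : ∀ i, gm (c4 i) ∈ K0 := fun i => mem_K0_of (by rw [pk_c4]; revert i; decide +kernel)
  have me : ∀ i, gm (e4 i) ∈ R0 ⊓ (K0 ⊓ C0) := fun i =>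
    mem_inf.2 ⟨mem_R0.2 (by rw [pk_e4]; revert i; decide +kernel),
      mem_KC_of (by rw [pk_e4]; revert i; decide +kernel)⟩
  have h1 := reps2 gm (A := A8) (B := R0 ⊓ (K0 ⊓ C0)) (fun a ha => mem_inf.2 ⟨AR ha, mem_KC_of
    ((by decide +kernel : ∀ c ∈ A8L, (k0OK c && c0OK c) = true) _ (mem_A8.1 ha))⟩) e4 me (fun i j h =>
      (by decide +kernel : ∀ i j, force (mulN (invN (e4 i)) (e4 j)) (fun d => decide (d ∈ A8L)) = true →
        i = j) i j (by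
      rwa [force_eq, decide_eq_true_eq, ← pk_e4 i, ← pk_e4 j, ← pk_inv (HS (R0_le_HH (mem_inf.1 (me i)).1)), ← pk_mul,
        ← mem_A8])) card_A8
  have h2 := reps2 gm (A := R0 ⊓ (K0 ⊓ C0)) inf_le_right c8 m8 (fun i j h =>
      (by decide +kernel : ∀ i j, force (mulN (invN (c8 i)) (c8 j)) (fun d => decide (d ∈ R0L)) = true →
        i = j) i j (by
      rw [force_eq, decide_eq_true_eq, ← pk_c8 i, ← pk_c8 j, ← pk_inv (HS (KH (mem_inf.1 (m8 i)).1)), ← pk_mul,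
        ← mem_R0]
      exact (mem_inf.1 h).1)) h1
  exact ⟨h2, fun m => reps2 gm (A := K0 ⊓ C0) inf_le_left c4 m4 fun i j h =>
      (by decide +kernel : ∀ i j, force (mulN (invN (c4 i)) (c4 j)) c0OK = true → i = j) i j (by
      rw [force_eq, ← pk_c4 i, ← pk_c4 j, ← pk_inv (HS (KH (m4 i))), ← pk_mul,
        ← mem_C0_iff (KH (mem_inf.1 h).1)]
      exact (mem_inf.1 h).2)⟩

theorem K0N_eq_K0 : K0 = K0N :=
  eq_of_le_of_card_ge K0_le_N (card_K0N.trans (cards.2 _ cards.1))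

/-- the centraliser of `ga`, `gb` in `R0` -/
theorem memE {y : GG} (hy : y ∈ R0) (hc : y ∈ 𝒞(A8)) : y ∈ A8 ∨ y * (gI 0)⁻¹ ∈ A8 ∨
    y * (gJ 0)⁻¹ ∈ A8 ∨ y * (gI 0 * gJ 0)⁻¹ ∈ A8 := by
  have k : ∀ c ∈ R0L, mulN (mulN (cI 1) (cI 2)) c = mulN c (mulN (cI 1) (cI 2)) →
      mulN (mulN (cJ 1) (cJ 2)) c = mulN c (mulN (cJ 1) (cJ 2)) →
      c ∈ A8L ∨ force (mulN c (invN (cI 0))) (fun d => decide (d ∈ A8L)) = true ∨
        force (mulN c (invN (cJ 0))) (fun d => decide (d ∈ A8L)) = true ∨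
        force (mulN c (invN (mulN (cI 0) (cJ 0)))) (fun d => decide (d ∈ A8L)) = true := by
    decide +kernel
  have := k _ (mem_R0.1 hy) (by rw [← pk_ga, ← pk_mul, ← pk_mul, mem_centralizer_iff.1 hc _ gaA])
    (by rw [← pk_gb, ← pk_mul, ← pk_mul, mem_centralizer_iff.1 hc _ gbA])
  simpa only [force_eq, decide_eq_true_eq, mem_A8, pk_mul, pk_inv (HS (R0_le_HH (gI_mem 0))),
    pk_inv (HS (R0_le_HH (gJ_mem 0))), pk_inv (HS (R0_le_HH (mul_mem (gI_mem 0) (gJ_mem 0)))), pk_gI,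
    pk_gJ] using this

theorem IK : gI 0 ∈ K0 := mem_K0_of (by rw [pk_gI]; decide +kernel)
theorem JK : gJ 0 ∈ K0 := mem_K0_of (by rw [pk_gJ]; decide +kernel)
theorem IC : gI 0 ∈ 𝒞(A8) := KK_le_cent (mem_K0.1 IK).1
theorem JC : gJ 0 ∈ 𝒞(A8) := KK_le_cent (mem_K0.1 JK).1

theorem triv {k y : GG} (hk : k ∈ K0) (hy : y ∈ R0) (hc : y ∈ 𝒞(A8)) : k * y * k⁻¹ * y⁻¹ ∈ A8 := by
  obtain ⟨h1, h2, h3⟩ := mem_K0.1 hk
  have kc := KK_le_cent h1
  have m : ∀ u, y * u⁻¹ ∈ A8 → k * u * k⁻¹ * u⁻¹ ∈ A8 → k * y * k⁻¹ * y⁻¹ ∈ A8 := fun u a b => by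
    rw [show k * y * k⁻¹ * y⁻¹ = k * (y * u⁻¹) * k⁻¹ * (k * u * k⁻¹ * u⁻¹) * (y * u⁻¹)⁻¹ by group, cjA kc a]
    exact mul_mem (mul_mem a b) (inv_mem a)
  rcases memE hy hc with a | a | a | a
  · rw [cjA kc a, mul_inv_cancel]; exact one_mem _
  · exact m _ a h2
  · exact m _ a h3
  · refine m _ a ?_
    rw [show k * (gI 0 * gJ 0) * k⁻¹ * (gI 0 * gJ 0)⁻¹ = k * gI 0 * k⁻¹ * (gI 0)⁻¹ *
      (gI 0 * (k * gJ 0 * k⁻¹ * (gJ 0)⁻¹) * (gI 0)⁻¹) by group, cjA IC h3]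
    exact mul_mem h2 h3

theorem normA {x : GG} (hx : x ∈ HH ⊓ 𝒞[gd 0]) : x ∈ 𝒩(A8) := by
  have k : ∀ j : Fin 3, -(gd 0 * gd j.succ) ∈ A8 := fun j =>
    mem_A8.2 (by simp only [pk_neg, pk_mul, pk_gd]; revert j; decide +kernel)
  have c : Commute x (gd 0) := (mem_inf2.1 hx).2
  have m : ∀ i : Fin 3, x * -(gd 0 * gd i.succ) * x⁻¹ ∈ A8 := fun i => by
    obtain ⟨j, e⟩ := gd_perm (mem_inf2.1 hx).1 c i
    rw [mul_neg, neg_mul, ← conj_mul, e, c.eq, mul_inv_cancel_right]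
    exact k j
  have e1 : ga = -(gd 0 * gd (Fin.succ 0)) :=
    pk_inj (by simp only [pk_neg, pk_mul, pk_gd, pk_ga]; decide +kernel)
  have e2 : gb = -(gd 0 * gd (Fin.succ 1)) :=
    pk_inj (by simp only [pk_neg, pk_mul, pk_gd, pk_gb]; decide +kernel)
  have m0 := m 0
  have m1 := m 1
  rw [← e1] at m0
  rw [← e2] at m1
  have mn : x * -1 * x⁻¹ ∈ A8 := by simpa using n1A
  refine mem_normalizer_closure.2 ?_
  rintro _ (rfl | rfl | rfl)
  exacts [mn, m0, m1]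

theorem TK : gT 0 ∈ KK := mem_KK_of (by rw [pk_gT]; decide +kernel)

theorem fK : gf 0 ∈ KN :=
  mem_KN.2 ⟨(gf_mem 0).1, cm (by simp only [pk_gf, pk_ga]; decide +kernel),
    cm (by simp only [pk_gf, pk_gb]; decide +kernel)⟩

theorem hit {x s u v : GG} (hx : x ∈ KN) (hs : s ∈ KN) (h1 : x * gI 0 * x⁻¹ * u⁻¹ ∈ A8)
    (h2 : x * gJ 0 * x⁻¹ * v⁻¹ ∈ A8) (e1 : s * u = gI 0 * s ∨ s * u = -(gI 0 * s))
    (e2 : s * v = gJ 0 * s ∨ s * v = -(gJ 0 * s)) : s * x ∈ K0 := by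
  have m : ∀ a u : GG, x * a * x⁻¹ * u⁻¹ ∈ A8 → s * u = a * s ∨ s * u = -(a * s) →
      s * x * a * (s * x)⁻¹ * a⁻¹ ∈ A8 := fun a u h e => by
    rw [show s * x * a * (s * x)⁻¹ * a⁻¹ = s * (x * a * x⁻¹ * u⁻¹) * s⁻¹ * (s * u * s⁻¹ * a⁻¹) by group,
      cjA (KN_cent hs) h]
    refine mul_mem h ?_
    rcases e with e | e <;> rw [e]
    · simp
    · simpa using n1A
  rw [K0N_eq_K0]
  exact mem_K0N.2 ⟨mul_mem hs hx, m _ _ h1 e1, m _ _ h2 e2⟩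

theorem exists_T {x : GG} (hx : x ∈ KK) : ∃ k : ℕ, gT 0 ^ k * x ∈ K0 := by
  have xN := KK_le hx
  have T := KK_le TK
  have hc : ∀ a ∈ 𝒞(A8), x * a * x⁻¹ ∈ 𝒞(A8) := fun a ha =>
    mul_mem (mul_mem (KK_le_cent hx) ha) (inv_mem (KK_le_cent hx))
  have n1 : ∀ a : GG, a * a = -1 → x * a * x⁻¹ ∉ A8 := fun a h k => by
    have := congrArg pk (sqA k)
    rw [pk_mul, cj_sq h, pk_one] at this
    exact absurd this (by decide)
  have n2 : ∀ u ∈ 𝒞(A8), x * gI 0 * x⁻¹ * u⁻¹ ∈ A8 → x * gJ 0 * x⁻¹ * u⁻¹ ∉ A8 := fun u hu a b => by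
    have c1 : Commute (x * gI 0 * x⁻¹) (x * gJ 0 * x⁻¹ * u⁻¹) :=
      (mem_centralizer_iff.1 (hc _ IC) _ b).symm
    have c2 : Commute (x * gI 0 * x⁻¹ * u⁻¹) u := mem_centralizer_iff.1 hu _ a
    have c3 : Commute (x * gI 0 * x⁻¹) u := by simpa using c2.mul_left (Commute.refl u)
    have c4 := (c1.mul_right c3).eq
    rw [inv_mul_cancel_right, conj_mul, conj_mul, mul_left_inj, mul_right_inj] at c4
    exact ncm (by simp only [pk_gI, pk_gJ]; decide +kernel) c4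
  have odd : ∀ s ∈ HH, s * gf 0 * x ∉ K0 := fun s hs k => (gf_mem 0).2
    ((mul_mem_cancel_left (HS hs)).1 ((mul_mem_cancel_right (HS (KKH hx))).1 (HS (KH k))))
  rcases (memE (cjR (HN (KKH hx)) (gI_mem 0)) (hc _ IC)).resolve_left (n1 _ (gI_sq 0)) with a | a | a <;>
    rcases (memE (cjR (HN (KKH hx)) (gJ_mem 0)) (hc _ JC)).resolve_left (n1 _ (gJ_sq 0)) with b | b | b
  · exact (n2 _ IC a b).elim
  · exact ⟨0, hit xN (pow_mem T 0) a b (by simp) (by simp)⟩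
  · exact (odd _ (gT_mem 0) (hit xN (mul_mem T fK) a b
      (Or.inr (pk_inj (by simp only [pk_neg, pk_mul, pk_gT, pk_gf, pk_gI]; decide +kernel)))
      (Or.inr (pk_inj (by simp only [pk_neg, pk_mul, pk_gT, pk_gf, pk_gI, pk_gJ]; decide +kernel))))).elim
  · exact (odd 1 (one_mem _) (hit xN (mul_mem (one_mem _) fK) a b
      (Or.inr (pk_inj (by simp only [pk_neg, pk_mul, pk_one, pk_gf, pk_gI, pk_gJ]; decide +kernel)))
      (Or.inr (pk_inj (by simp only [pk_neg, pk_mul, pk_one, pk_gf, pk_gI, pk_gJ]; decide +kernel))))).elim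
  · exact (n2 _ JC a b).elim
  · exact ⟨1, hit xN (pow_mem T 1) a b
      (Or.inl (pk_inj (by simp only [pow_one, pk_mul, pk_gT, pk_gI, pk_gJ]; decide +kernel)))
      (Or.inl (pk_inj (by simp only [pow_one, pk_mul, pk_gT, pk_gI, pk_gJ]; decide +kernel)))⟩
  · exact ⟨2, hit xN (pow_mem T 2) a b
      (Or.inl (pk_inj (by simp only [pow_two, pk_mul, pk_gT, pk_gI, pk_gJ]; decide +kernel)))
      (Or.inl (pk_inj (by simp only [pow_two, pk_mul, pk_gT, pk_gI, pk_gJ]; decide +kernel)))⟩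
  · exact (odd _ (mul_mem (gT_mem 0) (gT_mem 0)) (hit xN (mul_mem (mul_mem T T) fK) a b
      (Or.inr (pk_inj (by simp only [pk_neg, pk_mul, pk_gT, pk_gf, pk_gI, pk_gJ]; decide +kernel)))
      (Or.inr (pk_inj (by simp only [pk_neg, pk_mul, pk_gT, pk_gf, pk_gJ]; decide +kernel))))).elim
  · exact (n2 _ (mul_mem IC JC) a b).elim

theorem T3 : gT 0 ^ 3 = 1 :=
  pk_inj (by simp only [pow_succ, pow_zero, one_mul, pk_mul, pk_gT, pk_one]; decide +kernel)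

theorem KK_d : KK ≤ HH ⊓ 𝒞[gd 0] := fun _ h => mem_inf2.2 ⟨KKH h, (mem_KK.1 h).2 0⟩

end MK

open MK

theorem card_K0 : Nat.card K0 = 1024 := by
  have := card_K0N
  rw [← K0N_eq_K0] at this
  exact le_antisymm this (cards.2 _ cards.1)

theorem card_K0C : Nat.card ↥(K0 ⊓ C0) = 256 := by
  refine le_antisymm (not_lt.1 fun h => ?_) cards.1
  have := cards.2 257 h
  rw [card_K0] at this
  exact absurd this (by decide)

theorem gd_mem_K0 (i : Fin 4) : gd i ∈ K0 ⊓ C0 := mem_KC_of (by rw [pk_gd]; revert i; decide +kernel)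

theorem K0_le : K0 ≤ KK := fun _ h => (mem_K0.1 h).1

theorem norm_K0 : HH ⊓ 𝒞[gd 0] ≤ 𝒩(K0) := by
  refine le_norm_iff.2 fun x hx k hk => ?_
  have nA := normA hx
  have nC : x ∈ 𝒩(𝒞(A8)) := norm_cent le_rfl nA
  have h1 : x * k * x⁻¹ ∈ 𝒞(A8) := conj_mem_of_norm le_rfl nC (KK_le_cent (K0_le hk))
  have m : ∀ a ∈ R0, a ∈ 𝒞(A8) → x * k * x⁻¹ * a * (x * k * x⁻¹)⁻¹ * a⁻¹ ∈ A8 := fun a ha hc => by
    have := conj_mem_of_norm le_rfl nA (triv hk (cjR (inv_mem (HN (mem_inf2.1 hx).1)) ha)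
      (conj_mem_of_norm le_rfl (inv_mem nC) hc))
    convert this using 1
    group
  exact mem_K0.2 ⟨mem_KK'.2 ⟨mul_mem (mul_mem (mem_inf2.1 hx).1 (KH hk)) (inv_mem (mem_inf2.1 hx).1),
    (mem_centralizer_iff.1 h1 _ gaA).symm, (mem_centralizer_iff.1 h1 _ gbA).symm⟩,
    m _ (gI_mem 0) IC, m _ (gJ_mem 0) JC⟩

theorem MK.quot : (∀ x ∈ KK, x ^ 3 ∈ K0) ∧ Nat.card KK ∣ 3 * 1024 :=
  quot3 K0_le (KK_d.trans norm_K0) TK T3 (fun _ => exists_T) card_K0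

theorem two_mem {x : GG} (hx : x ∈ KK) (h : x ^ 8 = 1) : x ∈ K0 := by
  have := pow_mem (MK.quot.1 x hx) 3
  rwa [← pow_mul, pow_succ, h, one_mul] at this

theorem pow_four {x : GG} (hx : x ∈ K0) : x ^ 4 = 1 := by
  obtain ⟨h1, h2, h3⟩ := mem_K0.1 hx
  have m : ∀ a : GG, x * a * x⁻¹ * a⁻¹ ∈ A8 → x * x * a = a * (x * x) := fun a h => by
    have e1 := cjA (KK_le_cent h1) h
    have e2 := sqA h
    rw [← mul_inv_eq_iff_eq_mul, ← mul_inv_eq_one, show x * x * a * (x * x)⁻¹ * a⁻¹ =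
      x * (x * a * x⁻¹ * a⁻¹) * x⁻¹ * (x * a * x⁻¹ * a⁻¹) by group, e1, e2]
  have hD : x * x ∈ DN := mem_DN.2 ⟨mem_KN.1 (KK_le (mul_mem h1 h1)), m _ h2, m _ h3⟩
  have dK := K0_le (mem_inf.1 (gd_mem_K0 0)).1
  have dN := cent_le_norm _ (KK_le_cent dK)
  have d2 : gd 0 * gd 0 ∈ A8 := by rw [gd_sq]; exact one_mem _
  have e : A8 ⊔ zpowers (gd 0) = DN := by
    refine eq_of_le_of_card_ge (sup_le (fun a ha => mem_DN.2 ⟨⟨HN (R0_le_HH (AR ha)), ?_, ?_⟩, ?_, ?_⟩)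
      (zpowers_le.2 (mem_DN.2 ⟨mem_KN.1 (KK_le dK), cm ?_, cm ?_⟩))) ?_
    · exact mem_centralizer_iff.1 (cA_of rfl (cm (by
        simp only [pk_ga, pk_gb]; decide +kernel))) a ha
    · exact mem_centralizer_iff.1 (cA_of (cm (by
        simp only [pk_ga, pk_gb]; decide +kernel)) rfl) a ha
    · exact mem_centralizer_iff.1 IC a ha
    · exact mem_centralizer_iff.1 JC a ha
    · simp only [pk_gd, pk_gI]; decide +kernel
    · simp only [pk_gd, pk_gJ]; decide +kernel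
    · exact card_DN.trans (sup' dN d2 (fun k => absurd (mem_A8.1 k) (by rw [pk_gd]; decide +kernel))
        card_A8)
  rw [show 4 = 2 * 2 from rfl, pow_mul, pow_two, pow_two]
  rw [← e] at hD
  rcases (H42.mem_sup_zpowers dN d2).1 hD with k | k
  · exact sqA k
  · have e1 := sqA k
    have e2 := mem_centralizer_iff.1 (KK_le_cent dK) _ k
    have e3 := gd_sq 0
    generalize x * x = y at e1 e2
    obtain ⟨a, rfl⟩ : ∃ a, y = a * gd 0 := ⟨y * (gd 0)⁻¹, by simp⟩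
    rw [mul_inv_cancel_right] at e1 e2
    rw [mul_assoc, ← mul_assoc (gd 0), ← e2, mul_assoc, e3, mul_one, e1]

theorem exists_uv : ∃ k ∈ K0, ∃ k' ∈ K0, ∃ u ∈ K0 ⊓ C0, ∃ v ∈ K0 ⊓ C0, gT 0 ∈ KK ∧
    u = gT 0 * k * (gT 0)⁻¹ * k⁻¹ ∧ v = gT 0 * k' * (gT 0)⁻¹ * k'⁻¹ ∧ u * v * u⁻¹ * v⁻¹ = gd 0 := by
  have e1 : pk (gm 88602015389521892813179101103856964648) = _ := pk_gm' (by decide +kernel)
  have e2 : pk (gm 88269219401793937429361633121037292564) = _ := pk_gm' (by decide +kernel)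
  have h1 := mem_K0_of (g := gm 88602015389521892813179101103856964648) (by rw [e1]; decide +kernel)
  have h2 := mem_K0_of (g := gm 88269219401793937429361633121037292564) (by rw [e2]; decide +kernel)
  have e3 := pk_cm (gT_mem 0) (KH h1)
  have e4 := pk_cm (gT_mem 0) (KH h2)
  rw [pk_gT, e1] at e3
  rw [pk_gT, e2] at e4
  have h3 := mem_KC_of (by rw [e3]; decide +kernel)
  have h4 := mem_KC_of (by rw [e4]; decide +kernel)
  exact ⟨_, h1, _, h2, _, h3, _, h4, TK, rfl, rfl,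
    pk_inj (by rw [pk_cm (KH (mem_inf.1 h3).1) (KH (mem_inf.1 h4).1), e3, e4, pk_gd]; decide +kernel)⟩

theorem exists_odd : ∃ x ∈ HH, Commute x (gd 0) ∧ Commute x (gd 1) ∧ ¬ Commute x (gd 2) := by
  have e1 : pk (gm 778857601612007791808954510228870400) = _ := pk_gm' (by decide +kernel)
  exact ⟨gm 778857601612007791808954510228870400, mem_HH_of (by rw [e1]; decide +kernel),
    cm (by rw [e1, pk_gd]; decide +kernel), cm (by rw [e1, pk_gd]; decide +kernel),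
    ncm (by rw [e1, pk_gd]; decide +kernel)⟩

theorem card_Cd : Nat.card ↥(HH ⊓ 𝒞[gd 0]) ∣ 18432 := by
  have inj : ∀ i j : Fin 3, gd i.succ = gd j.succ → i = j := fun i j h =>
    (by decide +kernel : ∀ i j : Fin 3, cd i.succ = cd j.succ → i = j) i j (by rw [← pk_gd, h, pk_gd])
  exact perm3' KK_d gd inj
    (fun x hx => gd_perm (mem_inf2.1 hx).1 (mem_inf2.1 hx).2) (fun x hx => by
      rw [mem_KK, and_iff_right (mem_inf2.1 hx).1, fs (mem_inf2.1 hx).2]) MK.quot.2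

end Cfsg.Agent.B3
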