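import Cfsg.Agent.B3.Bas
import Cfsg.Agent.B3.ModK
import Cfsg.Agent.H22.Cov
import Cfsg.Agent.F3.Quo

set_option autoImplicit false
set_option linter.unusedSectionVars false

namespace Cfsg.Agent.B3

open Subgroup H49 T3.Fr2 F3

attribute [local irreducible] gm

variable {G : Type*} [Group G] [Finite G] {z r : G} {Q : Subgroup G} {s : V → G} {ρ : G → GG} {X : Subgroup GG}

omit [Finite G] in
theorem ST.exists_dd (h : ST z r Q s ρ X) (hd : ∀ i, gd i ∈ X) : ∃ d, DD z r ρ d := by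
  have k : ∀ i, ∃ l ∈ 𝒞[z], l ∈ 𝒞[r] ∧ ρ l = gd i ∧ l ^ 4 = 1 := fun i =>
    h.lift4 (hd i) (by rw [show 4 = 2 * 2 from rfl, pow_mul, pow_two (gd i), gd_sq, one_pow])
  choose d dz dr rd d4 using k
  exact ⟨d, fun i => h.eqL (mul_mem (dz i) (dz i)) (mul_mem (dr i) (dr i)) (one_mem _) (one_mem _)
    (by rw [h.hom _ (dz i) _ (dz i), rd, gd_sq, h.rho_one])
    (by rw [← pow_two, ← pow_mul, mul_comm, pow_mul, d4, one_pow]) (one_pow _), dz, dr, rd⟩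

namespace Cd

/-- the preimage of `Y` in `C(z)` -/
def pr (h : ST z r Q s ρ X) (Y : Subgroup GG) : Subgroup G where
  carrier := {g | g ∈ 𝒞[z] ∧ ρ g ∈ Y}
  one_mem' := ⟨one_mem _, h.rho_one ▸ one_mem _⟩
  mul_mem' := fun a b => ⟨mul_mem a.1 b.1, h.hom _ a.1 _ b.1 ▸ mul_mem a.2 b.2⟩
  inv_mem' := fun a => ⟨inv_mem a.1, h.rho_inv a.1 ▸ inv_mem a.2⟩

theorem mem_pr (h : ST z r Q s ρ X) {Y : Subgroup GG} {g : G} : g ∈ pr h Y ↔ g ∈ 𝒞[z] ∧ ρ g ∈ Y := Iff.rfl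

theorem Q_pr (h : ST z r Q s ρ X) (Y : Subgroup GG) : Q ≤ pr h Y := fun _ hq =>
  ⟨h.Qc hq, (h.ker (h.Qc hq)).2 hq ▸ one_mem _⟩

theorem norm_pr (h : ST z r Q s ρ X) {Y : Subgroup GG} {g : G} (hg : g ∈ 𝒞[z]) (n : ρ g ∈ 𝒩(Y)) :
    g ∈ 𝒩(pr h Y) := mem_norm_of_cj_le fun x hx => by
  obtain ⟨y, hy, rfl⟩ := mem_cj'.1 hx
  exact ⟨mul_mem (mul_mem hg hy.1) (inv_mem hg), h.rho_conj hg hy.1 ▸ conj_mem_of_norm le_rfl n hy.2⟩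

theorem exists_R (h : ST z r Q s ρ X) :
    ∃ R : Subgroup G, ∀ l, l ∈ R ↔ l ∈ pr h K0 ⊓ 𝒞[r] ∧ l ^ 4 = 1 := by
  haveI := Fact.mk Nat.prime_two
  obtain ⟨S, hS, -⟩ := H42.exists_sylIn (p := 2) IsPGroup.of_bot (bot_le : ⊥ ≤ pr h K0 ⊓ 𝒞[r])
  have s4 : ∀ l ∈ S, l ^ 4 = 1 := fun l hl => by
    have a := hS.le hl
    have b := h.exp _ (Fa.ZQ h.toE1 (h.kerL (pow_mem a.1.1 4) (pow_mem a.2 4)
      (by rw [h.rho_pow a.1.1, pow_four a.1.2])))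
    obtain ⟨k, hk⟩ := hS.isP ⟨l ^ 4, pow_mem hl 4⟩
    have c : (l ^ 4) ^ 2 ^ k = 1 := congrArg Subtype.val hk
    simpa [Nat.Coprime.gcd_eq_one (Nat.Coprime.pow_right k (by norm_num : Nat.Coprime 3 2))] using
      pow_gcd_eq_one.2 ⟨b, c⟩
  have ZL : zpowers z ≤ pr h K0 ⊓ 𝒞[r] := zpowers_le.2 ⟨Q_pr h _ h.zQ, mem_cent1_comm.1 h.rz⟩
  have LQ : pr h K0 ⊓ 𝒞[r] ⊓ Q = zpowers z := le_antisymm
    (fun l a => h.kerL a.1.1.1 a.1.2 ((h.ker a.1.1.1).2 a.2)) (le_inf ZL (Fa.ZQ h.toE1))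
  have c := h.card_im (A := pr h K0 ⊓ 𝒞[r]) fun l a => a.1.1
  obtain ⟨k, -, hk⟩ := (Nat.dvd_prime_pow Nat.prime_two (m := 10)).1 (show Nat.card (h.im (pr h K0 ⊓ 𝒞[r])) ∣ _ from
    (card_dvd_of_le (K := K0) fun x hx => by
      obtain ⟨g, a, -, rfl⟩ := h.mem_im.1 hx
      exact a.1.2).trans (by rw [card_K0]; norm_num))
  rw [LQ, hk, ← card_mul_relIndex ZL] at c
  refine ⟨S, fun l => ⟨fun hl => ⟨hS.le hl, s4 l hl⟩, fun ⟨hl, l4⟩ => ?_⟩⟩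
  obtain ⟨a, ha, m, hm, rfl⟩ := hS.exists_mul_of_relIndex_pow ZL (norm_of_cent (fun g b => by
    rw [cent_zpowers]; exact b.1.1)) (Nat.eq_of_mul_eq_mul_left (card_pos' _) c) hl
  have b := hS.le ha
  have mQ := Fa.ZQ h.toE1 hm
  exact (h.eqL b.1.1 b.2 hl.1.1 hl.2 (by rw [h.hom _ b.1.1 _ (h.Qc mQ), (h.ker (h.Qc mQ)).2 mQ, mul_one])
    (s4 a ha) l4) ▸ ha

theorem pre_le (h : ST z r Q s ρ X) (U : AddSubgroup V) : h.pre U ≤ Q := fun _ ⟨v, _, k, e⟩ =>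
  (h.memQ _).2 ⟨v, k, e⟩

theorem s_pre (h : ST z r Q s ρ X) {U : AddSubgroup V} {v : V} {k : F} : s v * zp z k ∈ h.pre U ↔ v ∈ U :=
  ⟨fun ⟨_, a, _, e⟩ => (h.uniq e).1 ▸ a, fun a => ⟨v, a, k, rfl⟩⟩

theorem z_pre (h : ST z r Q s ρ X) (U : AddSubgroup V) : z ∈ h.pre U :=
  ⟨0, zero_mem _, 1, by rw [h.s_zero, zp_one, one_mul]⟩

theorem pre_sup (h : ST z r Q s ρ X) (U U' : AddSubgroup V) : h.pre U ⊔ h.pre U' = h.pre (U ⊔ U') := by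
  refine le_antisymm (sup_le ?_ ?_) ?_
  · exact fun _ ⟨v, a, e⟩ => ⟨v, AddSubgroup.mem_sup_left a, e⟩
  · exact fun _ ⟨v, a, e⟩ => ⟨v, AddSubgroup.mem_sup_right a, e⟩
  · rintro _ ⟨v, a, k, rfl⟩
    obtain ⟨u, hu, u', hu', rfl⟩ := AddSubgroup.mem_sup.1 a
    have := h.mul' u u' 0 (k - om u u')
    rw [add_zero, add_sub_cancel] at this
    exact this ▸ mul_mem_sup ((s_pre h).2 hu) ((s_pre h).2 hu')

theorem norm_pre (h : ST z r Q s ρ X) {U : AddSubgroup V} {g : G} (hg : g ∈ 𝒞[z]) (n : ∀ v ∈ U, ρ g • v ∈ U) :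
    g ∈ 𝒩(h.pre U) := mem_norm_of_cj_le fun x hx => by
  obtain ⟨_, ⟨v, a, k, rfl⟩, rfl⟩ := mem_cj'.1 hx
  obtain ⟨l, e⟩ := h.act' hg v k
  exact e ▸ (s_pre h).2 (n v a)

variable {d : Fin 4 → G}

theorem d4 (D : DD z r ρ d) (i : Fin 4) : d i ^ 4 = 1 := by
  rw [show 4 = 2 * 2 from rfl, pow_mul, pow_two (d i), D.sq, one_pow]

theorem actd (h : ST z r Q s ρ X) (D : DD z r ρ d) (i : Fin 4) (v : V) (k : F) :
    d i * (s v * zp z k) * (d i)⁻¹ = s (gd i • v) * zp z k := by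
  rw [← conj_mul, h.actL (D.dz i) (D.dr i), D.rd, Z_conj (D.dz i) (zp_mem (mem_zpowers z) k)]

theorem cd (h : ST z r Q s ρ X) (D : DD z r ρ d) {i : Fin 4} {v : V} {k : F} :
    s v * zp z k ∈ 𝒞[d i] ↔ v ∈ Fix (gd i) := by
  rw [mem_cent1_comm, mem_cent1, ← mul_inv_eq_iff_eq_mul, actd h D, mem_Fix]
  exact ⟨fun e => (h.uniq e).1, fun e => by rw [e]⟩

theorem Qd (h : ST z r Q s ρ X) (D : DD z r ρ d) : Q ⊓ 𝒞[d 0] = h.pre (Fix (gd 0)) := by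
  ext g
  refine ⟨fun a => ?_, fun ⟨v, a, k, e⟩ => ⟨(h.memQ _).2 ⟨v, k, e⟩, e ▸ (cd h D).2 a⟩⟩
  obtain ⟨v, k, rfl⟩ := (h.memQ _).1 a.1
  exact (s_pre h).2 ((cd h D).1 a.2)

theorem Wd (h : ST z r Q s ρ X) (D : DD z r ρ d) {i j : Fin 4} (n : i ≠ j) : h.pre (W j) ≤ 𝒞[d i] :=
  fun _ ⟨_, a, _, e⟩ => e ▸ (cd h D).2 (gd_W n a)

theorem cL (h : ST z r Q s ρ X) (D : DD z r ρ d) {l : G} (lz : l ∈ 𝒞[z]) (lr : l ∈ 𝒞[r]) {i : Fin 4}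
    (c : Commute (ρ l) (gd i)) : l ∈ 𝒞[d i] :=
  mem_cent1.2 (h.commL lz lr (D.dz i) (D.dr i) (D.rd i ▸ c) (d4 D i))

theorem dd (h : ST z r Q s ρ X) (D : DD z r ρ d) (i j : Fin 4) : d i ∈ 𝒞[d j] :=
  cL h D (D.dz i) (D.dr i) (D.rd i ▸ gd_comm i j)

theorem dQ (h : ST z r Q s ρ X) (D : DD z r ρ d) (i : Fin 4) : d i ∉ Q := fun k =>
  gd_ne i ((D.rd i).symm.trans ((h.ker (D.dz i)).2 k))

theorem rc (h : ST z r Q s ρ X) (D : DD z r ρ d) {g : G} (hg : g ∈ 𝒞[z]) {i : Fin 4} (c : g ∈ 𝒞[d i]) :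
    Commute (ρ g) (gd i) := by
  rw [← D.rd, Commute, SemiconjBy, ← h.hom _ hg _ (D.dz i), ← h.hom _ (D.dz i) _ hg, mem_cent1.1 c]

theorem imH (h : ST z r Q s ρ X) (D : DD z r ρ d) : h.im (𝒞[z] ⊓ 𝒞[d 0]) = X ⊓ 𝒞[gd 0] := by
  ext x
  rw [h.mem_im]
  refine ⟨?_, fun a => ?_⟩
  · rintro ⟨g, a, b, rfl⟩
    exact ⟨h.rho_mem b, mem_cent1.2 (rc h D b a.2)⟩
  · obtain ⟨l, lz, lr, rfl⟩ := h.liftL a.1
    exact ⟨l, ⟨lz, cL h D lz lr (mem_cent1.1 a.2)⟩, lz, rfl⟩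

variable {R : Subgroup G}

theorem liftR (h : ST z r Q s ρ X) (hR : ∀ l, l ∈ R ↔ l ∈ pr h K0 ⊓ 𝒞[r] ∧ l ^ 4 = 1) {x : GG} (a : x ∈ K0 ⊓ X) :
    ∃ l ∈ R, ρ l = x := by
  obtain ⟨l, lz, lr, rfl, l4⟩ := h.lift4 a.2 (pow_four a.1)
  exact ⟨l, (hR l).2 ⟨⟨⟨lz, a.1⟩, lr⟩, l4⟩, rfl⟩

theorem cardR (h : ST z r Q s ρ X) (hR : ∀ l, l ∈ R ↔ l ∈ pr h K0 ⊓ 𝒞[r] ∧ l ^ 4 = 1) :
    Nat.card R = Nat.card ↥(K0 ⊓ X) := by
  have c := h.card_im (A := R) fun l a => ((hR l).1 a).1.1.1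
  have e1 : R ⊓ Q = ⊥ := eq_bot_iff.2 fun l a => by
    have := ((hR l).1 a.1).2
    rwa [pow_succ, h.exp l a.2, one_mul] at this
  have e2 : h.im R = K0 ⊓ X := by
    ext x
    rw [h.mem_im]
    refine ⟨?_, fun a => ?_⟩
    · rintro ⟨g, a, b, rfl⟩
      exact ⟨((hR g).1 a).1.1.2, h.rho_mem b⟩
    · obtain ⟨l, hl, e⟩ := liftR h hR a
      exact ⟨l, hl, ((hR l).1 hl).1.1.1, e⟩
  rw [c, e1, e2, card_bot, one_mul]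

theorem Rd (h : ST z r Q s ρ X) (D : DD z r ρ d) (hR : ∀ l, l ∈ R ↔ l ∈ pr h K0 ⊓ 𝒞[r] ∧ l ^ 4 = 1) (i : Fin 4) :
    R ≤ 𝒞[d i] := fun l a =>
  cL h D ((hR l).1 a).1.1.1 ((hR l).1 a).1.2 ((mem_KK.1 (K0_le ((hR l).1 a).1.1.2)).2 i)

theorem dR (h : ST z r Q s ρ X) (D : DD z r ρ d) (hR : ∀ l, l ∈ R ↔ l ∈ pr h K0 ⊓ 𝒞[r] ∧ l ^ 4 = 1) (i : Fin 4) :
    d i ∈ R := (hR _).2 ⟨⟨⟨D.dz i, D.rd i ▸ (gd_mem_K0 i).1⟩, D.dr i⟩, d4 D i⟩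

end Cd

open Cd

theorem ST.b2 (h : ST z r Q s ρ X) {d : Fin 4 → G} (D : DD z r ρ d) {Γ : Type*} [Group Γ] [Finite Γ]
    {f : 𝒞[d 0] →* Γ} (hf : H22.DC f ⟨d 0, self_mem_cent1 _⟩) (hz : z ∈ 𝒞[d 0]) :
    ∃ (Q' : Subgroup Γ) (Qs : Fin 3 → Subgroup Γ) (r' : Fin 3 → Γ) (R : Subgroup Γ),
      B2 (f ⟨z, hz⟩) Q' Qs r' R ∧ 2 * Nat.card R = Nat.card ↥(K0 ⊓ X) ∧
      (∀ g ∈ 𝒞[f ⟨z, hz⟩], Ba Qs g → g ^ 4 ∈ Q' → g ∈ Q' ⊔ R) ∧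
      (∀ g : 𝒞[d 0], f g ∈ 𝒞[f ⟨z, hz⟩] ↔ (g : G) ∈ 𝒞[z]) ∧
      (∀ g : 𝒞[d 0], (g : G) ^ 3 = 1 → f g ∈ zpowers (f ⟨z, hz⟩) → (g : G) ∈ zpowers z) ∧
      (∀ g : 𝒞[d 0], (g : G) ∈ 𝒞[z] → ∀ i : Fin 3, f g ∈ 𝒩(Qs i) ↔ Commute (ρ g) (gd i.succ)) ∧
      2 * Nat.card 𝒞[f ⟨z, hz⟩] = 2187 * Nat.card ↥(X ⊓ 𝒞[gd 0]) := by
  obtain ⟨R, hR⟩ := exists_R h
  have z3 : ((⟨z, hz⟩ : 𝒞[d 0]) : G) ^ 3 = 1 := h.zc
  have n0 : ∀ i : Fin 3, (0 : Fin 4) ≠ i.succ := fun i => (Fin.succ_ne_zero i).symm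
  have cj' : ∀ u v : 𝒞[d 0], f u * f v * (f u)⁻¹ = f (u * v * u⁻¹) := fun u v => by simp
  have cm : ∀ u v : 𝒞[d 0], f u * f v * (f u)⁻¹ * (f v)⁻¹ = f (u * v * u⁻¹ * v⁻¹) := fun u v => by simp
  have eQ : Q.subgroupOf 𝒞[d 0] = (h.pre (Fix (gd 0))).subgroupOf 𝒞[d 0] := by
    rw [← Qd h D, inf_subgroupOf_right]
  have mP : ∀ u : 𝒞[d 0], (u : G) ∈ pr h K0 →
      f u ∈ (Q.subgroupOf 𝒞[d 0]).map f ⊔ (R.subgroupOf 𝒞[d 0]).map f := fun u hu => by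
    obtain ⟨l, hl, e⟩ := liftR h hR ⟨hu.2, h.rho_mem hu.1⟩
    have lz := ((hR l).1 hl).1.1.1
    rw [← inv_mul_cancel_right u ⟨l, Rd h D hR 0 hl⟩, map_mul]
    refine mul_mem_sup (quo_of ((h.ker (mul_mem hu.1 (inv_mem lz))).1 ?_)) (quo_of hl)
    exact (h.hom _ hu.1 _ (inv_mem lz)).trans (by rw [h.rho_inv lz, e, mul_inv_cancel])
  have eP : (Q.subgroupOf 𝒞[d 0]).map f ⊔ (R.subgroupOf 𝒞[d 0]).map f = ((pr h K0).subgroupOf 𝒞[d 0]).map f := by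
    refine le_antisymm (sup_le (map_mono (subgroupOf_mono _ (Q_pr h _)))
      (map_mono (subgroupOf_mono _ fun l a => ((hR l).1 a).1.1))) ?_
    rintro _ ⟨u, hu, rfl⟩
    exact mP u hu
  have nW : ∀ g : 𝒞[d 0], (g : G) ∈ 𝒞[z] → ∀ i : Fin 3,
      f g ∈ 𝒩(((h.pre (W i.succ)).subgroupOf 𝒞[d 0]).map f) ↔ Commute (ρ g) (gd i.succ) := fun g hg i => by
    rw [comm_iff_W (h.XH (h.rho_mem hg)) (rc h D hg g.2)]
    refine ⟨fun n v hv => ?_, fun n => quo_norm (norm_pre h hg n)⟩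
    have a : s v * zp z 0 ∈ h.pre (W i.succ) := (s_pre h).2 hv
    have b := conj_mem_of_norm le_rfl n (quo_of (f := f) (u := ⟨_, Wd h D (n0 i) a⟩) a)
    rw [cj'] at b
    obtain ⟨p, hp, e⟩ := b
    rw [quo_odd hf (h.exp _ (pre_le h _ hp)) (quo_c3 (h.exp _ (pre_le h _ a))) e] at hp
    obtain ⟨l, el⟩ := h.act' hg v 0
    exact (s_pre h).1 (el ▸ (show (g : G) * (s v * zp z 0) * (g : G)⁻¹ ∈ h.pre (W i.succ) from hp))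
  refine ⟨(Q.subgroupOf 𝒞[d 0]).map f, fun i => ((h.pre (W i.succ)).subgroupOf 𝒞[d 0]).map f,
    fun i => f ⟨d i.succ, dd h D _ _⟩, (R.subgroupOf 𝒞[d 0]).map f,
    ⟨⟨?_, quo_of h.zQ, ?_, ?_, ?_, ?_, fun y hy => ?_, fun y hy e => ?_⟩, ?_, fun i => quo_of (z_pre h _),
      fun i => ?_, ?_, fun i j n => quo_cent (le_cent_iff.2 ?_), fun i => ?_, fun i => quo_of (dR h D hR _),
      fun i => ?_, fun i j n => ?_, ?_, ?_, fun i => ?_, fun y hy => ?_⟩, ?_, fun y hy b e => ?_,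
    fun g => quo_cz hf z3, fun g a b => quo_Z2 hf z3 a b, nW, ?_⟩
  · refine orderOf_eq_prime (by rw [← map_pow]; exact quo_one hf (.inl z3)) fun e => ?_
    have := h.z3
    rw [show z = 1 from congrArg Subtype.val (quo_odd hf (v := 1) z3 (one_pow _) (e.trans (map_one f).symm)),
      orderOf_one] at this
    omega
  · rintro _ ⟨u, hu, rfl⟩
    exact (quo_cz hf z3).2 (h.Qc hu)
  · rintro _ ⟨u, hu, rfl⟩ _ ⟨v, hv, rfl⟩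
    rw [cm]
    exact quo_Z1 (h.comm _ hu _ hv)
  · rintro _ ⟨u, hu, rfl⟩ e
    obtain ⟨a, ha, k, ea⟩ := (Qd h D).le (show (u : G) ∈ Q ⊓ 𝒞[d 0] from ⟨hu, u.2⟩)
    refine quo_Z1 (show (u : G) ∈ zpowers z from ea ▸ h.mem_Z.2 (nondeg_Vd ha fun w hw => ?_))
    have b := (Qd h D).ge ((s_pre h (k := 0)).2 hw)
    rw [← h.comm_iff a w k 0, ← ea]
    exact mem_cent1.1 ((quo_cz hf (w := ⟨_, b.2⟩) (h.exp _ b.1)).1 (mem_cent1.2 (e _ (quo_of b.1))))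
  · rintro _ ⟨u, hu, rfl⟩
    rw [← map_pow]
    exact quo_one hf (.inl (h.exp _ hu))
  · obtain ⟨u, rfl⟩ := hf.surj y
    refine quo_norm (h.nQ (mem_norm_of_cj_le ?_))
    rw [cj_zpowers, zpowers_le]
    refine quo_Z2 hf (u := u * ⟨z, hz⟩ * u⁻¹) z3 (quo_c3 z3) ?_
    rw [← cj']
    exact conj_mem_of_norm le_rfl hy (mem_zpowers _)
  · obtain ⟨u, rfl⟩ := hf.surj y
    have uz := (quo_cz hf z3).1 hy
    rcases faith_Vd (h.XH (h.rho_mem uz)) (rc h D uz u.2) (fun v hv => by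
      have b := (Qd h D).ge ((s_pre h (k := 0)).2 hv)
      have c := quo_Z2 hf (u := u * ⟨_, b.2⟩ * u⁻¹ * ⟨_, b.2⟩⁻¹) z3 (h.exp _ (mul_mem
        (Fa.conjQ h.toE1 uz b.1) (inv_mem b.1))) (by rw [← cm]; exact e _ (quo_of b.1))
      obtain ⟨l, el⟩ := h.act' uz v 0
      change (u : G) * (s v * zp z 0) * (u : G)⁻¹ * (s v * zp z 0)⁻¹ ∈ zpowers z at c
      rw [el, h.inv', h.mul', h.mem_Z] at c
      exact add_neg_eq_zero.1 c) with k | k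
    · exact quo_of ((h.ker uz).1 k)
    · rw [← hf.map_mul_d u]
      refine quo_of ((h.ker (mul_mem uz (D.dz 0))).1 ?_)
      exact (h.hom _ uz _ (D.dz 0)).trans (by rw [k, D.rd, gd_sq])
  · rw [eQ, quo_card hf (Qd h D ▸ inf_le_right) fun k => dQ h D 0 (pre_le h _ k), h.card_pre, card_Vd]
  · rw [quo_card hf (Wd h D (n0 i)) fun k => dQ h D 0 (pre_le h _ k), h.card_pre, card_W]
  · rw [eQ, ← Vd_eq, ← pre_sup, ← pre_sup, subgroupOf_sup (sup_le (Wd h D (by decide)) (Wd h D (by decide)))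
      (Wd h D (by decide)), subgroupOf_sup (Wd h D (by decide)) (Wd h D (by decide)), Subgroup.map_sup, Subgroup.map_sup]
    rfl
  · rintro _ ⟨v, a, k, rfl⟩ _ ⟨w, b, l, rfl⟩
    exact (h.comm_iff ..).2 (W_perp (fun e => n (Fin.succ_injective _ e).symm) b a)
  · rw [← map_mul]
    exact quo_one hf (.inl (D.sq _))
  · rintro _ ⟨u, ⟨v, a, k, e⟩, rfl⟩
    rw [cj', ← map_mul]
    refine quo_Z1 (show d i.succ * (u : G) * (d i.succ)⁻¹ * u ∈ zpowers z from ?_)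
    rw [show (u : G) = _ from e, actd h D, mem_W.1 a, h.mul', h.mem_Z, neg_add_cancel]
  · exact quo_cent (S := zpowers (d i.succ)) (zpowers_le.2 (le_cent1_iff.1 (Wd h D fun e =>
      n (Fin.succ_injective _ e)))) (quo_of (mem_zpowers _))
  · rintro ⟨_, u, hu, rfl⟩
    refine ⟨2, Subtype.ext ?_⟩
    change f u ^ 4 = 1
    rw [← map_pow]
    exact quo_one hf (.inl ((hR _).1 hu).2)
  · rintro _ ⟨u, hu, rfl⟩
    exact (quo_cz hf z3).2 ((hR _).1 hu).1.1.1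
  · rintro _ ⟨u, hu, rfl⟩
    exact (nW u ((hR _).1 hu).1.1.1 i).2 ((mem_KK.1 (K0_le ((hR _).1 hu).1.1.2)).2 _)
  · obtain ⟨u, rfl⟩ := hf.surj y
    have uz := (quo_cz hf z3).1 hy
    rw [eP]
    exact quo_norm (norm_pr h uz (norm_K0 ⟨h.XH (h.rho_mem uz), mem_cent1.2 (rc h D uz u.2)⟩))
  · rw [quo_card2 hf (Rd h D hR 0) (dR h D hR 0), cardR h hR]
  · obtain ⟨u, rfl⟩ := hf.surj y
    have uz := (quo_cz hf z3).1 hy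
    refine mP u ⟨uz, two_mem (mem_KK.2 ⟨h.XH (h.rho_mem uz), fun i => ?_⟩) ?_⟩
    · exact Fin.cases (rc h D uz u.2) (fun j => (nW u uz j).1 (b j)) i
    · obtain ⟨q, hq, e⟩ := e
      have hq : (q : G) ∈ Q := hq
      have q1 := (h.ker (h.Qc hq)).2 hq
      refine (pow_mul _ 4 2).trans ?_
      rw [← h.rho_pow uz]
      rcases hf.eq_or (e.trans (map_pow f u 4).symm) with k | k
      · rw [show (u : G) ^ 4 = q from congrArg Subtype.val k, q1, one_pow]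
      · rw [show (u : G) ^ 4 = q * d 0 from congrArg Subtype.val k, h.hom _ (h.Qc hq) _ (D.dz 0), q1, one_mul,
          D.rd, pow_two, gd_sq]
  · have e : 𝒞[f ⟨z, hz⟩] = ((𝒞[z] ⊓ 𝒞[d 0]).subgroupOf 𝒞[d 0]).map f := by
      ext y
      obtain ⟨u, rfl⟩ := hf.surj y
      refine ⟨fun a => quo_of ⟨(quo_cz hf z3).1 a, u.2⟩, fun ⟨v, a, e⟩ => e ▸ (quo_cz hf z3).2 a.1⟩
    rw [e, quo_card2 hf inf_le_right ⟨D.dz 0, self_mem_cent1 _⟩, h.card_im inf_le_left, imH h D,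
      show 𝒞[z] ⊓ 𝒞[d 0] ⊓ Q = h.pre (Fix (gd 0)) from Qd h D ▸ le_antisymm (fun _ a => ⟨a.2, a.1.2⟩)
        fun _ a => ⟨⟨h.Qc a.1, a.2⟩, a.1⟩, h.card_pre, card_Vd]

end Cfsg.Agent.B3
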