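/-
Project B3: the intermediate structure of the set-up.
-/
import Cfsg.Agent.B3.Defs

set_option autoImplicit false

namespace Cfsg.Agent.B3

open Subgroup H49 T3.Fr2 F3

variable {G : Type*} [Group G]

/-- Coordinates on `Q/⟨z⟩` and on `C(z)/Q`. -/
structure PT (z : G) (Q : Subgroup G) (π : G → V) (ρ : G → GG) : Prop extends E1 z Q where
  add : ∀ a ∈ Q, ∀ b ∈ Q, π (a * b) = π a + π b
  surj : ∀ v, ∃ a ∈ Q, π a = v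
  ker : ∀ a ∈ Q, π a = 0 ↔ a ∈ zpowers z
  cm : ∀ a ∈ Q, ∀ b ∈ Q, a * b * a⁻¹ * b⁻¹ = zp z (-om (π a) (π b))
  hom : ∀ g ∈ 𝒞[z], ∀ k ∈ 𝒞[z], ρ (g * k) = ρ g * ρ k
  act : ∀ g ∈ 𝒞[z], ∀ a ∈ Q, π (g * a * g⁻¹) = ρ g • π a
  hH : ∀ g ∈ 𝒞[z], ρ g ∈ HH
  hR : ∀ a ∈ R0, ∃ g ∈ 𝒞[z], ρ g = a

end Cfsg.Agent.B3
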