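import Cfsg.Agent.B3.Defs
import Mathlib.LinearAlgebra.BilinearForm.Orthogonal
import Mathlib.Algebra.Module.ZMod
import Mathlib.FieldTheory.Finiteness

set_option autoImplicit false

namespace Cfsg.Agent.B3

open Subgroup H49 T3.Fr2 F3

namespace Lin

/-- the form as a bilinear map -/
def omB : LinearMap.BilinForm F V := LinearMap.mk₂ F om om_add_left om_smul_left om_add_right om_smul_right

theorem cm {A B : Type*} [AddGroup A] [AddGroup B] (f : A →+ B) (P : AddSubgroup A) :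
    Nat.card P = Nat.card ↥(P ⊓ f.ker) * Nat.card (P.map f) := by
  rw [← AddSubgroup.relIndex_ker, ← AddSubgroup.inf_relIndex_left, ← AddSubgroup.relIndex_bot_left,
    ← AddSubgroup.relIndex_bot_left, AddSubgroup.relIndex_mul_relIndex _ _ _ bot_le inf_le_left]

/-- the map `τ - 1` -/
noncomputable def sg (τ : GG) : V →+ V := DistribSMul.toAddMonoidHom V τ - AddMonoidHom.id V

theorem sg_apply (τ : GG) (v : V) : sg τ v = τ • v - v := rfl

theorem ker_sg (τ : GG) : (sg τ).ker = Fix τ := AddSubgroup.ext fun _ => sub_eq_zero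

end Lin

open Lin

theorem card_V : Nat.card V = 6561 := by rw [Nat.card_fun, Nat.card_zmod, Nat.card_fin]; rfl

theorem card_perp (U : AddSubgroup V) :
    ∃ P : AddSubgroup V, (∀ v, v ∈ P ↔ ∀ u ∈ U, om u v = 0) ∧ Nat.card U * Nat.card P = 6561 := by
  refine ⟨(omB.orthogonal (AddSubgroup.toZModSubmodule 3 U)).toAddSubgroup, fun v => Iff.rfl, ?_⟩
  have hr : omB.IsRefl := fun v w (h : om v w = 0) => show om w v = 0 by rw [om_swap, h, neg_zero]
  have h1 := LinearMap.BilinForm.finrank_add_finrank_orthogonal hr (AddSubgroup.toZModSubmodule 3 U)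
  have h2 : omB.orthogonal ⊤ = ⊥ := eq_bot_iff.2 fun v hv => om_nondeg fun w => hr _ _ (hv w trivial)
  rw [h2, inf_bot_eq, finrank_bot, add_zero, Module.finrank_fin_fun] at h1
  refine Eq.trans (congrArg₂ (· * ·) (Module.natCard_eq_pow_finrank (K := F) (V := AddSubgroup.toZModSubmodule 3 U))
    (Module.natCard_eq_pow_finrank (K := F) (V := omB.orthogonal (AddSubgroup.toZModSubmodule 3 U)))) ?_
  rw [← pow_add, h1, Nat.card_zmod]; rfl

theorem iso_le {U : AddSubgroup V} (h : ∀ v ∈ U, ∀ w ∈ U, om v w = 0) : Nat.card U ≤ 81 := by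
  obtain ⟨P, h1, h2⟩ := card_perp U
  have := AddSubgroup.card_le_of_le (show U ≤ P from fun w hw => (h1 w).2 fun v hv => h v hv w hw)
  nlinarith

theorem range_of_perp {τ : GG} (hτ : τ ∈ HH) {q : V} (h : ∀ v ∈ Fix τ, om q v = 0) : ∃ w, q = τ • w - w := by
  obtain ⟨P, h1, h2⟩ := card_perp (Fix τ)
  have h3 := cm (sg τ) ⊤
  rw [top_inf_eq, ker_sg, AddSubgroup.card_top, card_V, ← h2] at h3
  have h4 : (⊤ : AddSubgroup V).map (sg τ) = P := AddSubgroup.eq_of_le_of_card_ge (by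
    rintro _ ⟨w, -, rfl⟩
    refine (h1 _).2 fun u hu => ?_
    rw [sg_apply, om_sub_right, ← om_smul hτ u w, mem_Fix.1 hu, sub_self])
    (Nat.eq_of_mul_eq_mul_left Nat.card_pos h3).le
  obtain ⟨w, -, e⟩ := h4.ge ((h1 q).2 fun u hu => by rw [om_swap, h u hu, neg_zero])
  exact ⟨w, e.symm⟩

theorem card_Fix {τ : GG} (h : τ ^ 3 = 1) : 27 ≤ Nat.card (Fix τ) := by
  have k : ∀ P : AddSubgroup V, Nat.card P ≤ Nat.card (Fix τ) * Nat.card (P.map (sg τ)) := fun P => by
    rw [cm (sg τ) P, ker_sg]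
    exact Nat.mul_le_mul_right _ (AddSubgroup.card_le_of_le inf_le_right)
  have e : (((⊤ : AddSubgroup V).map (sg τ)).map (sg τ)).map (sg τ) = ⊥ := eq_bot_iff.2 (by
    rintro _ ⟨_, ⟨_, ⟨v, -, rfl⟩, rfl⟩, rfl⟩
    have h1 : τ • τ • τ • v = v := by rw [← mul_smul, ← mul_smul, ← pow_three', h, one_smul]
    have h2 : ∀ x : V, x + x + x = 0 := fun x => funext fun i => (by decide : ∀ a : F, a + a + a = 0) (x i)
    simp only [sg_apply, smul_sub, h1, AddSubgroup.mem_bot]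
    linear_combination (exp := 1) h2 (τ • v) - h2 (τ • τ • v))
  have h1 := (k ⊤).trans (Nat.mul_le_mul_left _ ((k _).trans (Nat.mul_le_mul_left _ (k _))))
  rw [e, AddSubgroup.card_bot, AddSubgroup.card_top, card_V] at h1
  obtain ⟨j, -, h2⟩ := (Nat.dvd_prime_pow Nat.prime_three (m := 8)).1
    ((Fix τ).card_addSubgroup_dvd_card.trans (dvd_of_eq card_V))
  rw [h2] at h1 ⊢
  by_contra c
  have : j < 3 := by_contra fun c' => c (Nat.pow_le_pow_right (n := 3) (by decide) (not_lt.1 c'))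
  interval_cases j <;> omega

theorem iso_of_le {U P : AddSubgroup V} (hU : U ≤ P) (h : ∀ u ∈ U, ∀ v ∈ P, om u v = 0)
    (hc : Nat.card P ≤ 3 * Nat.card U) : ∀ v ∈ P, ∀ w ∈ P, om v w = 0 := by
  intro v hv w hw
  by_contra c
  obtain ⟨φ, hφ⟩ : ∃ φ : V →+ F × F, ∀ x, φ x = (om x v, om x w) :=
    ⟨AddMonoidHom.mk' (fun x => (om x v, om x w)) fun x y => Prod.ext (om_add_left x y v) (om_add_left x y w),
      fun _ => rfl⟩
  have e : P.map φ = ⊤ := (AddSubgroup.eq_top_iff' _).2 fun ⟨a, b⟩ =>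
    ⟨(b * om v w) • v - (a * om v w) • w, sub_mem (ZMod.smul_mem hv _) (ZMod.smul_mem hw _), by
      simp only [hφ, om_sub_left, om_smul_left, om_self, om_swap v w]
      exact (by decide : ∀ a b c : F, c ≠ 0 → (b * c * 0 - a * c * -c, b * c * c - a * c * 0) = (a, b)) a b _ c⟩
  have h1 := cm φ P
  rw [e, AddSubgroup.card_top, Nat.card_prod, Nat.card_zmod] at h1
  have h2 := AddSubgroup.card_le_of_le (show U ≤ P ⊓ φ.ker from fun u hu =>
    ⟨hU hu, (hφ u).trans (Prod.ext (h u hu v hv) (h u hu w hw))⟩)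
  have := Nat.card_pos (α := U)
  omega

theorem card_mul_le {U D P : AddSubgroup V} (hU : U ≤ P) (hD : D ≤ P) (h : ∀ v ∈ U, v ∈ D → v = 0) :
    Nat.card U * Nat.card D ≤ Nat.card P ∧
      (Nat.card P ≤ Nat.card U * Nat.card D → ∀ v ∈ P, ∃ u ∈ U, ∃ w ∈ D, v = u + w) := by
  let f : U × D → P := fun x => ⟨x.1 + x.2, add_mem (hU x.1.2) (hD x.2.2)⟩
  have hf : Function.Injective f := fun x y e => by
    have e1 : (x.1 : V) + x.2 = y.1 + y.2 := congrArg Subtype.val e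
    have e2 := h (x.1 - y.1) (sub_mem x.1.2 y.1.2) (by
      rw [show (x.1 : V) - y.1 = y.2 - x.2 by rw [sub_eq_sub_iff_add_eq_add, e1, add_comm]]
      exact sub_mem y.2.2 x.2.2)
    rw [sub_eq_zero] at e2
    exact Prod.ext (Subtype.ext e2) (Subtype.ext (add_left_cancel (e2 ▸ e1)))
  have h1 := Nat.card_le_card_of_injective f hf
  rw [Nat.card_prod] at h1
  refine ⟨h1, fun h2 v hv => ?_⟩
  obtain ⟨x, e⟩ := ((Nat.bijective_iff_injective_and_card f).2 ⟨hf, by rw [Nat.card_prod]; omega⟩).2 ⟨v, hv⟩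
  exact ⟨_, x.1.2, _, x.2.2, (congrArg Subtype.val e).symm⟩

theorem card_hyp (P : AddSubgroup V) (q : V) :
    ∃ C : AddSubgroup V, (∀ v, v ∈ C ↔ v ∈ P ∧ om q v = 0) ∧ Nat.card P ≤ 3 * Nat.card C := by
  refine ⟨P ⊓ (omB q).toAddMonoidHom.ker, fun v => Iff.rfl, ?_⟩
  rw [cm (omB q).toAddMonoidHom P, mul_comm]
  exact Nat.mul_le_mul_right _ ((AddSubgroup.card_le_card_addGroup _).trans (Nat.card_zmod 3).le)

end Cfsg.Agent.B3
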