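import Cfsg.Agent.B3.ModA
import Cfsg.Agent.H51.ElemRep
import Mathlib.LinearAlgebra.Matrix.GeneralLinearGroup.Card

set_option autoImplicit false

namespace Cfsg.Agent.B3

open Subgroup H49 T3.Fr2 F3

attribute [local irreducible] gm

namespace MB

theorem exists_qa {G : Type*} [Group G] (A H : Subgroup G) [(H.subgroupOf A).Normal] :
    ∃ ψ : ↥(𝒩(A) ⊓ 𝒩(H)) →* MulAut (A ⧸ H.subgroupOf A), ∀ (g : ↥(𝒩(A) ⊓ 𝒩(H))) (x : A),
      ψ g (x : A ⧸ H.subgroupOf A) =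
        ((⟨g * x * (g : G)⁻¹, conj_mem_of_norm le_rfl g.2.1 x.2⟩ : A) : A ⧸ _) := by
  have hm : ∀ g : ↥(𝒩(A) ⊓ 𝒩(H)), (H.subgroupOf A).map
      (A.normalizerMonoidHom ⟨g, g.2.1⟩ : A ≃* A) = H.subgroupOf A := by
    intro g
    ext x
    refine mem_map_equiv.trans ?_
    rw [mem_subgroupOf, mem_subgroupOf, mem_normalizer_iff.1 g.2.2]
    have : ((g : G) * ((A.normalizerMonoidHom ⟨g, g.2.1⟩).symm x : A) * (g : G)⁻¹) = x :=
      congrArg Subtype.val ((A.normalizerMonoidHom ⟨g, g.2.1⟩).apply_symm_apply x)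
    rw [this]
  refine ⟨MonoidHom.mk' (fun g => QuotientGroup.congr _ _ _ (hm g)) fun g k => ?_, fun g x => rfl⟩
  refine MulEquiv.ext fun v => ?_
  obtain ⟨x, rfl⟩ := QuotientGroup.mk_surjective v
  refine congrArg (QuotientGroup.mk (s := H.subgroupOf A)) (Subtype.ext ?_)
  show (g : G) * k * x * ((g : G) * k)⁻¹ = g * (k * x * (k : G)⁻¹) * (g : G)⁻¹
  group

theorem aut64 {E : Type*} [Group E] [Finite E] (cm : ∀ a b : E, a * b = b * a) (sq : ∀ a : E, a ^ 2 = 1)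
    (c : Nat.card E = 64) : Nat.card (MulAut E) ∣ 20158709760 := by
  obtain ⟨n, -, ρ, h1, -, h2, -⟩ := H51.exists_matrix_rep E 2 cm sq
  obtain rfl : 6 = n := Nat.pow_right_injective le_rfl (c.symm.trans h1)
  have := card_dvd_of_injective (H := GL (Fin 6) (ZMod 2)) ρ.toHomUnits fun a b e =>
    h2 (congrArg Units.val e)
  rw [Matrix.card_GL_field] at this
  simpa [Fin.prod_univ_succ] using this

theorem three_le' {Γ : Type*} [Group Γ] [Finite Γ] {R P : Subgroup Γ} {z : Γ} (zc : ∀ g, g * z = z * g)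
    (z2 : z * z = 1) (z1 : z ≠ 1) (zR : z ∈ R) (cR : Nat.card R = 128) (sq : ∀ a ∈ R, a * a = 1 ∨ a * a = z)
    (cen : ∀ g, (∀ a ∈ R, g * a = a * g) → g = 1 ∨ g = z) (hP : P ≤ 𝒩(R)) (h3 : IsPGroup 3 P) :
    Nat.card P ≤ 81 := by
  have oz : orderOf z = 2 := orderOf_eq_prime (by rw [pow_two, z2]) z1
  have mz : ∀ {x}, x ∈ zpowers z → x = 1 ∨ x = z := fun {x} hx => by
    obtain ⟨k, rfl⟩ := mem_powers_iff_mem_zpowers.2 hx
    dsimp only
    rw [← pow_mod_orderOf, oz]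
    rcases Nat.mod_two_eq_zero_or_one k with e | e <;> simp [e]
  have hn : (zpowers z).Normal := ⟨fun x hx g => by
    rcases mz hx with rfl | rfl
    · simp
    · rw [zc, mul_inv_cancel_right]; exact hx⟩
  obtain ⟨ψ, hψ⟩ := exists_qa R (zpowers z)
  have sq' : ∀ a : R ⧸ (zpowers z).subgroupOf R, a * a = 1 := fun a => by
    obtain ⟨a, rfl⟩ := QuotientGroup.mk_surjective a
    rw [← QuotientGroup.mk_mul, QuotientGroup.eq_one_iff, mem_subgroupOf]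
    rcases sq a a.2 with e | e
    · exact (show ((a * a : R) : Γ) = 1 from e) ▸ one_mem _
    · exact (show ((a * a : R) : Γ) = z from e) ▸ mem_zpowers z
  have cE : Nat.card (R ⧸ (zpowers z).subgroupOf R) = 64 := by
    have := card_eq_card_quotient_mul_card_subgroup ((zpowers z).subgroupOf R)
    rw [cR, Nat.card_congr (subgroupOfEquivOfLe (zpowers_le.2 zR)).toEquiv, Nat.card_zpowers, oz] at this
    omega
  have hd := aut64 (E := R ⧸ (zpowers z).subgroupOf R) (fun a b => by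
    rw [← inv_eq_of_mul_eq_one_right (sq' (a * b)), mul_inv_rev, inv_eq_of_mul_eq_one_right (sq' a),
      inv_eq_of_mul_eq_one_right (sq' b)]) (fun a => (pow_two a).trans (sq' a)) cE
  have hle : P ≤ 𝒩(R) ⊓ 𝒩(zpowers z) := le_inf hP (by rw [normalizer_eq_top]; exact le_top)
  have hi : Function.Injective (ψ.comp (inclusion hle)) := (injective_iff_map_eq_one _).2 fun y hy => by
    have k : ∀ a ∈ R, y * a * (y : Γ)⁻¹ = a ∨ y * a * (y : Γ)⁻¹ = a * z := fun a ha => by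
      have e := hψ (inclusion hle y) ⟨a, ha⟩
      rw [show ψ (inclusion hle y) = 1 from hy, MulAut.one_apply, QuotientGroup.eq, mem_subgroupOf] at e
      rcases mz e with e | e
      · exact .inl (inv_mul_eq_one.1 e).symm
      · exact .inr (inv_mul_eq_iff_eq_mul.1 e)
    have k2 : ∀ a ∈ R, (y * y : Γ) * a = a * (y * y) := fun a ha => by
      rw [← mul_inv_eq_iff_eq_mul, show (y * y : Γ) * a * (y * y : Γ)⁻¹ = y * (y * a * (y : Γ)⁻¹) * (y : Γ)⁻¹ by group]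
      rcases k a ha with e | e
      · rw [e, e]
      · rw [e, show y * (a * z) * (y : Γ)⁻¹ = y * a * (z * (y : Γ)⁻¹) by group, ← zc, ← mul_assoc, e, mul_assoc, z2,
          mul_one]
    have y4 : y ^ 4 = 1 := Subtype.ext (by
      rw [show ((y ^ 4 : P) : Γ) = y * y * (y * y) by simp [pow_succ, mul_assoc]]
      rcases cen _ k2 with e | e <;> rw [e]
      · simp
      · exact z2)
    obtain ⟨m, hm⟩ := h3 y
    have := Nat.dvd_gcd (orderOf_dvd_of_pow_eq_one y4) (orderOf_dvd_of_pow_eq_one hm)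
    rw [show Nat.gcd 4 (3 ^ m) = 1 from Nat.Coprime.pow_right m (by decide), Nat.dvd_one, orderOf_eq_one_iff] at this
    exact this
  have hd2 := (card_dvd_of_injective _ hi).trans hd
  obtain ⟨k, hk⟩ := IsPGroup.iff_card.1 h3
  rw [hk] at hd2 ⊢
  by_contra! hlt
  have : 5 ≤ k := by
    by_contra! h5
    have := Nat.pow_le_pow_right (show 0 < 3 by decide) (show k ≤ 4 by omega)
    omega
  exact absurd ((pow_dvd_pow 3 this).trans hd2) (by decide)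

/-- the elements of `R0` with prescribed relations -/
noncomputable def flt (l₁ l₂ : List ℕ) : List ℕ := R0L.filter fun y =>
  (l₁.all fun c => Nat.beq (mulN (mulN y c) y) (mulN negN c)) && l₂.all fun c => Nat.beq (mulN (mulN y c) y) c

theorem mem_flt {l₁ l₂ : List GG} {y : GG} : pk y ∈ flt (l₁.map pk) (l₂.map pk) ↔
    y ∈ R0 ∧ (∀ c ∈ l₁, y * c * y = -c) ∧ ∀ c ∈ l₂, y * c * y = c := by
  simp only [flt, List.mem_filter, Bool.and_eq_true, List.all_eq_true, Nat.beq_eq, List.forall_mem_map, mem_R0,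
    pk_eq_iff (g := y * _ * y), pk_mul, pk_neg]

theorem step {X : Subgroup GG} (hX : X ≤ NN) (a : GG) (l₁ l₂ : List GG) (n : ℕ) (h₁ : ∀ c ∈ l₁, X ≤ 𝒞[c])
    (h₂ : ∀ c ∈ l₂, X ≤ 𝒞[c])
    (ha : pk a ∈ flt (l₁.map pk) (l₂.map pk) ∧ (flt (l₁.map pk) (l₂.map pk)).length = n) :
    Nat.card X ≤ n * Nat.card ↥(X ⊓ 𝒞[a]) := by
  obtain ⟨a0, a1, a2⟩ := mem_flt.1 ha.1
  have k : ∀ x c : GG, x ∈ 𝒞[c] → x * a * x⁻¹ * c * (x * a * x⁻¹) = x * (a * c * a) * x⁻¹ := fun x c h => by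
    rw [show x * a * x⁻¹ * c * (x * a * x⁻¹) = x * a * x⁻¹ * (c * x) * a * x⁻¹ by group, ← mem_cent1.1 h]
    group
  refine ha.2 ▸ card_chain X a _ fun x hx => mem_flt.2 ⟨conj_mem_of_norm hX hx a0, fun c hc => ?_, fun c hc => ?_⟩
  · rw [k x c (h₁ c hc hx), a1 c hc, mul_neg, neg_mul, mem_cent1.1 (h₁ c hc hx), mul_inv_cancel_right]
  · rw [k x c (h₂ c hc hx), a2 c hc, mem_cent1.1 (h₂ c hc hx), mul_inv_cancel_right]

theorem neg_ne : (-1 : GG) ≠ 1 := fun e => by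
  have := congrArg pk e
  rw [pk_neg_one, pk_one] at this
  exact absurd this (by decide +kernel)

theorem last {X : Subgroup GG} (h : ∀ a, X ≤ 𝒞[gI a] ∧ X ≤ 𝒞[gJ a]) : Nat.card X ≤ 2 := by
  have : X ≤ zpowers (-1) := fun x hx => by
    rcases cent_R0 (g := x) fun a => ⟨mem_cent1.1 ((h a).1 hx), mem_cent1.1 ((h a).2 hx)⟩ with rfl | rfl
    exacts [one_mem _, mem_zpowers _]
  refine (card_le_of_le this).trans ?_
  rw [Nat.card_zpowers]
  exact orderOf_le_of_pow_eq_one (by decide) (by simp)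

theorem c_one (X : Subgroup GG) : X ≤ 𝒞[(1 : GG)] := fun x _ => mem_cent1.2 (by simp)

theorem card_NN : Nat.card NN ≤ 2 * 3317760 := by
  have s0 := step (X := NN) le_rfl (gI 0) [1] [] 72 (by simp [c_one]) (by simp)
    (by simp only [List.map_cons, List.map_nil, pk_one, pk_gI]; decide +kernel)
  have s1 := step (X := NN ⊓ 𝒞[gI 0]) inf_le_left (gJ 0) [1] [gI 0] 40 (by simp [c_one]) (by simp)
    (by simp only [List.map_cons, List.map_nil, pk_one, pk_gI, pk_gJ]; decide +kernel)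
  generalize hX : NN ⊓ 𝒞[gI 0] ⊓ 𝒞[gJ 0] = X at s1
  have x0 : X ≤ NN := hX ▸ inf_le_left.trans inf_le_left
  have x1 : X ≤ 𝒞[gI 0] := hX ▸ inf_le_left.trans inf_le_right
  have x2 : X ≤ 𝒞[gJ 0] := hX ▸ inf_le_right
  have s2 := step x0 (gI 1) [1, gI 0, gJ 0] [] 12 (by simp [c_one, x1, x2]) (by simp)
    (by simp only [List.map_cons, List.map_nil, pk_one, pk_gI, pk_gJ]; decide +kernel)
  have s3 := step (X := X ⊓ 𝒞[gI 1]) (inf_le_left.trans x0) (gJ 1) [1, gI 0, gJ 0] [gI 1] 4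
    (by simp [c_one, inf_le_left.trans x1, inf_le_left.trans x2]) (by simp)
    (by simp only [List.map_cons, List.map_nil, pk_one, pk_gI, pk_gJ]; decide +kernel)
  generalize hY : X ⊓ 𝒞[gI 1] ⊓ 𝒞[gJ 1] = Y at s3
  have y0 : Y ≤ X := hY ▸ inf_le_left.trans inf_le_left
  have y1 : Y ≤ 𝒞[gI 1] := hY ▸ inf_le_left.trans inf_le_right
  have y2 : Y ≤ 𝒞[gJ 1] := hY ▸ inf_le_right
  have s4 := step (y0.trans x0) (gI 2) [1, gI 0, gJ 0, gI 1, gJ 1] [] 6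
    (by simp [c_one, y0.trans x1, y0.trans x2, y1, y2]) (by simp)
    (by simp only [List.map_cons, List.map_nil, pk_one, pk_gI, pk_gJ]; decide +kernel)
  have s5 := step (X := Y ⊓ 𝒞[gI 2]) (inf_le_left.trans (y0.trans x0)) (gJ 2) [1, gI 0, gJ 0, gI 1, gJ 1] [gI 2] 4
    (by simp [c_one, inf_le_left.trans (y0.trans x1), inf_le_left.trans (y0.trans x2), inf_le_left.trans y1,
      inf_le_left.trans y2]) (by simp)
    (by simp only [List.map_cons, List.map_nil, pk_one, pk_gI, pk_gJ]; decide +kernel)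
  have z0 : Y ⊓ 𝒞[gI 2] ⊓ 𝒞[gJ 2] ≤ Y := inf_le_left.trans inf_le_left
  have s6 := last (X := Y ⊓ 𝒞[gI 2] ⊓ 𝒞[gJ 2]) fun a => by
    fin_cases a
    exacts [⟨z0.trans (y0.trans x1), z0.trans (y0.trans x2)⟩, ⟨z0.trans y1, z0.trans y2⟩,
      ⟨inf_le_left.trans inf_le_right, inf_le_right⟩]
  omega

theorem sq_R0 {a : GG} (h : a ∈ R0) : a * a = 1 ∨ a * a = -1 := by
  have key : ∀ x ∈ R0L, mulN x x = oneN ∨ mulN x x = negN := by decide +kernel
  simpa only [pk_eq_iff (g := a * a), pk_mul, pk_one, pk_neg_one] using key _ (mem_R0.1 h)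

theorem conj_pm {Γ : Type*} [Group Γ] [HasDistribNeg Γ] {t k : Γ} (h1 : t⁻¹ = t ∨ t⁻¹ = -t)
    (h2 : k⁻¹ = k ∨ k⁻¹ = -k) (h3 : (t * k)⁻¹ = t * k ∨ (t * k)⁻¹ = -(t * k)) :
    t * k * t⁻¹ = k ∨ t * k * t⁻¹ = -k := by
  rw [mul_inv_rev] at h3
  rw [mul_inv_eq_iff_eq_mul, mul_inv_eq_iff_eq_mul, neg_mul]
  have a : k⁻¹ * t⁻¹ = k * t ∨ k⁻¹ * t⁻¹ = -(k * t) := by
    rcases h1 with e1 | e1 <;> rcases h2 with e2 | e2 <;> simp [e1, e2]
  rcases a with a | a <;> rcases h3 with e | e <;> rw [a] at e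
  exacts [.inl e.symm, .inr (by rw [e, neg_neg]), .inr e.symm, .inl (neg_inj.1 e).symm]

theorem conj_R0 {t k : GG} (ht : t ∈ R0) (hk : k ∈ R0) : t * k * t⁻¹ = k ∨ t * k * t⁻¹ = -k := by
  have i : ∀ {a}, a ∈ R0 → a⁻¹ = a ∨ a⁻¹ = -a := fun {a} h => (sq_R0 h).imp inv_eq_of_mul_eq_one_right fun e =>
    inv_eq_of_mul_eq_one_right (by rw [mul_neg, e, neg_neg])
  exact conj_pm (i ht) (i hk) (i (mul_mem ht hk))

theorem stepK {X : Subgroup GG} (hX : X ≤ C0) (a : Fin 3) (h : X ≤ 𝒞[gI a]) :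
    Nat.card X ≤ 2 * Nat.card ↥(X ⊓ 𝒞[gI a * gJ a]) := by
  have e : x0 * gI a = gI a * gJ a * x0 :=
    pk_inj (by simp only [pk_mul, pk_gI, pk_gJ, pk_x0]; clear h; revert a; decide +kernel)
  have hK := mul_mem (gI_mem a) (gJ_mem a)
  generalize gI a * gJ a = K at e hK
  refine card_chain X K [pk K, pk (-K)] fun g hg => ?_
  have ht := (mem_C0.1 (hX hg)).2
  have : g * K * g⁻¹ = g * x0 * g⁻¹ * x0⁻¹ * K * (g * x0 * g⁻¹ * x0⁻¹)⁻¹ := by
    rw [← mul_inv_eq_iff_eq_mul.2 e, show g * x0 * g⁻¹ * x0⁻¹ * (x0 * gI a * x0⁻¹) * (g * x0 * g⁻¹ * x0⁻¹)⁻¹ =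
      g * x0 * g⁻¹ * (gI a * g) * x0⁻¹ * g⁻¹ by group, ← mem_cent1.1 (h hg)]
    group
  rw [this]
  rcases conj_R0 ht hK with e | e <;> rw [e] <;> simp only [List.mem_cons, true_or, or_true]

theorem cJ_of {X : Subgroup GG} {a b : GG} (h1 : X ≤ 𝒞[a]) (h2 : X ≤ 𝒞[a * b]) : X ≤ 𝒞[b] := fun x hx => by
  have := mem_cent1.1 (h2 hx)
  rw [← mul_assoc, mem_cent1.1 (h1 hx), mul_assoc, mul_assoc, mul_left_cancel_iff] at this
  exact mem_cent1.2 this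

end MB

open MB

theorem card_HH : Nat.card HH ≤ 3317760 := by
  have h1 := card_half (gf_mem 0).1
  have h2 := card_NN
  rw [HH]
  omega

theorem MB.C0_le_NN : C0 ≤ NN := fun _ hg => HH_le_norm (mem_C0.1 hg).1

theorem MB.card_C0' {C : Subgroup GG} (c1 : C ≤ C0) : Nat.card C ≤ 82944 := by
  have c0 : C ≤ NN := c1.trans C0_le_NN
  have s0 := step c0 (gI 0) [1] [] 72 (by simp [c_one]) (by simp)
    (by simp only [List.map_cons, List.map_nil, pk_one, pk_gI]; decide +kernel)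
  have s1 := stepK (X := C ⊓ 𝒞[gI 0]) (inf_le_left.trans c1) 0 inf_le_right
  generalize hX : C ⊓ 𝒞[gI 0] ⊓ 𝒞[gI 0 * gJ 0] = X at s1
  have x0 : X ≤ C := hX ▸ inf_le_left.trans inf_le_left
  have x1 : X ≤ 𝒞[gI 0] := hX ▸ inf_le_left.trans inf_le_right
  have x2 : X ≤ 𝒞[gJ 0] := cJ_of x1 (hX ▸ inf_le_right)
  have s2 := step (x0.trans c0) (gI 1) [1, gI 0, gJ 0] [] 12 (by simp [c_one, x1, x2]) (by simp)
    (by simp only [List.map_cons, List.map_nil, pk_one, pk_gI, pk_gJ]; decide +kernel)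
  have s3 := stepK (X := X ⊓ 𝒞[gI 1]) (inf_le_left.trans (x0.trans c1)) 1 inf_le_right
  generalize hY : X ⊓ 𝒞[gI 1] ⊓ 𝒞[gI 1 * gJ 1] = Y at s3
  have y0 : Y ≤ X := hY ▸ inf_le_left.trans inf_le_left
  have y1 : Y ≤ 𝒞[gI 1] := hY ▸ inf_le_left.trans inf_le_right
  have y2 : Y ≤ 𝒞[gJ 1] := cJ_of y1 (hY ▸ inf_le_right)
  have s4 := step (y0.trans (x0.trans c0)) (gI 2) [1, gI 0, gJ 0, gI 1, gJ 1] [] 6
    (by simp [c_one, y0.trans x1, y0.trans x2, y1, y2]) (by simp)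
    (by simp only [List.map_cons, List.map_nil, pk_one, pk_gI, pk_gJ]; decide +kernel)
  have s5 := stepK (X := Y ⊓ 𝒞[gI 2]) (inf_le_left.trans (y0.trans (x0.trans c1))) 2 inf_le_right
  have z0 : Y ⊓ 𝒞[gI 2] ⊓ 𝒞[gI 2 * gJ 2] ≤ Y := inf_le_left.trans inf_le_left
  have z1 : Y ⊓ 𝒞[gI 2] ⊓ 𝒞[gI 2 * gJ 2] ≤ 𝒞[gI 2] := inf_le_left.trans inf_le_right
  have z2 : Y ⊓ 𝒞[gI 2] ⊓ 𝒞[gI 2 * gJ 2] ≤ 𝒞[gJ 2] := cJ_of z1 inf_le_right
  generalize Y ⊓ 𝒞[gI 2] ⊓ 𝒞[gI 2 * gJ 2] = Z at s5 z0 z1 z2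
  have s6 := last (X := Z) fun a => by
    fin_cases a
    exacts [⟨z0.trans (y0.trans x1), z0.trans (y0.trans x2)⟩, ⟨z0.trans y1, z0.trans y2⟩, ⟨z1, z2⟩]
  omega

theorem card_C0 : Nat.card C0 ≤ 82944 := card_C0' le_rfl

theorem three_le {P : Subgroup GG} (hP : P ≤ NN) (h3 : IsPGroup 3 P) : Nat.card P ≤ 81 :=
  three_le' (z := -1) (fun g => by simp) (by simp) neg_ne neg_one_mem card_R0 (fun _ => sq_R0)
    (fun _ h => cent_R0 fun a => ⟨h _ (gI_mem a), h _ (gJ_mem a)⟩) hP h3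

end Cfsg.Agent.B3
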