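import Cfsg.Agent.B3.ModB

set_option autoImplicit false

namespace Cfsg.Agent.B3

open Subgroup H49 T3.Fr2 F3

attribute [local irreducible] gm

namespace ModT

abbrev A3 : Type := Fin 3 × Fin 3 × Fin 3
abbrev WW : Type := A3 × Fin 3

/-- cyclic permutation of the coordinates -/
def rot (k : Fin 3) (v : A3) : A3 :=
  if k = 0 then v else if k = 1 then (v.2.2, v.1, v.2.1) else (v.2.1, v.2.2, v.1)

/-- the multiplication of the wreath product -/
def mw (u v : WW) : WW := (u.1 + rot u.2 v.1, u.2 + v.2)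

/-- the inverse in the wreath product -/
def iw (u : WW) : WW := (-rot (-u.2) u.1, -u.2)

section
variable {Γ : Type*} [Group Γ] {T : Fin 3 → Γ} {c : Γ}

def el (T : Fin 3 → Γ) (v : A3) : Γ := T 0 ^ v.1.val * T 1 ^ v.2.1.val * T 2 ^ v.2.2.val
def phi (T : Fin 3 → Γ) (c : Γ) (u : WW) : Γ := el T u.1 * c ^ u.2.val

/-- the relations of the wreath product -/
structure Wr (T : Fin 3 → Γ) (c : Γ) : Prop where
  cm : ∀ a b, Commute (T a) (T b)
  T3 : ∀ a, T a ^ 3 = 1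
  c3 : c ^ 3 = 1
  cT : ∀ a, c * T a * c⁻¹ = T (a + 1)

theorem pow3 {g : Γ} (h : g ^ 3 = 1) (a b : Fin 3) : g ^ (a + b).val = g ^ a.val * g ^ b.val := by
  rw [Fin.val_add, ← pow_eq_pow_mod _ h, pow_add]

theorem Wr.el_add (h : Wr T c) (u v : A3) : el T (u + v) = el T u * el T v := by
  simp only [el, Prod.fst_add, Prod.snd_add, pow3 (h.T3 _)]
  rw [Commute.mul_mul_mul_comm (b := T 2 ^ u.2.2.val) (((h.cm 2 0).pow_pow _ _).mul_right ((h.cm 2 1).pow_pow _ _)),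
    Commute.mul_mul_mul_comm (b := T 1 ^ u.2.1.val) ((h.cm 1 0).pow_pow _ _)]

theorem Wr.c_el (h : Wr T c) (v : A3) : c * el T v * c⁻¹ = el T (rot 1 v) := by
  have e : rot 1 v = (v.2.2, v.1, v.2.1) := rfl
  rw [e, el, el, ← conj_mul, ← conj_mul, ← conj_pow, ← conj_pow, ← conj_pow, h.cT, h.cT, h.cT, mul_assoc (T 0 ^ _)]
  exact (((h.cm 0 1).pow_pow _ _).mul_right ((h.cm 0 2).pow_pow _ _)).eq.symm

theorem Wr.cp_el (h : Wr T c) (k : Fin 3) (v : A3) : c ^ k.val * el T v * (c ^ k.val)⁻¹ = el T (rot k v) := by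
  fin_cases k
  · simp [rot]
  · simpa using h.c_el v
  · have : rot 2 v = rot 1 (rot 1 v) := rfl
    show c ^ 2 * el T v * (c ^ 2)⁻¹ = el T (rot 2 v)
    rw [this, ← h.c_el, ← h.c_el, pow_two]; group

theorem Wr.mul (h : Wr T c) (u v : WW) : phi T c (mw u v) = phi T c u * phi T c v := by
  rw [phi, phi, phi, mw, h.el_add, pow3 h.c3, ← h.cp_el]; group

theorem phi_zero : phi T c 0 = 1 := by simp [phi, el]

theorem phi_eq (u : WW) : phi T c u = T 0 ^ u.1.1.val * T 1 ^ u.1.2.1.val * T 2 ^ u.1.2.2.val * c ^ u.2.val := rfl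

theorem phi_J {u : WW} (k : u.2 = 0) : phi T c u = T 0 ^ u.1.1.val * T 1 ^ u.1.2.1.val * T 2 ^ u.1.2.2.val := by
  rw [phi_eq, k]; simp

theorem phi_c (k : Fin 3) : phi T c (0, k) = c ^ k.val := by simp [phi, el]

theorem phi_x : T 0 * T 1 * T 2 = phi T c ((1, 1, 1), 0) := by simp [phi, el]

theorem T_phi (a : Fin 3) : ∃ u : WW, u.2 = 0 ∧ T a = phi T c u := by
  fin_cases a
  exacts [⟨((1, 0, 0), 0), rfl, by simp [phi, el]⟩, ⟨((0, 1, 0), 0), rfl, by simp [phi, el]⟩,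
    ⟨((0, 0, 1), 0), rfl, by simp [phi, el]⟩]

theorem Wr.inj (h : Wr T c) (k : ∀ w, phi T c w = 1 → w = 0) : Function.Injective (phi T c) := fun u v e => by
  obtain ⟨e1, e2⟩ := (by decide +kernel : ∀ u v : WW, mw v (mw (iw v) u) = u ∧ (mw (iw v) u = 0 → u = v)) u v
  refine e2 (k _ ?_)
  rwa [← e1, h.mul, mul_eq_left] at e

/-- the image of a subset closed under multiplication -/
def Wr.sub (h : Wr T c) (p : WW → Prop) (h0 : p 0) (hm : ∀ u v, p u → p v → p (mw u v))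
    (hi : ∀ u, p u → p (iw u)) : Subgroup Γ where
  carrier := {g | ∃ u, p u ∧ g = phi T c u}
  one_mem' := ⟨0, h0, phi_zero.symm⟩
  mul_mem' := by
    rintro _ _ ⟨u, a, rfl⟩ ⟨v, b, rfl⟩
    exact ⟨_, hm u v a b, (h.mul u v).symm⟩
  inv_mem' := by
    rintro _ ⟨u, a, rfl⟩
    exact ⟨_, hi u a, inv_eq_of_mul_eq_one_right (by
      rw [← h.mul, (by decide +kernel : ∀ u : WW, mw u (iw u) = 0) u, phi_zero])⟩

theorem T_mem (a : Fin 3) : T a ∈ closure (Set.range T) := Subgroup.subset_closure ⟨a, rfl⟩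

theorem Wr.memJ (h : Wr T c) {g : Γ} : g ∈ closure (Set.range T) ↔ ∃ u : WW, u.2 = 0 ∧ g = phi T c u := by
  constructor
  · exact fun k => (closure_le (h.sub (·.2 = 0) rfl (by decide +kernel) (by decide +kernel))).2
      (by rintro _ ⟨a, rfl⟩; exact T_phi a) k
  · rintro ⟨u, k, rfl⟩
    rw [phi_J k]
    exact mul_mem (mul_mem (pow_mem (T_mem 0) _) (pow_mem (T_mem 1) _)) (pow_mem (T_mem 2) _)

theorem Wr.memT (h : Wr T c) {g : Γ} : g ∈ closure (Set.range T) ⊔ zpowers c ↔ ∃ u : WW, g = phi T c u := by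
  constructor
  · intro k
    have : closure (Set.range T) ⊔ zpowers c ≤ h.sub (fun _ => True) trivial (fun _ _ _ _ => trivial) fun _ _ => trivial :=
      sup_le (fun g hg => (h.memJ.1 hg).imp fun _ k => ⟨trivial, k.2⟩)
        (zpowers_le.2 ⟨(0, 1), trivial, by simp [phi_c]⟩)
    exact (this k).imp fun _ k => k.2
  · rintro ⟨u, rfl⟩
    exact mul_mem (mem_sup_left
      (mul_mem (mul_mem (pow_mem (T_mem 0) _) (pow_mem (T_mem 1) _)) (pow_mem (T_mem 2) _)))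
      (mem_sup_right (npow_mem_zpowers _ _))

end

theorem wr : Wr gT gc where
  cm a b := pk_inj (by simp only [pk_mul, pk_gT]; revert a b; decide +kernel)
  T3 a := by
    rw [pow_three']
    exact pk_inj (by simp only [pk_mul, pk_gT, pk_one]; revert a; decide +kernel)
  c3 := by
    rw [pow_three']
    exact pk_inj (by simp only [pk_mul, pk_gc, pk_one]; decide +kernel)
  cT a := mul_inv_eq_iff_eq_mul.2 (pk_inj (by simp only [pk_mul, pk_gT, pk_gc]; revert a; decide +kernel))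

/-- the elements of `T3` -/
noncomputable abbrev ph (u : WW) : GG := phi gT gc u

theorem ph_mul (u v : WW) : ph (mw u v) = ph u * ph v := wr.mul u v

theorem ph_zero : ph 0 = 1 := phi_zero

/-- code of a power -/
noncomputable def pw (x : ℕ) (a : Fin 3) : ℕ := if a = 0 then oneN else if a = 1 then x else mulN x x

theorem pk_pow (g : GG) (a : Fin 3) : pk (g ^ a.val) = pw (pk g) a := by
  fin_cases a <;> simp [pw, pow_two]

theorem ph_inj : Function.Injective ph := wr.inj fun w e => by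
  have k := congrArg pk e
  rw [phi_eq, pk_mul, pk_mul, pk_mul, pk_pow, pk_pow, pk_pow, pk_pow, pk_gT, pk_gT, pk_gT, pk_gc, pk_one] at k
  exact (by decide +kernel : ∀ w : WW, mulN (mulN (mulN (pw (cT 0) w.1.1) (pw (cT 1) w.1.2.1)) (pw (cT 2) w.1.2.2))
    (pw cc w.2) = oneN → w = 0) w k

theorem memJ {g : GG} : g ∈ J0 ↔ ∃ u : WW, u.2 = 0 ∧ g = ph u := wr.memJ

theorem memT {g : GG} : g ∈ T3 ↔ ∃ u : WW, g = ph u := wr.memT

theorem card_le {B : Subgroup GG} (p : WW → Prop) [DecidablePred p] (h : ∀ g ∈ B, ∃ u, p u ∧ g = ph u) :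
    Nat.card B ≤ (Finset.univ.filter p).card := by
  rw [← Fintype.card_subtype, ← Nat.card_eq_fintype_card]
  choose f hf using fun g : B => h g.1 g.2
  exact Nat.card_le_card_of_injective (fun g : B => (⟨f g, (hf g).1⟩ : {u // p u})) fun a b k =>
    Subtype.ext (by rw [(hf a).2, (hf b).2, Subtype.mk.inj k])

theorem card_eq {B : Subgroup GG} (p : WW → Prop) [DecidablePred p] (h : ∀ g, g ∈ B ↔ ∃ u, p u ∧ g = ph u) :
    Nat.card B = (Finset.univ.filter p).card := by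
  refine le_antisymm (card_le p fun g hg => (h g).1 hg) ?_
  rw [← Fintype.card_subtype, ← Nat.card_eq_fintype_card]
  exact Nat.card_le_card_of_injective (fun u : {u // p u} => (⟨ph u, (h _).2 ⟨u, u.2, rfl⟩⟩ : B)) fun a b k =>
    Subtype.ext (ph_inj (Subtype.mk.inj k))

theorem x0_ph : x0 = ph ((1, 1, 1), 0) := by
  refine pk_inj ?_
  rw [ph, phi_eq, pk_mul, pk_mul, pk_mul, pk_pow, pk_pow, pk_pow, pk_pow, pk_gT, pk_gT, pk_gT, pk_gc, pk_x0]
  decide +kernel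

theorem three {A : Subgroup GG} (h : ∀ a ∈ A, a ^ 3 = 1) : IsPGroup 3 A := fun a =>
  ⟨1, Subtype.ext (by simpa using h a.1 a.2)⟩

theorem R4 {r : GG} (h : r ∈ R0) : r ^ 4 = 1 := by
  rw [show 4 = 2 * 2 from rfl, pow_mul, pow_two, pow_two]
  rw [mem_R0] at h
  refine pk_inj ?_
  rw [pk_mul, pk_mul, pk_one]
  exact (by decide +kernel : ∀ x ∈ R0L, mulN (mulN x x) (mulN x x) = oneN) _ h

/-- conjugates `gc` into `J0` -/
def ck : ℕ := 29783879993129100509602481590555219112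

theorem pk_ck : pk (gm ck) = ck := pk_gm (invN ck) (by decide +kernel) (by decide +kernel)

theorem ck_mem : gm ck ∈ HH := mem_HH_of (by rw [pk_ck]; decide +kernel)

theorem ck_c : gm ck * gc * (gm ck)⁻¹ = gT 0 * gT 1 :=
  mul_inv_eq_iff_eq_mul.2 (pk_inj (by simp only [pk_mul, pk_gT, pk_gc, pk_ck]; decide +kernel))

end ModT

open ModT

theorem mem_J0 {g : GG} : g ∈ J0 ↔ ∃ a b c : Fin 3, g = gT 0 ^ a.val * gT 1 ^ b.val * gT 2 ^ c.val := by
  constructor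
  · intro h
    obtain ⟨u, k, rfl⟩ := memJ.1 h
    exact ⟨u.1.1, u.1.2.1, u.1.2.2, phi_J k⟩
  · rintro ⟨a, b, c, rfl⟩
    exact mul_mem (mul_mem (pow_mem (T_mem 0) _) (pow_mem (T_mem 1) _)) (pow_mem (T_mem 2) _)

theorem card_J0 : Nat.card J0 = 27 := (card_eq (·.2 = 0) fun _ => memJ).trans (by decide +kernel)

theorem card_T3 : Nat.card T3 = 81 :=
  (card_eq (fun _ => True) fun _ => memT.trans (by simp)).trans (by decide +kernel)

theorem T3_le_HH : T3 ≤ HH :=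
  sup_le ((closure_le _).2 (by rintro _ ⟨a, rfl⟩; exact gT_mem a)) (zpowers_le.2 gc_mem)

theorem T3_le_C0 : T3 ≤ C0 := fun g hg => by
  refine mem_C0.2 ⟨T3_le_HH hg, ?_⟩
  obtain ⟨u, rfl⟩ := memT.1 hg
  have : ph u * x0 = x0 * ph u := by
    rw [x0_ph, ← ph_mul, ← ph_mul, (by decide +kernel : ∀ u : WW, mw u ((1, 1, 1), 0) = mw ((1, 1, 1), 0) u) u]
  rw [this, mul_inv_cancel_right, mul_inv_cancel]
  exact one_mem _

theorem T3_three : IsPGroup 3 T3 := IsPGroup.of_card (n := 4) card_T3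

theorem conj_T3 {X P : Subgroup GG} (hX : X ≤ HH) (hT : T3 ≤ X) (hP : P ≤ X) (h3 : IsPGroup 3 P) :
    ∃ f ∈ X, cj f P ≤ T3 := by
  obtain ⟨Q, hQ, le⟩ := H42.exists_sylIn T3_three hT
  obtain rfl : T3 = Q := eq_of_le_of_card_ge le (card_T3 ▸ three_le (hQ.le.trans (hX.trans inf_le_left)) hQ.isP)
  obtain ⟨f, hf, k⟩ := hQ.exists_conj h3 hP
  refine ⟨f, hf, fun y hy => ?_⟩
  obtain ⟨y', hy', rfl⟩ := mem_cj'.1 hy
  exact k y' hy'

theorem exp3_le {A : Subgroup GG} (hA : A ≤ HH) (h : ∀ a ∈ A, a ^ 3 = 1) : Nat.card A ≤ 27 := by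
  obtain ⟨f, -, le⟩ := conj_T3 le_rfl T3_le_HH hA (three h)
  have d := card_dvd_of_le le
  rw [card_cj, card_T3] at d
  have n : Nat.card A ≠ 81 := fun k => by
    have e := eq_of_le_of_card_ge le (by rw [card_cj, card_T3, k])
    obtain ⟨y, hy, e2⟩ := mem_cj'.1 (e.ge (memT.2 ⟨((1, 0, 0), 1), rfl⟩))
    have : ph ((1, 0, 0), 1) ^ 3 = 1 := by rw [e2, conj_pow, h y hy]; group
    rw [pow_three', ← ph_mul, ← ph_mul, ← ph_zero] at this
    exact absurd (ph_inj this) (by decide)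
  have := Nat.mem_divisors.2 ⟨d, by norm_num⟩
  rw [show Nat.divisors 81 = {1, 3, 9, 27, 81} by decide +kernel] at this
  simp only [Finset.mem_insert, Finset.mem_singleton] at this
  omega

theorem ab27 {X A : Subgroup GG} (hX : X ≤ HH) (hT : T3 ≤ X) (hA : A ≤ X) (h3 : ∀ a ∈ A, a ^ 3 = 1)
    (hc : A ≤ 𝒞(A)) (h27 : 27 ≤ Nat.card A) : ∃ f ∈ X, cj f A = J0 := by
  obtain ⟨f, hf, le⟩ := conj_T3 hX hT hA (three h3)
  refine ⟨f, hf, eq_of_le_of_card_ge (fun g hg => ?_) (by rw [card_cj, card_J0]; exact h27)⟩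
  obtain ⟨u, rfl⟩ := memT.1 (le hg)
  refine memJ.2 ⟨u, by_contra fun n => ?_, rfl⟩
  have hc' : cj f A ≤ 𝒞(cj f A) := by rw [← cj_centralizer]; exact cj_mono f hc
  have := card_le (B := cj f A) (fun v => mw u v = mw v u) fun y hy => by
    obtain ⟨v, rfl⟩ := memT.1 (le hy)
    exact ⟨v, ph_inj (by rw [ph_mul, ph_mul]; exact mem_centralizer_iff.1 (hc' hy) _ hg), rfl⟩
  have k := (by decide +kernel : ∀ u : WW, u.2 ≠ 0 → (Finset.univ.filter fun v => mw u v = mw v u).card ≤ 9) u n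
  rw [card_cj] at this
  omega

theorem ord3 {τ : GG} (hτ : τ ∈ HH) (h : τ ^ 3 = 1) : ∃ f ∈ HH, f * τ * f⁻¹ ∈ J0 := by
  obtain ⟨f, hf, le⟩ := conj_T3 le_rfl T3_le_HH (zpowers_le.2 hτ) (three fun a ha => by
    obtain ⟨n, rfl⟩ := mem_zpowers_iff.1 ha
    rw [← zpow_natCast, ← zpow_mul, mul_comm, zpow_mul, zpow_natCast, h, one_zpow])
  obtain ⟨u, e⟩ := memT.1 (le (conj_mem_cj.2 (mem_zpowers τ)))
  have u3 : mw (mw u u) u = 0 := ph_inj (by rw [ph_mul, ph_mul, ← e, ← pow_three', conj_pow, h, ph_zero]; group)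
  rcases (by decide +kernel : ∀ u : WW, mw (mw u u) u = 0 → u.2 = 0 ∨ ∃ w, mw w u = mw (0, u.2) w) u u3 with
    k | ⟨w, k⟩
  · exact ⟨f, hf, memJ.2 ⟨u, k, e⟩⟩
  · refine ⟨gm ck * ph w * f, mul_mem (mul_mem ck_mem (T3_le_HH (memT.2 ⟨w, rfl⟩))) hf, ?_⟩
    have a : ph w * ph u * (ph w)⁻¹ = gc ^ u.2.val := by
      rw [← ph_mul, k, ph_mul, mul_inv_cancel_right]; exact phi_c _
    rw [show gm ck * ph w * f * τ * (gm ck * ph w * f)⁻¹ = gm ck * (ph w * (f * τ * f⁻¹) * (ph w)⁻¹) * (gm ck)⁻¹ by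
      group, e, a, ← conj_pow, ck_c]
    exact pow_mem (mul_mem (T_mem 0) (T_mem 1)) _

theorem top23 {X : Subgroup GG} (hX : X ≤ HH) (hR : R0 ≤ X) (hc : Nat.card X = 82944) {x : GG} (hx : x ∈ X)
    (h1 : x ∉ R0) (h3 : x ^ 3 ∈ R0) (hz : ∀ g ∈ X, g * x * g⁻¹ * x⁻¹ ∈ R0) : ∃ f ∈ HH, cj f X = C0 := by
  have sq : ∀ {g y z : GG}, y ∈ HH → g * y * g⁻¹ * y⁻¹ ∈ R0 → g * z * g⁻¹ * z⁻¹ ∈ R0 →
      g * (y * z) * g⁻¹ * (y * z)⁻¹ ∈ R0 := fun {g y z} hy a b => by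
    rw [show g * (y * z) * g⁻¹ * (y * z)⁻¹ = g * y * g⁻¹ * y⁻¹ * (y * (g * z * g⁻¹ * z⁻¹) * y⁻¹) by group]
    exact mul_mem a (conj_mem_of_norm HH_le_norm hy b)
  have y3 : (x ^ 4) ^ 3 = 1 := by rw [← pow_mul, mul_comm, pow_mul, R4 h3]
  have y1 : x ^ 4 ≠ 1 := fun k => h1 (by
    rw [pow_succ'] at k
    rw [eq_inv_of_mul_eq_one_left k]
    exact inv_mem h3)
  have yz : ∀ g ∈ X, g * x ^ 4 * g⁻¹ * (x ^ 4)⁻¹ ∈ R0 := fun g hg => by
    rw [pow_succ']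
    exact sq (hX hx) (hz g hg) (mul_mem (conj_mem_of_norm HH_le_norm (hX hg) h3) (inv_mem h3))
  have yX := pow_mem hx 4
  generalize x ^ 4 = y at y3 y1 yz yX
  obtain ⟨P, hP, le⟩ := H42.exists_sylIn (p := 3) (three (A := zpowers y) fun a ha => by
    obtain ⟨n, rfl⟩ := mem_zpowers_iff.1 ha
    rw [← zpow_natCast, ← zpow_mul, mul_comm, zpow_mul, zpow_natCast, y3, one_zpow]) (zpowers_le.2 yX)
  have yP := le (mem_zpowers y)
  obtain ⟨f, hf, lf⟩ := conj_T3 le_rfl T3_le_HH (hP.le.trans hX) hP.isP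
  have d : 3 ^ 4 ∣ Nat.card P := by
    have a : 3 ^ 4 ∣ Nat.card P * P.relIndex X := by rw [H42.card_mul_relIndex hP.le, hc]; norm_num
    exact (Nat.Coprime.pow_left 4 ((Nat.Prime.coprime_iff_not_dvd Nat.prime_three).2 hP.ndvd)).dvd_of_dvd_mul_right a
  have e := eq_of_le_of_card_ge lf (by rw [card_cj, card_T3]; exact Nat.le_of_dvd Nat.card_pos d)
  obtain ⟨u, hu⟩ := memT.1 (lf (conj_mem_cj.2 yP))
  have cen : ∀ v, mw v u = mw u v := fun v => ph_inj (by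
    obtain ⟨p, hp, k⟩ := mem_cj'.1 (e.ge (memT.2 ⟨v, rfl⟩))
    have m : p * y * p⁻¹ * y⁻¹ ∈ P := mul_mem (mul_mem (mul_mem hp yP) (inv_mem hp)) (inv_mem yP)
    obtain ⟨n, hn⟩ := hP.isP ⟨_, m⟩
    have : p * y * p⁻¹ * y⁻¹ = 1 := orderOf_eq_one_iff.1 (Nat.eq_one_of_dvd_coprimes
      (Nat.Coprime.pow_left n (by norm_num : Nat.Coprime 3 4))
      (orderOf_dvd_of_pow_eq_one (congrArg Subtype.val hn)) (orderOf_dvd_of_pow_eq_one (R4 (yz p (hP.le hp)))))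
    rw [ph_mul, ph_mul, ← hu, k, conj_mul, conj_mul, mul_inv_eq_iff_eq_mul.1 (mul_inv_eq_one.1 this)])
  have u0 : u ≠ 0 := fun k => y1 (by rw [k, ph_zero] at hu; simpa using hu)
  refine ⟨f, hf, eq_of_le_of_card_ge (fun g' hg' => ?_) (by rw [card_cj, hc]; exact card_C0)⟩
  obtain ⟨g, hg, rfl⟩ := mem_cj'.1 hg'
  refine mem_C0.2 ⟨mul_mem (mul_mem hf (hX hg)) (inv_mem hf), ?_⟩
  have a : f * g * f⁻¹ * ph u * (f * g * f⁻¹)⁻¹ * (ph u)⁻¹ ∈ R0 := by
    rw [← hu, conj_inv, conj_inv, conj_mul, conj_mul, conj_mul]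
    exact conj_mem_of_norm HH_le_norm hf (yz g hg)
  rw [x0_ph]
  rcases (by decide +kernel : ∀ u : WW, mw ((1, 0, 0), 0) u = mw u ((1, 0, 0), 0) ∧ mw (0, 1) u = mw u (0, 1) ∧
    u ≠ 0 → ((1, 1, 1), 0) = u ∨ ((1, 1, 1), 0) = mw u u) u ⟨cen _, cen _, u0⟩ with k | k <;> rw [k]
  · exact a
  · rw [ph_mul]
    exact sq (T3_le_HH (memT.2 ⟨u, rfl⟩)) a a

end Cfsg.Agent.B3
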