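import Cfsg.Agent.B3.ModT

set_option autoImplicit false

namespace Cfsg.Agent.B3

open Subgroup Matrix H49 T3.Fr2 F3
open Cfsg.Agent.H14 (force force_eq)

attribute [local irreducible] gm

namespace MU

/-- the code of a power -/
noncomputable def p3 (c : ℕ) (a : Fin 3) : ℕ := ![oneN, c, mulN c c] a

theorem pk_p3 (g : GG) (a : Fin 3) : pk (g ^ a.val) = p3 (pk g) a := by
  fin_cases a <;> simp [p3, pow_two]

/-- a basis vector -/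
def bv (i : Fin 8) (c : F) : V := fun j => if j = i then c else 0

def w1 (A B C : F) : V := if A ≠ 0 then bv 4 (-A) else if B ≠ 0 then bv 2 (-B) else bv 1 (-C)

def w2 (A B C : F) : V :=
  if A ≠ 0 ∧ B ≠ 0 ∧ C ≠ 0 then bv 3 1 + bv 5 (A * B) + bv 6 (A * C)
  else if (A = 0 ∧ B = 0) ∨ (A ≠ 0 ∧ B ≠ 0) then bv 5 1 else bv 6 1

/-- the required properties -/
def Gd (M : M8) (w w' : V) : Prop := M *ᵥ w - w = e0 ∧ om w e0 = 0 ∧ M *ᵥ e0 = e0 ∧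
  M *ᵥ (M *ᵥ w' - w') = M *ᵥ w' - w' ∧ om w' (M *ᵥ w' - w') = 0 ∧ om w (M *ᵥ w' - w') + om w' e0 = 0 ∧
  ∃ i, i ≠ 0 ∧ (M *ᵥ w' - w') i ≠ 0

instance decGd (M : M8) (w w' : V) : Decidable (Gd M w w') := by unfold Gd; infer_instance

theorem key : ∀ a b c : Fin 3, (a = 0 ∧ b = 0 ∧ c = 0) ∨
    force (mulN (mulN (p3 (cT 0) a) (p3 (cT 1) b)) (p3 (cT 2) c))
      (fun n => decide (Gd (dec n) (w1 a b c) (w2 a b c))) = true := by decide +kernel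

theorem ex_gd {τ : GG} (hτ : τ ∈ J0) (h1 : τ ≠ 1) : ∃ w w', Gd τ.val w w' := by
  obtain ⟨a, b, c, rfl⟩ := mem_J0.1 hτ
  rcases key a b c with ⟨rfl, rfl, rfl⟩ | h
  · simp at h1
  · rw [force_eq, decide_eq_true_eq] at h
    exact ⟨_, _, by rwa [val_eq, pk_mul, pk_mul, pk_p3, pk_p3, pk_p3, pk_gT, pk_gT, pk_gT]⟩

theorem hasJ {τ : GG} (hτ : τ ∈ J0) (h1 : τ ≠ 1) :
    ∃ U : AddSubgroup V, Nat.card U = 9 ∧ ∀ u ∈ U, τ • u = u ∧ ∃ w, u = τ • w - w ∧ om w u = 0 := by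
  obtain ⟨w, w', k1, k2, k3, k4, k5, k6, i, k7, k8⟩ := ex_gd hτ h1
  generalize hu : τ.val *ᵥ w' - w' = u at k4 k5 k6 k8
  let φ : F × F →+ V := AddMonoidHom.mk' (fun p => p.1 • e0 + p.2 • u) fun p q => by
    simp only [Prod.fst_add, Prod.snd_add, add_smul]; abel
  have hφ : Function.Injective φ := (injective_iff_map_eq_zero φ).2 fun p hp => by
    have e1 : p.2 = 0 := by simpa [φ, e0, k7, k8] using congrFun hp i
    have e2 : p.1 = 0 := by simpa [φ, e0, e1] using congrFun hp 0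
    exact Prod.ext e2 e1
  refine ⟨φ.range, (Nat.card_congr (AddMonoidHom.ofInjective hφ).toEquiv).symm.trans (by simp), ?_⟩
  rintro _ ⟨⟨a, b⟩, rfl⟩
  change τ.val *ᵥ (a • e0 + b • u) = a • e0 + b • u ∧
    ∃ v, a • e0 + b • u = τ.val *ᵥ v - v ∧ om v (a • e0 + b • u) = 0
  refine ⟨by rw [mulVec_add, mulVec_smul, mulVec_smul, k3, k4], a • w + b • w', ?_, ?_⟩
  · rw [mulVec_add, mulVec_smul, mulVec_smul, ← k1, ← hu, smul_sub, smul_sub]; abel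
  · simp only [om_add_left, om_add_right, om_smul_left, om_smul_right, k2, k5]
    linear_combination a * b * k6

end MU

theorem fix_J0 {v : V} (h : ∀ j ∈ J0, j • v = v) : v = 0 ∨ v = e0 ∨ v = -e0 := by
  have m0 : (gT 0).val = !![1,0,0,0,2,0,0,0; 0,1,0,0,0,2,0,0; 0,0,1,0,0,0,2,0; 0,0,0,1,0,0,0,2; 0,0,0,0,1,0,0,0;
    0,0,0,0,0,1,0,0; 0,0,0,0,0,0,1,0; 0,0,0,0,0,0,0,1] := by rw [val_eq, pk_gT]; decide +kernel
  have m1 : (gT 1).val = !![1,0,2,0,0,0,0,0; 0,1,0,2,0,0,0,0; 0,0,1,0,0,0,0,0; 0,0,0,1,0,0,0,0; 0,0,0,0,1,0,2,0;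
    0,0,0,0,0,1,0,2; 0,0,0,0,0,0,1,0; 0,0,0,0,0,0,0,1] := by rw [val_eq, pk_gT]; decide +kernel
  have m2 : (gT 2).val = !![1,2,0,0,0,0,0,0; 0,1,0,0,0,0,0,0; 0,0,1,2,0,0,0,0; 0,0,0,1,0,0,0,0; 0,0,0,0,1,2,0,0;
    0,0,0,0,0,1,0,0; 0,0,0,0,0,0,1,2; 0,0,0,0,0,0,0,1] := by rw [val_eq, pk_gT]; decide +kernel
  have h0 := h _ (subset_closure ⟨0, rfl⟩)
  have h1 := h _ (subset_closure ⟨1, rfl⟩)
  have h2 := h _ (subset_closure ⟨2, rfl⟩)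
  rw [smul_def, m0] at h0
  rw [smul_def, m1] at h1
  rw [smul_def, m2] at h2
  have t : (2 : F) ≠ 0 := by decide
  have a1 : v 1 = 0 := by simpa [mulVec, dotProduct, Fin.sum_univ_eight, t] using congrFun h2 0
  have a2 : v 2 = 0 := by simpa [mulVec, dotProduct, Fin.sum_univ_eight, t] using congrFun h1 0
  have a3 : v 3 = 0 := by simpa [mulVec, dotProduct, Fin.sum_univ_eight, t] using congrFun h1 1
  have a4 : v 4 = 0 := by simpa [mulVec, dotProduct, Fin.sum_univ_eight, t] using congrFun h0 0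
  have a5 : v 5 = 0 := by simpa [mulVec, dotProduct, Fin.sum_univ_eight, t] using congrFun h0 1
  have a6 : v 6 = 0 := by simpa [mulVec, dotProduct, Fin.sum_univ_eight, t] using congrFun h0 2
  have a7 : v 7 = 0 := by simpa [mulVec, dotProduct, Fin.sum_univ_eight, t] using congrFun h0 3
  have e : v = v 0 • e0 := by
    ext i
    fin_cases i <;> simp [e0, a1, a2, a3, a4, a5, a6, a7]
  rcases (by decide : ∀ c : F, c = 0 ∨ c = 1 ∨ c = -1) (v 0) with c | c | c <;> rw [c] at e <;> simp [e]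

theorem e0_im {τ : GG} (hτ : τ ∈ J0) (h1 : τ ≠ 1) : ∃ w, e0 = τ • w - w ∧ om w e0 = 0 :=
  let ⟨w, _, k⟩ := MU.ex_gd hτ h1
  ⟨w, k.1.symm, k.2.1⟩

theorem hasU {τ : GG} (hτ : τ ∈ HH) (h3 : τ ^ 3 = 1) (h1 : τ ≠ 1) :
    ∃ U : AddSubgroup V, Nat.card U = 9 ∧ ∀ u ∈ U, τ • u = u ∧ ∃ w, u = τ • w - w ∧ om w u = 0 := by
  obtain ⟨f, hf, h⟩ := ord3 hτ h3
  obtain ⟨U, k1, k2⟩ := MU.hasJ h fun e => h1 (conj_eq_one_iff.1 e)
  refine ⟨U.map (DistribMulAction.toAddEquiv V f⁻¹).toAddMonoidHom,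
    (AddSubgroup.card_map_of_injective (DistribMulAction.toAddEquiv V f⁻¹).injective).trans k1, ?_⟩
  rintro _ ⟨u, hu, rfl⟩
  obtain ⟨a, w, b, c⟩ := k2 u hu
  have e : ∀ v : V, τ • f⁻¹ • v = f⁻¹ • (f * τ * f⁻¹) • v := fun v => by
    rw [← mul_smul, ← mul_smul, ← mul_assoc, ← mul_assoc, inv_mul_cancel, one_mul]
  change τ • f⁻¹ • u = f⁻¹ • u ∧ ∃ v, f⁻¹ • u = τ • v - v ∧ om v (f⁻¹ • u) = 0
  exact ⟨by rw [e, a], f⁻¹ • w, by rw [e, ← smul_sub, ← b], by rw [om_smul (inv_mem hf), c]⟩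

end Cfsg.Agent.B3
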