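import Cfsg.Agent.B3.ModA
import Cfsg.Agent.B3.Lin

set_option autoImplicit false

namespace Cfsg.Agent.B3

open Subgroup Matrix H49 T3.Fr2 F3

attribute [local irreducible] gm

theorem gd_sq (i : Fin 4) : gd i * gd i = 1 :=
  pk_inj (by simp only [pk_mul, pk_gd, pk_one]; revert i; decide +kernel)

theorem gd_ne (i : Fin 4) : gd i ≠ 1 := by
  rw [Ne, pk_eq_iff, pk_gd, pk_one]; revert i; decide +kernel

theorem gd_comm (i j : Fin 4) : Commute (gd i) (gd j) :=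
  pk_inj (by simp only [pk_mul, pk_gd]; revert i j; decide +kernel)

namespace MW

theorem h3 : (3 : V) = 0 := by decide +kernel

theorem ext_smul {g h : GG} (e : ∀ v : V, g • v = h • v) : g = h := Units.ext (ext_iff_mulVec.2 e)

theorem add_iff {a b c d : GG} :
    addN (pk a) (pk b) = addN (pk c) (pk d) ↔ ∀ v : V, a • v + b • v = c • v + d • v := by
  simp only [pk, ← pkM_add, smul_def, ← add_mulVec, ← ext_iff_mulVec]
  exact ⟨pkM_inj, congrArg pkM⟩

theorem conj1 (a : Fin 3) (i j : Fin 4) (h : mulN (cI a) (cd i) = mulN (cd j) (cI a)) :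
    gI a * gd i * (gI a)⁻¹ = gd j := mul_inv_eq_iff_eq_mul.2 (pk_inj (by simpa only [pk_mul, pk_gd, pk_gI] using h))

theorem gd_inj {i j : Fin 4} (h : gd i = gd j) : i = j := by
  rw [pk_eq_iff, pk_gd, pk_gd] at h
  revert i j; decide +kernel

theorem sq_smul (i : Fin 4) (v : V) : gd i • gd i • v = v := by rw [← mul_smul, gd_sq, one_smul]

theorem sub_mem_W (i : Fin 4) (v : V) : gd i • v - v ∈ W i := by rw [mem_W, smul_sub, sq_smul, neg_sub]

theorem add_mem_Fix (i : Fin 4) (v : V) : v + gd i • v ∈ Fix (gd i) := by rw [mem_Fix, smul_add, sq_smul, add_comm]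

theorem zero_of {c : F} (h : c = -c) : c = 0 := by revert c; decide

/-- bases of the eigenspaces -/
def p : Fin 4 → V := ![![0,1,2,0,0,0,0,0], ![1,0,0,1,0,0,0,0], ![1,2,2,2,0,0,0,0], ![1,1,1,2,0,0,0,0]]
def q : Fin 4 → V := ![![0,0,0,0,0,1,2,0], ![0,0,0,0,1,0,0,1], ![0,0,0,0,1,2,2,2], ![0,0,0,0,1,1,1,2]]
def cs : Fin 4 → F := ![2, 2, 1, 1]

theorem k1 : ∀ i, dec (cd i) = 1 + vecMulVec (p i) (cs i • p i) + vecMulVec (q i) (cs i • q i) ∧
    dec (cd i) *ᵥ p i = -p i ∧ dec (cd i) *ᵥ q i = -q i ∧ ∀ a b : F, a • p i + b • q i = 0 → a = 0 ∧ b = 0 := by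
  decide +kernel

theorem p_mem (i : Fin 4) : p i ∈ W i := by rw [mem_W, smul_def, val_eq, pk_gd]; exact (k1 i).2.1

theorem q_mem (i : Fin 4) : q i ∈ W i := by rw [mem_W, smul_def, val_eq, pk_gd]; exact (k1 i).2.2.1

theorem smul_mem_W {i : Fin 4} {v : V} (h : v ∈ W i) (c : F) : c • v ∈ W i := by
  rw [mem_W, smul_def, mulVec_smul, ← smul_def, mem_W.1 h, smul_neg]

theorem of_W {i : Fin 4} {v : V} (h : v ∈ W i) : ∃ a b : F, v = a • p i + b • q i := by
  rw [mem_W, smul_def, val_eq, pk_gd, (k1 i).1, add_mulVec, add_mulVec, one_mulVec, vecMulVec_mulVec,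
    vecMulVec_mulVec, op_smul_eq_smul, op_smul_eq_smul] at h
  exact ⟨(cs i • p i) ⬝ᵥ v, (cs i • q i) ⬝ᵥ v, by linear_combination -h + v * h3⟩

end MW

open MW

theorem gd_conj : gI 1 * gd 0 * (gI 1)⁻¹ = gd 1 ∧ gd 1 ≠ gd 0 :=
  ⟨conj1 1 0 1 (by decide +kernel), fun h => absurd (gd_inj h) (by decide)⟩

theorem gd_e0 : gd 0 • e0 = e0 := by rw [smul_def, val_eq, pk_gd]; decide +kernel

theorem gd_W {i j : Fin 4} (h : i ≠ j) {v : V} (hv : v ∈ W j) : gd i • v = v := by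
  have := (add_iff (a := gd i * gd j) (b := 1) (c := gd i) (d := gd j)).1
    (by simp only [pk_mul, pk_gd, pk_one]; clear hv; revert i j; decide +kernel) v
  rw [mul_smul, mem_W.1 hv, smul_neg, one_smul] at this
  linear_combination this + (gd i • v - v) * h3

theorem W_perp {i j : Fin 4} (h : i ≠ j) {v w : V} (hv : v ∈ W i) (hw : w ∈ W j) : om v w = 0 :=
  zero_of (by rw [← om_neg_left, ← mem_W.1 hv, ← om_smul (gd_mem i) v w, gd_W h hw])

theorem card_W (i : Fin 4) : Nat.card (W i) = 9 := by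
  refine (Nat.card_congr (Equiv.ofBijective (fun a : F × F => (⟨a.1 • p i + a.2 • q i,
    add_mem (smul_mem_W (p_mem i) _) (smul_mem_W (q_mem i) _)⟩ : W i)) ⟨fun a b e => ?_, fun v => ?_⟩)).symm.trans
    (by simp)
  · have e := congrArg Subtype.val e
    obtain ⟨h1, h2⟩ := (k1 i).2.2.2 (a.1 - b.1) (a.2 - b.2) (by
      rw [sub_smul, sub_smul]; linear_combination e)
    exact Prod.ext (sub_eq_zero.1 h1) (sub_eq_zero.1 h2)
  · obtain ⟨a, b, e⟩ := of_W v.2
    exact ⟨(a, b), Subtype.ext e.symm⟩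

theorem card_Vd : Nat.card (Fix (gd 0)) = 729 := by
  obtain ⟨P, h1, h2⟩ := card_perp (W 0)
  have : P = Fix (gd 0) := AddSubgroup.ext fun v => (h1 v).trans ⟨fun h => ?_, fun h u hu => ?_⟩
  · rw [card_W, this] at h2
    omega
  · refine sub_eq_zero.1 (om_nondeg fun w => ?_)
    have := h _ (sub_mem_W 0 w)
    rw [om_sub_left, ← om_smul (gd_mem 0), sq_smul] at this
    rw [om_swap, om_sub_right, this, neg_zero]
  · exact zero_of (by rw [← om_neg_left, ← mem_W.1 hu, ← om_smul (gd_mem 0) u v, mem_Fix.1 h])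

theorem Vd_eq : W 1 ⊔ W 2 ⊔ W 3 = Fix (gd 0) := by
  refine le_antisymm (sup_le (sup_le (fun v => gd_W (by decide)) fun v => gd_W (by decide)) fun v => gd_W (by decide))
    fun v hv => ?_
  have e : (gd 0).val + (gd 1).val + (gd 2).val + (gd 3).val = -1 := pkM_inj (by
    rw [pkM_add, pkM_add, pkM_add, pkM_neg_one]
    change addN (addN (addN (pk _) (pk _)) (pk _)) (pk _) = _
    simp only [pk_gd]; decide +kernel)
  have := congrArg (· *ᵥ v) e
  simp only [add_mulVec, ← smul_def, neg_mulVec, one_mulVec, mem_Fix.1 hv] at this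
  rw [show v = gd 1 • v - v + (gd 2 • v - v) + (gd 3 • v - v) by linear_combination -this + 2 * v * h3]
  exact add_mem (AddSubgroup.mem_sup_left (add_mem (AddSubgroup.mem_sup_left (sub_mem_W 1 v))
    (AddSubgroup.mem_sup_right (sub_mem_W 2 v)))) (AddSubgroup.mem_sup_right (sub_mem_W 3 v))

theorem nondeg_Vd {v : V} (hv : v ∈ Fix (gd 0)) (h : ∀ w ∈ Fix (gd 0), om v w = 0) : v = 0 :=
  om_nondeg fun w => zero_of (by
    have := h _ (add_mem_Fix 0 w)
    rw [om_add_right, ← om_smul (gd_mem 0) v (gd 0 • w), sq_smul, mem_Fix.1 hv] at this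
    linear_combination this)

namespace MW

theorem k2 : gd 0 * gd 1 = -ga ∧ gd 0 * gd 2 = -gb ∧ gd 0 * gd 3 = -(ga * gb) := by
  simp only [pk_eq_iff, pk_mul, pk_neg, pk_gd, pk_ga, pk_gb]; decide +kernel

theorem k3 : (gd 0).val + 1 = ga.val + gb.val + ga.val * gb.val := pkM_inj (by
  rw [pkM_add, pkM_add, pkM_add, pkM_mul, pkM_one]
  change addN (pk _) _ = addN (addN (pk _) (pk _)) (mulN (pk _) (pk _))
  simp only [pk_gd, pk_ga, pk_gb]; decide +kernel)

theorem comm_of {x a b : GG} (h0 : Commute x a) (h : Commute x (a * b)) : Commute x b := by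
  simpa only [inv_mul_cancel_left] using h0.inv_right.mul_right h

theorem comm_poly {x d a b : GG} (k : d.val + 1 = a.val + b.val + a.val * b.val) (ca : Commute x a)
    (cb : Commute x b) : Commute x d := by
  have := (ca.units_val.add_right cb.units_val).add_right (ca.units_val.mul_right cb.units_val)
  rw [← k] at this
  simpa only [add_sub_cancel_right, Commute.units_val_iff] using this.sub_right (Commute.one_right _)

theorem fin4 {P : Fin 4 → Prop} (h0 : P 0) (h1 : P 1) (h2 : P 2) (h3 : P 3) (i : Fin 4) : P i := by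
  fin_cases i
  exacts [h0, h1, h2, h3]

theorem k4 : (∀ i : Fin 3, mulN negN (mulN (cd 0) (cd i.succ)) ∈ R0L ∧ mulN negN (mulN (cd 0) (cd i.succ)) ≠ oneN ∧
      addN (mulN (mulN negN (mulN (cd 0) (cd i.succ))) (cd 0)) oneN =
        addN (cd 0) (mulN negN (mulN (cd 0) (cd i.succ)))) ∧
    ∀ c ∈ R0L, addN (mulN c (cd 0)) oneN = addN (cd 0) c →
      c = oneN ∨ ∃ j : Fin 3, c = mulN negN (mulN (cd 0) (cd j.succ)) := by decide +kernel

theorem k5 : ∀ c ∈ R0L, mulN c (cd 0) = mulN (cd 0) c → ∀ j, mulN c (cd j) = mulN (cd j) c := by decide +kernel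

theorem k6 : x0 * gd 0 = gd 0 * x0 ∧ x0 * gd 1 = gd 3 * x0 ∧ x0 * gd 3 = gd 2 * x0 := by
  simp only [pk_eq_iff, pk_mul, pk_gd, pk_x0]; decide +kernel

theorem k7 : ∀ c ∈ R0L, addN c (mulN c (cd 0)) = addN oneN (cd 0) → c = oneN := by decide +kernel

theorem k8 : gI 0 * gd 0 = gd 0 * gI 0 ∧ gJ 0 * gd 0 = gd 0 * gJ 0 := by
  simp only [pk_eq_iff, pk_mul, pk_gd, pk_gI, pk_gJ]; decide +kernel

theorem k9 : gI 0 • p 0 = q 0 ∧ gI 0 • q 0 = -p 0 ∧ gJ 0 • p 0 = p 0 + q 0 ∧ gJ 0 • q 0 = p 0 - q 0 := by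
  simp only [smul_def]
  rw [val_eq, val_eq (gJ 0), pk_gI, pk_gJ]; decide +kernel

theorem lin (x : GG) (a b : F) (v w : V) : x • (a • v + b • w) = a • x • v + b • x • w := by
  simp only [smul_def, mulVec_add, mulVec_smul]

theorem map_W {x : GG} {i : Fin 4} (h : Commute x (gd i)) {v : V} (hv : v ∈ W i) : x • v ∈ W i := by
  rw [mem_W, ← mul_smul, ← h.eq, mul_smul, mem_W.1 hv, smul_neg]

/-- an element fixing `Fix (gd 0)` commutes with the elements of `R0` that commute with `gd 0` -/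
theorem cR {x a : GG} (hx : x ∈ HH) (h : ∀ v ∈ Fix (gd 0), x • v = v) (ha : a ∈ R0) (c : a * gd 0 = gd 0 * a) :
    x * a = a * x := by
  have m : x * a * x⁻¹ * a⁻¹ ∈ R0 := mul_mem (conj_mem_of_norm HH_le_norm hx ha) (inv_mem ha)
  have e : ∀ v ∈ Fix (gd 0), (x * a * x⁻¹ * a⁻¹) • v = v := fun v hv => by
    have h1 : a⁻¹ • v ∈ Fix (gd 0) := by
      rw [mem_Fix, ← mul_smul, ← (Commute.inv_left c).eq, mul_smul, mem_Fix.1 hv]
    rw [mul_smul, mul_smul, mul_smul, inv_smul_eq_iff.2 (h _ h1).symm, smul_inv_smul, h v hv]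
  have := k7 _ (mem_R0.1 m) (by
    rw [← pk_gd, ← pk_mul, ← pk_one, add_iff]
    intro v
    rw [mul_smul _ (gd 0), ← smul_add, e _ (add_mem_Fix 0 v), one_smul])
  rw [← pk_one, ← pk_eq_iff, mul_inv_eq_one, mul_inv_eq_iff_eq_mul] at this
  exact this

end MW

theorem mem_KK {x : GG} : x ∈ KK ↔ x ∈ HH ∧ ∀ i, Commute x (gd i) := by
  obtain ⟨h1, h2, h3⟩ := k2
  refine ⟨fun h => ⟨h.1.1, ?_⟩, fun h => ⟨⟨h.1, mem_cent1.2 ?_⟩, mem_cent1.2 ?_⟩⟩
  · have ca : Commute x ga := mem_cent1.1 h.1.2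
    have cb : Commute x gb := mem_cent1.1 h.2
    have c0 : Commute x (gd 0) := comm_poly k3 ca cb
    exact fin4 c0 (comm_of c0 (h1 ▸ ca.neg_right)) (comm_of c0 (h2 ▸ cb.neg_right))
      (comm_of c0 (h3 ▸ (ca.mul_right cb).neg_right))
  · exact (Commute.neg_right_iff.1 (h1 ▸ (h.2 0).mul_right (h.2 1))).eq
  · exact (Commute.neg_right_iff.1 (h2 ▸ (h.2 0).mul_right (h.2 2))).eq

theorem gd_perm {x : GG} (hx : x ∈ HH) (h0 : Commute x (gd 0)) (i : Fin 3) :
    ∃ j : Fin 3, x * gd i.succ * x⁻¹ = gd j.succ := by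
  obtain ⟨h1, h2, h3⟩ := k4.1 i
  have e : ∀ j : Fin 3, mulN negN (mulN (cd 0) (cd j.succ)) = pk (-(gd 0 * gd j.succ)) := fun j => by
    rw [pk_neg, pk_mul, pk_gd, pk_gd]
  rw [e] at h1 h2 h3
  rw [← pk_gd, ← pk_mul, ← pk_one, add_iff] at h3
  have c : x * gd 0 * x⁻¹ = gd 0 := by rw [h0.eq, mul_inv_cancel_right]
  rcases k4.2 _ (mem_R0.1 (conj_mem_of_norm HH_le_norm hx (mem_R0.2 h1))) (by
    rw [← pk_gd, ← pk_mul, ← pk_one, add_iff]
    intro v
    have := congrArg (x • ·) (h3 (x⁻¹ • v))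
    simp only [smul_add, ← mul_smul, c, mul_one, mul_inv_cancel, ← mul_assoc] at this
    rwa [mul_assoc _ x⁻¹, h0.inv_left.eq, ← mul_assoc]) with k | ⟨j, k⟩
  · rw [← pk_one, ← pk_eq_iff, conj_eq_one_iff] at k
    exact absurd (by rw [k, pk_one]) h2
  · rw [e, ← pk_eq_iff, mul_neg, neg_mul, neg_inj, ← conj_mul, c, mul_left_cancel_iff] at k
    exact ⟨j, k⟩

theorem comm_iff_W {x : GG} (hx : x ∈ HH) (h0 : Commute x (gd 0)) (i : Fin 3) :
    Commute x (gd i.succ) ↔ ∀ v ∈ W i.succ, x • v ∈ W i.succ := by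
  refine ⟨fun h v => map_W h, fun h => ?_⟩
  obtain ⟨j, e⟩ := gd_perm hx h0 i
  by_cases c : i.succ = j.succ
  · exact mul_inv_eq_iff_eq_mul.1 (e.trans (congrArg gd c.symm))
  have h1 : x • p i.succ ∈ W j.succ := by
    rw [mem_W, ← e, mul_smul, mul_smul, inv_smul_smul, mem_W.1 (p_mem _), smul_neg]
  have h2 := mem_W.1 (h _ (p_mem _))
  rw [gd_W c h1] at h2
  have h4 : x • p i.succ = 0 := by linear_combination -h2 + x • p i.succ * h3
  have := (k1 i.succ).2.2.2 1 0 (by rw [one_smul, zero_smul, add_zero, ← inv_smul_smul x (p _), h4, smul_zero])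
  exact absurd this.1 one_ne_zero

theorem even_C0 {x : GG} (hx : x ∈ C0) (h0 : Commute x (gd 0)) (h1 : Commute x (gd 1)) : x ∈ KK := by
  obtain ⟨c1, c2⟩ := mem_C0.1 hx
  obtain ⟨a0, a1, a2⟩ := k6
  have c0 : Commute (x * x0 * x⁻¹ * x0⁻¹) (gd 0) :=
    ((h0.mul_left a0).mul_left h0.inv_left).mul_left (Commute.inv_left a0)
  have c3 : ∀ j, Commute (x * x0 * x⁻¹ * x0⁻¹) (gd j) := fun j => pk_inj (by
    rw [pk_mul _ (gd j), pk_mul (gd j), pk_gd]
    exact k5 _ (mem_R0.1 c2) (by rw [← pk_gd, ← pk_mul, c0.eq, pk_mul]) j)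
  have st : ∀ i j, x0 * gd i = gd j * x0 → Commute x (gd i) → Commute x (gd j) := fun i j e c => by
    have e1 : gd j = x0 * gd i * x0⁻¹ := eq_mul_inv_of_mul_eq e.symm
    refine mul_inv_eq_iff_eq_mul.1 ?_
    calc _ = x * x0 * x⁻¹ * (x * gd i * x⁻¹) * (x * x0 * x⁻¹)⁻¹ := by rw [e1]; group
      _ = x * x0 * x⁻¹ * x0⁻¹ * gd j * (x * x0 * x⁻¹ * x0⁻¹)⁻¹ := by rw [c.eq, mul_inv_cancel_right, e1]; group
      _ = _ := by rw [(c3 j).eq, mul_inv_cancel_right]
  exact mem_KK.2 ⟨c1, fin4 h0 h1 (st 3 2 a2 (st 1 3 a1 h1)) (st 1 3 a1 h1)⟩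

theorem faith_Vd {x : GG} (hx : x ∈ HH) (h0 : Commute x (gd 0)) (h : ∀ v ∈ Fix (gd 0), x • v = v) :
    x = 1 ∨ x = gd 0 := by
  have cI := cR hx h (gI_mem 0) k8.1
  have cJ := cR hx h (gJ_mem 0) k8.2
  obtain ⟨i1, i2, j1, j2⟩ := k9
  obtain ⟨a, b, e⟩ := of_W (map_W h0 (p_mem 0))
  have e2 : x • q 0 = a • q 0 + b • -p 0 := by rw [← i1, ← mul_smul, cI, mul_smul, e, lin, i1, i2]
  have e3 : x • (p 0 + q 0) = a • (p 0 + q 0) + b • (p 0 - q 0) := by
    rw [← j1, ← mul_smul, cJ, mul_smul, e, lin, j1, j2]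
  rw [smul_add, e, e2, smul_add, smul_sub, smul_neg] at e3
  obtain rfl : b = 0 := ((k1 0).2.2.2 b (-b) (by rw [neg_smul]; linear_combination e3 + (b • p 0 - b • q 0) * h3)).1
  rw [zero_smul, add_zero] at e e2
  have e4 : ∀ v : V, x • v = a • (gd 0 • v - v) - (v + gd 0 • v) := fun v => by
    obtain ⟨c, d, k⟩ := of_W (sub_mem_W 0 v)
    conv_lhs => rw [show v = gd 0 • v - v - (v + gd 0 • v) by linear_combination v * h3, smul_sub,
      h _ (add_mem_Fix 0 v), k, lin, e, e2]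
    rw [k, smul_add, smul_comm a, smul_comm a]
  rcases (by decide : ∀ c : F, c = 0 ∨ c = 1 ∨ c = -1) a with rfl | rfl | rfl
  · rw [zero_smul] at e
    have := (k1 0).2.2.2 1 0 (by rw [one_smul, zero_smul, add_zero, ← inv_smul_smul x (p _), e, smul_zero])
    exact absurd this.1 one_ne_zero
  · exact .inl (ext_smul fun v => by rw [e4, one_smul, one_smul]; linear_combination -v * h3)
  · exact .inr (ext_smul fun v => by rw [e4, neg_smul, one_smul]; linear_combination -(gd 0 • v) * h3)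

end Cfsg.Agent.B3
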