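import Cfsg.Agent.B3.SetR
import Cfsg.Agent.F3.Fr

set_option autoImplicit false

namespace Cfsg.Agent.B3

open Subgroup H49 T3.Fr2 F3

variable {G : Type*} [Group G] [Finite G]

open scoped commutatorElement in
theorem SetA.e1 {z : G} (z3 : orderOf z = 3) (H : Subgroup G) (hHC : H = 𝒞[z]) (Q : Subgroup H)
    (hQF : Q = Cfsg.generalizedFittingSubgroup H) (hQ : Cfsg.IsExtraspecial 3 Q) (hexp : ∀ x ∈ Q, x ^ 3 = 1) :
    E1 z (Q.map H.subtype) := by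
  have : Fact (Nat.Prime 3) := ⟨Nat.prime_three⟩
  have inj := H.subtype_injective
  have hZ3 : Nat.card (zpowers z) = 3 := by rw [Nat.card_zpowers, z3]
  have eQ : Q.map H.subtype = H44.FSof H := by rw [hQF]
  set Q' := Q.map H.subtype with hQ'
  have QC : Q' ≤ 𝒞[z] := hHC ▸ map_subtype_le _
  have cN : 𝒞[z] ≤ 𝒩(zpowers z) := by rw [← cent_zpowers]; exact cent_le_norm _
  have zQ : z ∈ Q' := by
    rw [eQ]
    exact (H44.le_fittingOf (N := zpowers z) (zpowers_le.2 (hHC ▸ self_mem_cent1 z)) (hHC.le.trans cN)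
      (IsPGroup.of_card (p := 3) (n := 1) (by rw [hZ3]; rfl)).isNilpotent).trans (H44.Fof_le_FSof _) (mem_zpowers z)
  have eZ : zpowers z = ((center Q).map Q.subtype).map H.subtype := by
    refine eq_of_le_of_card_eq (zpowers_le.2 ?_) ?_
    · obtain ⟨a, ha, e⟩ := zQ
      refine ⟨a, ⟨⟨a, ha⟩, mem_center_iff.2 fun c => Subtype.ext (Subtype.ext ?_), rfl⟩, e⟩
      show (c : G) * a = a * c
      rw [show (a : G) = z from e]
      exact mem_cent1.1 (hHC.le c.1.2)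
    · rw [hZ3, card_map_of_injective inj, card_map_of_injective Q.subtype_injective, hQ.2]
  have cen : ∀ a ∈ Q', (∀ b ∈ Q', a * b = b * a) → a ∈ zpowers z := by
    rintro _ ⟨a, ha, rfl⟩ hc
    rw [eZ]
    refine ⟨a, ⟨⟨a, ha⟩, mem_center_iff.2 fun c => Subtype.ext (Subtype.ext ?_), rfl⟩, rfl⟩
    exact (hc _ ⟨c, c.2, rfl⟩).symm
  have nQ : 𝒩(zpowers z) ≤ 𝒩(Q') := by
    rw [eQ]
    refine le_trans ?_ (H44.normalizer_le_normalizer_FSof H)
    rw [hHC, ← cent_zpowers]; exact norm_cent le_rfl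
  refine ⟨z3, zQ, QC, ?_, cen, ?_, nQ, fun g hg hc => ?_⟩
  · rintro _ ⟨a, ha, rfl⟩ _ ⟨b, hb, rfl⟩
    rw [eZ]
    refine ⟨a * b * a⁻¹ * b⁻¹, ⟨⁅(⟨a, ha⟩ : Q), ⟨b, hb⟩⁆, ?_, rfl⟩, rfl⟩
    rw [← hQ.1.2.2]
    exact commutator_mem_commutator (mem_top _) (mem_top _)
  · rintro _ ⟨a, ha, rfl⟩
    exact congrArg Subtype.val (hexp a ha)
  · have : IsPGroup 3 (Fr.Tvs z Q') := fun k => ⟨2, Subtype.ext (by
      have h1 := Fr.cube_cent z3 k.2
      have h2 : (k : G) ^ 3 ∈ Q' := eQ.ge (H44.inf_centralizer_FSof_le H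
        ⟨hHC.ge (pow_mem k.2.1 3), centralizer_le eQ.ge h1⟩)
      have := Fr.Zcube z3 (cen _ h2 fun b hb => (h1 b hb).symm)
      rwa [← pow_mul] at this)⟩
    exact eQ.ge ((H44.le_fittingOf (fun g hg => hHC ▸ hg.1) (hHC.le.trans (Fr.norm_Tvs (cN.trans nQ)))
      this.isNilpotent).trans (H44.Fof_le_FSof _) ⟨hg, hc⟩)

omit [Finite G] in
theorem SetA.maps (H : Subgroup G) (Q : Subgroup H) [Q.Normal] (R : Subgroup (H ⧸ Q)) [R.Normal] {S T : Type*}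
    [Group S] [Group T] (f : R ≃* S) (e : (H ⧸ Q) ⧸ R ≃* T) :
    ∃ P : Subgroup G, Q.map H.subtype ≤ P ∧ P ≤ H ∧
      (∃ μ : P →* S, Function.Surjective μ ∧ μ.ker = (Q.map H.subtype).subgroupOf P) ∧
      ∃ θ : H →* T, Function.Surjective θ ∧ θ.ker = P.subgroupOf H := by
  have inj := H.subtype_injective
  let P := (R.comap (QuotientGroup.mk' Q)).map H.subtype
  have PH : P ≤ H := map_subtype_le _
  have mP : ∀ x : H, (x : G) ∈ P ↔ (x : H ⧸ Q) ∈ R := fun x => mem_map_iff_mem inj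
  let ν : P →* R := ((QuotientGroup.mk' Q).comp (inclusion PH)).codRestrict R fun x => (mP ⟨x, PH x.2⟩).1 x.2
  refine ⟨P, map_mono fun q hq => ?_, PH, ⟨f.toMonoidHom.comp ν, f.surjective.comp fun ⟨y, hy⟩ => ?_, ?_⟩,
    e.toMonoidHom.comp ((QuotientGroup.mk' R).comp (QuotientGroup.mk' Q)),
    e.surjective.comp ((QuotientGroup.mk'_surjective R).comp (QuotientGroup.mk'_surjective Q)), ?_⟩
  · rw [mem_comap, QuotientGroup.mk'_apply, (QuotientGroup.eq_one_iff q).2 hq]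
    exact one_mem _
  · obtain ⟨x, rfl⟩ := QuotientGroup.mk_surjective y
    exact ⟨⟨x, (mP x).2 hy⟩, rfl⟩
  · ext x
    rw [MonoidHom.mem_ker, mem_subgroupOf]
    refine (f.map_eq_one_iff (x := ν x)).trans (Subtype.ext_iff.trans ?_)
    exact (QuotientGroup.eq_one_iff (N := Q) (⟨x, PH x.2⟩ : H)).trans (mem_map_iff_mem inj).symm
  · ext x
    rw [MonoidHom.mem_ker, mem_subgroupOf, mP]
    exact (e.map_eq_one_iff (x := ((x : H ⧸ Q) : (H ⧸ Q) ⧸ R))).trans (QuotientGroup.eq_one_iff _)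

theorem setA (Z : Subgroup G) (hZ : Nat.card ↥Z = 3)
    (hQ : Cfsg.IsExtraspecial 3 ↥(Cfsg.generalizedFittingSubgroup ↥(Subgroup.centralizer (Z : Set G))))
    (hQcard : Nat.card ↥(Cfsg.generalizedFittingSubgroup ↥(Subgroup.centralizer (Z : Set G))) = 3 ^ 9)
    [hQn : (Cfsg.generalizedFittingSubgroup ↥(Subgroup.centralizer (Z : Set G))).Normal]
    (hexp : ∀ x ∈ Cfsg.generalizedFittingSubgroup ↥(Subgroup.centralizer (Z : Set G)), x ^ 3 = 1)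
    (hR : Cfsg.IsExtraspecial 2 ↥(Cfsg.pCore 2 (↥(Subgroup.centralizer (Z : Set G)) ⧸ Cfsg.generalizedFittingSubgroup ↥(Subgroup.centralizer (Z : Set G)))))
    (hRcard : Nat.card ↥(Cfsg.pCore 2 (↥(Subgroup.centralizer (Z : Set G)) ⧸ Cfsg.generalizedFittingSubgroup ↥(Subgroup.centralizer (Z : Set G)))) = 2 ^ 7)
    (hRminus : ∀ A : Subgroup ↥(Cfsg.pCore 2 (↥(Subgroup.centralizer (Z : Set G)) ⧸ Cfsg.generalizedFittingSubgroup ↥(Subgroup.centralizer (Z : Set G)))), Cfsg.IsElementaryAbelian 2 A → Nat.card ↥A ≤ 2 ^ 3)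
    [hRn : (Cfsg.pCore 2 (↥(Subgroup.centralizer (Z : Set G)) ⧸ Cfsg.generalizedFittingSubgroup ↥(Subgroup.centralizer (Z : Set G)))).Normal]
    {T : Type*} [Group T]
    (e : ((↥(Subgroup.centralizer (Z : Set G)) ⧸ Cfsg.generalizedFittingSubgroup ↥(Subgroup.centralizer (Z : Set G))) ⧸ Cfsg.pCore 2 (↥(Subgroup.centralizer (Z : Set G)) ⧸ Cfsg.generalizedFittingSubgroup ↥(Subgroup.centralizer (Z : Set G)))) ≃* T) :
    ∃ (z : G) (Q P : Subgroup G), zpowers z = Z ∧ E1 z Q ∧ Nat.card Q = 3 ^ 9 ∧ Q ≤ P ∧ P ≤ 𝒞[z] ∧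
      (∃ μ : P →* R0, Function.Surjective μ ∧ μ.ker = Q.subgroupOf P) ∧
      ∃ θ : 𝒞[z] →* T, Function.Surjective θ ∧ θ.ker = P.subgroupOf 𝒞[z] := by
  have hp : (Nat.card Z).Prime := hZ ▸ Nat.prime_three
  obtain ⟨z, hz, hz1⟩ := ne_bot_iff_exists.1 (ne_bot_of_prime_card hp)
  have ez : zpowers z = Z :=
    (eq_bot_or_eq_of_prime_card hp (zpowers_le.2 hz)).resolve_left (by simpa using hz1)
  have z3 : orderOf z = 3 := by rw [← Nat.card_zpowers, ez, hZ]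
  have hHC : centralizer (Z : Set G) = 𝒞[z] := by rw [← ez, cent_zpowers]
  obtain ⟨f⟩ := R0_iso hR hRcard hRminus
  obtain ⟨P, h1, h2, h3, h4⟩ := SetA.maps _ _ _ f e
  refine ⟨z, _, P, ez, SetA.e1 z3 _ hHC _ rfl hQ hexp, ?_, h1, hHC ▸ h2, h3, hHC ▸ h4⟩
  rw [card_map_of_injective (subtype_injective _), hQcard]

end Cfsg.Agent.B3
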