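import Cfsg.Agent.B3.SetL
import Cfsg.Agent.B3.Defs2

set_option autoImplicit false

namespace Cfsg.Agent.B3

open Subgroup H49 T3.Fr2 F3

variable {G : Type*} [Group G] [Finite G] {z : G} {Q P : Subgroup G}

namespace SetB

/-- additive coordinates on `Q/⟨z⟩` -/
structure Co (z : G) (Q : Subgroup G) (π : G → V) : Prop where
  add : ∀ a ∈ Q, ∀ b ∈ Q, π (a * b) = π a + π b
  surj : ∀ v, ∃ a ∈ Q, π a = v
  ker : ∀ a ∈ Q, π a = 0 ↔ a ∈ zpowers z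

theorem equiv_pi {E : Type*} [Group E] [Finite E] (hc : ∀ a b : E, a * b = b * a) (h : ∀ a : E, a ^ 3 = 1)
    (hn : Nat.card E = 3 ^ 8) : Nonempty (Additive E ≃+ V) := by
  letI : CommGroup E := { (inferInstance : Group E) with mul_comm := hc }
  letI : Module (ZMod 3) (Additive E) := AddCommGroup.zmodModule (fun x => by
    apply Additive.toMul.injective
    simpa using h _)
  have : Module.Finite (ZMod 3) (Additive E) := Module.Finite.of_finite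
  have e := Module.natCard_eq_pow_finrank (K := ZMod 3) (V := Additive E)
  rw [Nat.card_zmod, show Nat.card (Additive E) = 3 ^ 8 from hn] at e
  exact ⟨(Module.finBasisOfFinrankEq (ZMod 3) (Additive E)
    (Nat.pow_right_injective (by norm_num : 2 ≤ 3) e.symm)).equivFun.toAddEquiv⟩

theorem exists_co (h : E1 z Q) (hc : Nat.card Q = 3 ^ 9) : ∃ π, Co z Q π := by
  classical
  let N := (zpowers z).subgroupOf Q
  have : N.Normal := ⟨fun c hc g => by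
    rw [mem_subgroupOf] at hc ⊢
    show (g : G) * c * (g : G)⁻¹ ∈ _
    rwa [Z_conj (h.Qc g.2) hc]⟩
  have cN : Nat.card N = 3 :=
    (Nat.card_congr (subgroupOfEquivOfLe (Fa.ZQ h)).toEquiv).trans (by rw [Nat.card_zpowers, h.z3])
  obtain ⟨e⟩ := equiv_pi (E := Q ⧸ N) (fun a b => by
      obtain ⟨a, rfl⟩ := QuotientGroup.mk_surjective a
      obtain ⟨b, rfl⟩ := QuotientGroup.mk_surjective b
      rw [← mul_inv_eq_one, mul_inv_rev, ← mul_assoc]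
      exact (QuotientGroup.eq_one_iff (a * b * a⁻¹ * b⁻¹)).2 (h.comm a a.2 b b.2))
    (fun a => by
      obtain ⟨a, rfl⟩ := QuotientGroup.mk_surjective a
      rw [← QuotientGroup.mk_pow, show a ^ 3 = 1 from Subtype.ext (h.exp a a.2), QuotientGroup.mk_one])
    (by have := card_eq_card_quotient_mul_card_subgroup N
        rw [hc, cN] at this
        omega)
  refine ⟨fun g => if hg : g ∈ Q then e (Additive.ofMul ((⟨g, hg⟩ : Q) : Q ⧸ N)) else 0,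
    fun a ha b hb => ?_, fun v => ?_, fun a ha => ?_⟩
  · simp only [dif_pos ha, dif_pos hb, dif_pos (mul_mem ha hb)]
    rw [← map_add]; rfl
  · obtain ⟨a, ha⟩ := QuotientGroup.mk_surjective (e.symm v).toMul
    refine ⟨a, a.2, ?_⟩
    simp only [dif_pos a.2]
    rw [show ((⟨a, a.2⟩ : Q) : Q ⧸ N) = _ from ha, ofMul_toMul, e.apply_symm_apply]
  · simp only [dif_pos ha]
    rw [e.map_eq_zero_iff, ofMul_eq_zero, QuotientGroup.eq_one_iff, mem_subgroupOf]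

variable {π : G → V}

omit [Finite G] in
theorem Co.eq_iff (c : Co z Q π) {a b : G} (ha : a ∈ Q) (hb : b ∈ Q) : π a = π b ↔ a * b⁻¹ ∈ zpowers z := by
  have := c.add _ (mul_mem ha (inv_mem hb)) b hb
  rw [inv_mul_cancel_right] at this
  rw [← c.ker _ (mul_mem ha (inv_mem hb)), this, add_eq_right]

omit [Finite G] in
theorem Co.lift (c : Co z Q π) {W : Type*} [AddCommGroup W] [Module F W] (f : G → W)
    (hf : ∀ a ∈ Q, ∀ b ∈ Q, f (a * b) = f a + f b) (h0 : ∀ a ∈ zpowers z, f a = 0) :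
    ∃ L : V →ₗ[F] W, ∀ a ∈ Q, L (π a) = f a := by
  have wd : ∀ a ∈ Q, ∀ b ∈ Q, π a = π b → f a = f b := fun a ha b hb e => by
    have := hf _ (mul_mem ha (inv_mem hb)) b hb
    rwa [inv_mul_cancel_right, h0 _ ((c.eq_iff ha hb).1 e), zero_add] at this
  choose s hs1 hs2 using c.surj
  refine ⟨(AddMonoidHom.mk' (fun v => f (s v)) fun v w => ?_).toZModLinearMap 3,
    fun a ha => wd _ (hs1 _) _ ha (hs2 _)⟩
  rw [← hf _ (hs1 v) _ (hs1 w)]
  exact wd _ (hs1 _) _ (mul_mem (hs1 v) (hs1 w)) (by rw [c.add _ (hs1 v) _ (hs1 w), hs2, hs2, hs2])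

omit [Finite G] in
theorem Co.form (c : Co z Q π) (h : E1 z Q) :
    ∃ B : LinearMap.BilinForm F V, ∀ a ∈ Q, ∀ b ∈ Q, B (π a) (π b) = bt z a b := by
  have : ∀ a ∈ Q, ∃ L : V →ₗ[F] F, ∀ b ∈ Q, L (π b) = bt z a b := fun a ha =>
    c.lift _ (fun u hu w hw => Fa.bt_mul_right h ha hu hw) fun u hu => Fa.bt_Z_right h ha hu
  choose! L hL using this
  obtain ⟨B, hB⟩ := c.lift L (fun a ha b hb => LinearMap.ext fun v => by
      obtain ⟨u, hu, rfl⟩ := c.surj v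
      rw [LinearMap.add_apply, hL _ ha _ hu, hL _ hb _ hu, hL _ (mul_mem ha hb) _ hu, Fa.bt_mul_left h ha hb hu])
    fun a ha => LinearMap.ext fun v => by
      obtain ⟨u, hu, rfl⟩ := c.surj v
      rw [hL _ (Fa.ZQ h ha) _ hu, Fa.bt_Z_left h hu ha, LinearMap.zero_apply]
  exact ⟨B, fun a ha b hb => by rw [hB a ha, hL a ha b hb]⟩

omit [Finite G] in
theorem Co.act (c : Co z Q π) (h : E1 z Q) :
    ∃ α : 𝒞[z] →* (V ≃ₗ[F] V), ∀ g : 𝒞[z], ∀ a ∈ Q, α g (π a) = π (g * a * (g : G)⁻¹) := by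
  have : ∀ g : 𝒞[z], ∃ L : V →ₗ[F] V, ∀ a ∈ Q, L (π a) = π (g * a * (g : G)⁻¹) := fun g =>
    c.lift _ (fun u hu w hw => by
      rw [← c.add _ (Fa.conjQ h g.2 hu) _ (Fa.conjQ h g.2 hw)]; congr 1; group)
      fun u hu => by rw [Z_conj g.2 hu, c.ker _ (Fa.ZQ h hu)]; exact hu
  choose L hL using this
  let A : 𝒞[z] →* Module.End F V :=
    { toFun := L
      map_one' := LinearMap.ext fun v => by
        obtain ⟨u, hu, rfl⟩ := c.surj v
        rw [hL _ _ hu]; simp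
      map_mul' := fun g k => LinearMap.ext fun v => by
        obtain ⟨u, hu, rfl⟩ := c.surj v
        rw [Module.End.mul_apply, hL _ _ hu, hL _ _ hu, hL _ _ (Fa.conjQ h k.2 hu), coe_mul]
        congr 1; group }
  exact ⟨(LinearMap.GeneralLinearGroup.generalLinearEquiv F V).toMonoidHom.comp A.toHomUnits, hL⟩

theorem exists_mat (T : V ≃ₗ[F] V) : ∃ M : GG, ∀ v, M • v = T v :=
  ⟨Matrix.GeneralLinearGroup.toLin.symm (LinearMap.GeneralLinearGroup.ofLinearEquiv T), fun v =>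
    LinearMap.toMatrix'_mulVec (T : V →ₗ[F] V) v⟩

theorem mat_ext {M N : GG} (h : ∀ v : V, M • v = N • v) : M = N :=
  Units.ext (Matrix.toLin'.injective (LinearMap.ext h))

omit [Finite G] in
theorem e1_of (h : E1 z Q) {y : G} (e : zpowers y = zpowers z) : E1 y Q := by
  have ec : 𝒞[y] = 𝒞[z] := by rw [← cent_zpowers, e, cent_zpowers]
  refine ⟨by rw [← Nat.card_zpowers, e, Nat.card_zpowers, h.z3], Fa.ZQ h (e ▸ mem_zpowers y), ?_, ?_, ?_, h.exp, ?_, ?_⟩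
  all_goals simp only [e, ec]
  exacts [h.Qc, h.comm, h.cen, h.nQ, h.faith]

omit [Finite G] in
theorem zp_inv_neg (h : z ^ 3 = 1) (i : F) : zp z⁻¹ (-i) = zp z i := by
  rw [zp, inv_pow, inv_eq_iff_mul_eq_one]
  exact (zp_add h (-i) i).symm.trans (by rw [neg_add_cancel, zp_zero])

end SetB

open SetB in
theorem setB (h : E1 z Q) (hc : Nat.card Q = 3 ^ 9) (hQP : Q ≤ P) (hP : P ≤ 𝒞[z]) (hn : 𝒞[z] ≤ 𝒩(P))
    (μ : P →* R0) (hs : Function.Surjective μ) (hk : μ.ker = Q.subgroupOf P) :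
    ∃ (z' : G) (π : G → V) (ρ : G → GG), (z' = z ∨ z' = z⁻¹) ∧ PT z' Q π ρ ∧ ∀ g ∈ 𝒞[z], ρ g ∈ R0 ↔ g ∈ P := by
  obtain ⟨π, c⟩ := exists_co h hc
  obtain ⟨B, hB⟩ := c.form h
  obtain ⟨α, hα⟩ := c.act h
  have kα : ∀ g : 𝒞[z], α g = 1 ↔ (g : G) ∈ Q := fun g =>
    ⟨fun e => h.faith g g.2 fun q hq => (c.eq_iff (Fa.conjQ h g.2 hq) hq).1 (by rw [← hα g q hq, e]; rfl),
      fun e => LinearEquiv.ext fun v => by
        obtain ⟨u, hu, rfl⟩ := c.surj v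
        rw [hα g u hu]
        exact (c.eq_iff (Fa.conjQ h g.2 hu) hu).2 (h.comm _ e _ hu)⟩
  have Bα : ∀ g u w, B (α g u) (α g w) = B u w := fun g u w => by
    obtain ⟨a, ha, rfl⟩ := c.surj u
    obtain ⟨b, hb, rfl⟩ := c.surj w
    rw [hα g a ha, hα g b hb, hB _ (Fa.conjQ h g.2 ha) _ (Fa.conjQ h g.2 hb), hB a ha b hb, Fa.bt_conj h g.2 ha hb]
  let ι : R0 →* (V ≃ₗ[F] V) := μ.liftOfSurjective hs ⟨α.comp (inclusion hP), fun p hp =>
    (kα ⟨p, hP p.2⟩).2 (mem_subgroupOf.1 (hk.le hp))⟩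
  have hι : ∀ p : P, ι (μ p) = α ⟨p, hP p.2⟩ := fun p => μ.liftOfRightInverse_comp_apply _ _ _ p
  obtain ⟨φ, ε, hε, h1, h2⟩ := rep_unique (U := V) (by simp [Nat.card_zmod]) B (fun u hu => by
      obtain ⟨a, ha, rfl⟩ := c.surj u
      exact (c.ker a ha).2 (Fa.mem_Z_of_bt h ha fun b hb => by
        rw [Fa.bt_swap h hb ha, ← hB a ha b hb, hu, neg_zero])) ι
    ((injective_iff_map_eq_one ι).2 fun a e => by
      obtain ⟨p, rfl⟩ := hs a
      rw [hι, kα] at e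
      exact hk.ge (mem_subgroupOf.2 e))
    (fun a u w => by
      obtain ⟨p, rfl⟩ := hs a
      rw [hι, Bα])
  have : ∀ g ∈ 𝒞[z], ∃ M : GG, ∀ hg : g ∈ 𝒞[z], ∀ v, φ (M • v) = α ⟨g, hg⟩ (φ v) := fun g hg =>
    let ⟨M, hM⟩ := exists_mat (φ ≪≫ₗ α ⟨g, hg⟩ ≪≫ₗ φ.symm)
    ⟨M, fun _ v => by rw [hM]; exact φ.apply_symm_apply _⟩
  choose! ρ hρ' using this
  have hρ : ∀ g, ∀ hg : g ∈ 𝒞[z], ∀ v, φ (ρ g • v) = α ⟨g, hg⟩ (φ v) := fun g hg => hρ' g hg hg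
  have hom : ∀ g ∈ 𝒞[z], ∀ k ∈ 𝒞[z], ρ (g * k) = ρ g * ρ k := fun g hg k hk => mat_ext fun v => φ.injective (by
    rw [mul_smul, hρ g hg, hρ k hk, hρ _ (mul_mem hg hk)]
    exact congrArg (· (φ v)) (α.map_mul ⟨g, hg⟩ ⟨k, hk⟩))
  have ρP : ∀ p : P, ρ p = μ p := fun p => mat_ext fun v => φ.injective (by rw [hρ _ (hP p.2), h1, hι])
  have hR : ∀ a ∈ R0, ∃ p ∈ P, ρ p = a := fun a ha =>
    let ⟨p, e⟩ := hs ⟨a, ha⟩
    ⟨p, p.2, by rw [ρP, e]⟩
  have hε0 : ε ≠ 0 := by rcases hε with rfl | rfl <;> decide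
  have hH : ∀ g ∈ 𝒞[z], ρ g ∈ HH := fun g hg => mem_inf.2 ⟨mem_norm_of_cj_le fun x hx => by
      obtain ⟨a, ha, rfl⟩ := mem_cj'.1 hx
      obtain ⟨p, hp, rfl⟩ := hR a ha
      have hq := conj_mem_of_norm hn hg hp
      have e := hom _ (hP hq) g hg
      rw [inv_mul_cancel_right, hom g hg p (hP hp), eq_comm, ← eq_mul_inv_iff_mul_eq] at e
      rw [← e, ρP ⟨_, hq⟩]
      exact (μ _).2,
    mem_Sp_of_om fun v w => mul_left_cancel₀ hε0 (by
      rw [← h2, ← h2, ← smul_def, ← smul_def, hρ g hg, hρ g hg, Bα])⟩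
  have key : ∀ y, zpowers y = zpowers z → (∀ i, zp z (ε * i) = zp y (-i)) →
      PT y Q (fun a => φ.symm (π a)) ρ := fun y e hy => by
    have ec : 𝒞[y] = 𝒞[z] := by rw [← cent_zpowers, e, cent_zpowers]
    refine ⟨e1_of h e, fun a ha b hb => by rw [c.add a ha b hb, map_add], fun v => ?_, fun a ha => ?_,
      fun a ha b hb => ?_, ec ▸ hom, ec ▸ fun g hg a ha => φ.injective ?_, ec ▸ hH, ec ▸ fun a ha => ?_⟩
    · obtain ⟨a, ha, ea⟩ := c.surj (φ v)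
      exact ⟨a, ha, by rw [ea, φ.symm_apply_apply]⟩
    · rw [φ.symm.map_eq_zero_iff, c.ker a ha, e]
    · rw [← hy, ← h2, φ.apply_symm_apply, φ.apply_symm_apply, hB a ha b hb, Fa.bt_spec h ha hb]
    · rw [hρ g hg, φ.apply_symm_apply, φ.apply_symm_apply, hα _ a ha]
    · obtain ⟨p, hp, e⟩ := hR a ha
      exact ⟨p, hP hp, e⟩
  have fin : ∀ g ∈ 𝒞[z], ρ g ∈ R0 ↔ g ∈ P := fun g hg => ⟨fun e => by
      obtain ⟨p, hp, e⟩ := hR _ e
      have e1 : α ⟨p, hP hp⟩ = α ⟨g, hg⟩ := LinearEquiv.ext fun v => by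
        rw [← φ.apply_symm_apply v, ← hρ, ← hρ, e]
      rw [← inv_mul_eq_one, ← map_inv, ← map_mul, kα] at e1
      exact (mul_mem_cancel_left (inv_mem hp)).1 (hQP e1),
    fun e => ρP ⟨g, e⟩ ▸ (μ _).2⟩
  rcases hε with rfl | rfl
  · exact ⟨_, _, ρ, .inr rfl, key _ zpowers_inv fun i => by rw [one_mul, zp_inv_neg (Fa.z3' h)], fin⟩
  · exact ⟨_, _, ρ, .inl rfl, key _ rfl fun i => by rw [neg_one_mul], fin⟩

end Cfsg.Agent.B3
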