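import Cfsg.Agent.B3.SetA
import Cfsg.Agent.B3.SetB
import Cfsg.Agent.B3.Bas

/-! Project B3: the section `s` and the structure `ST`. -/

set_option autoImplicit false
set_option linter.unusedSectionVars false

namespace Cfsg.Agent.B3

open Subgroup H49 T3.Fr2 F3

variable {G : Type*} [Group G] [Finite G]

theorem PT.st {z : G} {Q : Subgroup G} {π : G → V} {ρ : G → GG} (h : PT z Q π ρ) :
    ∃ (r : G) (s : V → G) (X : Subgroup GG), ST z r Q s ρ X := by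
  have zc : z ^ 3 = 1 := h.exp z h.zQ
  have ZQ : zpowers z ≤ Q := zpowers_le.2 h.zQ
  have cQ : ∀ {g a}, g ∈ 𝒞[z] → a ∈ Q → g * a * g⁻¹ ∈ Q := fun hg ha =>
    conj_mem_of_norm ((norm_of_cent (cent_zpowers z).ge).trans h.nQ) hg ha
  have pinv : ∀ a ∈ Q, π a⁻¹ = -π a := fun a ha => eq_neg_of_add_eq_zero_left (by
    rw [← h.add _ (inv_mem ha) _ ha, inv_mul_cancel]; exact (h.ker _ (one_mem Q)).2 (one_mem _))
  have dif : ∀ a ∈ Q, ∀ b ∈ Q, π a = π b → b⁻¹ * a ∈ zpowers z := fun a ha b hb e =>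
    (h.ker _ (mul_mem (inv_mem hb) ha)).1 (by rw [h.add _ (inv_mem hb) _ ha, pinv b hb, e, neg_add_cancel])
  have same : ∀ a ∈ Q, ∀ b ∈ Q, π a = π b → ∃ k, a = b * zp z k := fun a ha b hb e =>
    ⟨_, by rw [zp_lg h.z3 (dif a ha b hb e), mul_inv_cancel_left]⟩
  obtain ⟨r0, h0, e0⟩ := h.hR _ neg_one_mem
  have q0 : r0 * r0 ∈ Q := h.faith _ (mul_mem h0 h0) fun q hq => by
    have m := cQ (mul_mem h0 h0) hq
    refine (h.ker _ (mul_mem m (inv_mem hq))).1 ?_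
    rw [h.add _ m _ (inv_mem hq), h.act _ (mul_mem h0 h0) _ hq, h.hom _ h0 _ h0, e0, pinv q hq, neg_mul_neg, one_mul,
      one_smul, add_neg_cancel]
  obtain ⟨r, rz, r2, e⟩ : ∃ r ∈ 𝒞[z], r * r = 1 ∧ ρ r = -1 := ⟨r0 * r0 * r0, mul_mem (mul_mem h0 h0) h0,
    Eq.trans (by rw [pow_three']; group) (h.exp _ q0),
    by rw [h.hom _ (mul_mem h0 h0) _ h0, h.hom _ h0 _ h0, e0, neg_mul_neg, one_mul, one_mul]⟩
  have ex : ∀ v, ∃ a ∈ Q, π a = v ∧ r * a * r⁻¹ = a⁻¹ := fun v => by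
    obtain ⟨a, ha, rfl⟩ := h.surj v
    have c : r * a * r⁻¹ * a ∈ zpowers z := (h.ker _ (mul_mem (cQ rz ha) ha)).1 (by
      rw [h.add _ (cQ rz ha) _ ha, h.act _ rz _ ha, e, Units.neg_smul, one_smul, neg_add_cancel])
    have c3 := h.exp _ (ZQ c)
    refine ⟨a * (r * a * r⁻¹ * a), mul_mem ha (ZQ c), by
      rw [h.add _ ha _ (ZQ c), (h.ker _ (ZQ c)).2 c, add_zero], ?_⟩
    have e1 : r * a * r⁻¹ = r * a * r⁻¹ * a * a⁻¹ := (mul_inv_cancel_right _ _).symm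
    generalize r * a * r⁻¹ * a = c' at c c3 e1
    rw [← conj_mul, e1, Z_conj rz c, mul_assoc, ← Z_comm (inv_mem (h.Qc ha)) c, ← mul_assoc, mul_inv_rev,
      eq_inv_of_mul_eq_one_left ((pow_three' c').symm.trans c3)]
  have un : ∀ a ∈ Q, ∀ b ∈ Q, π a = π b → r * a * r⁻¹ = a⁻¹ → r * b * r⁻¹ = b⁻¹ → a = b := fun a ha b hb e1 e2 e3 => by
    obtain ⟨k, rfl⟩ := same a ha b hb e1
    have c := zp_mem (mem_zpowers z) k
    rw [← conj_mul, e3, Z_conj rz c, mul_inv_rev, ← Z_comm (inv_mem (h.Qc hb)) c, mul_left_inj,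
      eq_inv_iff_mul_eq_one] at e2
    have c3 := h.exp _ (ZQ c)
    rw [pow_three', e2, one_mul] at c3
    rw [c3, mul_one]
  choose s sQ ps rs using ex
  let f : 𝒞[z] →* GG := MonoidHom.mk' (fun g => ρ g) fun a b => h.hom a a.2 b b.2
  have img : ∀ x, x ∈ f.range ↔ ∃ g ∈ 𝒞[z], ρ g = x := fun x =>
    ⟨fun ⟨g, e⟩ => ⟨g, g.2, e⟩, fun ⟨g, hg, e⟩ => ⟨⟨g, hg⟩, e⟩⟩
  refine ⟨r, s, f.range,
    { toE1 := h.toE1
      memQ := fun g => ⟨fun hg => ⟨π g, same g hg _ (sQ _) (ps _).symm⟩,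
        fun ⟨v, k, e⟩ => e ▸ mul_mem (sQ v) (zp_mem h.zQ k)⟩
      mul := fun v w => ?_
      inj := fun v hv => (ps v).symm.trans ((h.ker _ (sQ v)).2 hv)
      r2 := r2
      rz := rz
      rs := fun v => (rs v).trans (un _ (inv_mem (sQ v)) _ (sQ _) (by rw [pinv _ (sQ v), ps, ps])
        (by rw [← conj_inv, rs]) (rs _))
      hom := h.hom
      act := fun g hg v => same _ (cQ hg (sQ v)) _ (sQ _) (by rw [h.act g hg _ (sQ v), ps, ps])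
      img := img
      XH := fun x hx => let ⟨g, hg, e⟩ := (img x).1 hx; e ▸ h.hH g hg
      RX := fun x hx => (img x).2 (h.hR x hx) }⟩
  obtain ⟨k, e1⟩ := same _ (mul_mem (sQ v) (sQ w)) _ (sQ (v + w)) (by rw [h.add _ (sQ v) _ (sQ w), ps, ps, ps])
  have c := zp_mem (mem_zpowers z) k
  have e2 := congrArg (fun x => r * x * r⁻¹) e1
  simp only [← conj_mul, rs, Z_conj rz c] at e2
  have e3 := h.cm _ (sQ v) _ (sQ w)
  rw [mul_assoc, e2, e1, ps, ps, ← mul_assoc, Z_conj (h.Qc (sQ _)) c, ← zp_add zc] at e3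
  rw [e1, (by decide : ∀ k o : F, k + k = -o → k = o) _ _ (zp_inj h.z3 e3)]

theorem setup (Z : Subgroup G) (hZ : Nat.card ↥Z = 3)
    (hQ : Cfsg.IsExtraspecial 3 ↥(Cfsg.generalizedFittingSubgroup ↥(Subgroup.centralizer (Z : Set G))))
    (hQcard : Nat.card ↥(Cfsg.generalizedFittingSubgroup ↥(Subgroup.centralizer (Z : Set G))) = 3 ^ 9)
    [hQn : (Cfsg.generalizedFittingSubgroup ↥(Subgroup.centralizer (Z : Set G))).Normal]
    (hexp : ∀ x ∈ Cfsg.generalizedFittingSubgroup ↥(Subgroup.centralizer (Z : Set G)), x ^ 3 = 1)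
    (hR : Cfsg.IsExtraspecial 2 ↥(Cfsg.pCore 2 (↥(Subgroup.centralizer (Z : Set G)) ⧸ Cfsg.generalizedFittingSubgroup ↥(Subgroup.centralizer (Z : Set G)))))
    (hRcard : Nat.card ↥(Cfsg.pCore 2 (↥(Subgroup.centralizer (Z : Set G)) ⧸ Cfsg.generalizedFittingSubgroup ↥(Subgroup.centralizer (Z : Set G)))) = 2 ^ 7)
    (hRminus : ∀ A : Subgroup ↥(Cfsg.pCore 2 (↥(Subgroup.centralizer (Z : Set G)) ⧸ Cfsg.generalizedFittingSubgroup ↥(Subgroup.centralizer (Z : Set G)))), Cfsg.IsElementaryAbelian 2 A → Nat.card ↥A ≤ 2 ^ 3)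
    [hRn : (Cfsg.pCore 2 (↥(Subgroup.centralizer (Z : Set G)) ⧸ Cfsg.generalizedFittingSubgroup ↥(Subgroup.centralizer (Z : Set G)))).Normal]
    {T : Type*} [Group T]
    (e : ((↥(Subgroup.centralizer (Z : Set G)) ⧸ Cfsg.generalizedFittingSubgroup ↥(Subgroup.centralizer (Z : Set G))) ⧸ Cfsg.pCore 2 (↥(Subgroup.centralizer (Z : Set G)) ⧸ Cfsg.generalizedFittingSubgroup ↥(Subgroup.centralizer (Z : Set G)))) ≃* T)
    (S : Sylow 3 G) (hZS : Z ≤ (S : Subgroup G))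
    (hwc : ∃ g : G, (Z.map (MulAut.conj g).toMonoidHom) ≤ (S : Subgroup G) ∧ Z.map (MulAut.conj g).toMonoidHom ≠ Z) :
    ∃ (z r : G) (Q : Subgroup G) (s : V → G) (ρ : G → GG) (X : Subgroup GG), ST z r Q s ρ X ∧
      (∃ g : G, g * z * g⁻¹ ∈ 𝒞[z] ∧ g * z * g⁻¹ ∉ zpowers z) ∧
      ∃ θ : X →* T, Function.Surjective θ ∧ θ.ker = R0.subgroupOf X := by
  obtain ⟨z, Q, P, rfl, h, hc, hQP, hP, ⟨μ, μs, μk⟩, hθ⟩ := setA Z hZ hQ hQcard hexp hR hRcard hRminus e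
  have hn : 𝒞[z] ≤ 𝒩(P) := le_norm_iff.2 fun g hg p hp => by
    obtain ⟨θ, -, k⟩ := hθ
    exact (k ▸ θ.normal_ker : (P.subgroupOf 𝒞[z]).Normal).conj_mem ⟨p, hP hp⟩ hp ⟨g, hg⟩
  obtain ⟨z', π, ρ, hz, pt, hρ⟩ := setB h hc hQP hP hn μ μs μk
  have eZ : zpowers z = zpowers z' := by
    rcases hz with rfl | rfl
    exacts [rfl, zpowers_inv.symm]
  have eC : 𝒞[z] = 𝒞[z'] := by rw [← cent_zpowers, eZ, cent_zpowers]
  rw [eC] at hθ hρ
  rw [eZ] at hZS hwc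
  obtain ⟨θ, θs, θk⟩ := hθ
  obtain ⟨r, s, X, st⟩ := pt.st
  refine ⟨z', r, Q, s, ρ, X, st, ?_, ?_⟩
  · obtain ⟨g, h1, h2⟩ := hwc
    rw [map_conj_eq_cj, cj_zpowers] at h1 h2
    refine Fr.nwc_of st.z3 S.isPGroup' (hZS (mem_zpowers z')) (h1 (mem_zpowers _)) fun m => h2 ?_
    refine eq_of_le_of_card_eq (zpowers_le.2 m) ?_
    rw [← cj_zpowers, card_cj]
  · let f : 𝒞[z'] →* X := st.hm.codRestrict X fun g => st.rho_mem g.2
    have fs : Function.Surjective f := fun ⟨x, hx⟩ =>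
      let ⟨g, hg, e⟩ := (st.img x).1 hx; ⟨⟨g, hg⟩, Subtype.ext e⟩
    have k : f.ker ≤ θ.ker := fun g hg => θk ▸ hQP ((st.ker g.2).1 (congrArg Subtype.val hg))
    have a : ∀ g, f.liftOfSurjective fs ⟨θ, k⟩ (f g) = θ g := f.liftOfRightInverse_comp_apply _ _ _
    refine ⟨f.liftOfSurjective fs ⟨θ, k⟩, fun t => let ⟨g, e⟩ := θs t; ⟨f g, (a g).trans e⟩,
      Subgroup.ext fun x => ?_⟩
    obtain ⟨g, rfl⟩ := fs x
    rw [MonoidHom.mem_ker, a, ← MonoidHom.mem_ker, θk]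
    exact (hρ g g.2).symm

end Cfsg.Agent.B3
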