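import Cfsg.Agent.B3.ModA
import Cfsg.Prelude.Def_Transfer
import Cfsg.Agent.H57.ES
import Cfsg.Agent.S3763

set_option autoImplicit false

namespace Cfsg.Agent.B3

open Subgroup H49 T3.Fr2 F3

attribute [local irreducible] gm

namespace SetRX

/-- the code number `n` of the list -/
def cd' (n : ℕ) : ℕ := R0L.getD n 0
/-- the bits number 0, 2, 4 have even sum -/
def par (n : ℕ) : Bool := (n % 2 + n / 4 % 2 + n / 16 % 2) % 2 == 0
/-- the quadratic form vanishes -/
def qq (n : ℕ) : Bool := par (n ||| n / 2)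
/-- the bilinear form vanishes -/
def bb (n m : ℕ) : Bool := par ((n &&& m / 2) ^^^ (n / 2 &&& m))

theorem f1 : ∀ n < 128, mulN (cd' n) (cd' n) = oneN → qq n = true := by decide +kernel

theorem f2 : ∀ n < 128, qq n = true → ∀ m < n, qq m = true → bb n m = false →
    mulN (cd' n) (cd' m) ≠ mulN (cd' m) (cd' n) := by decide +kernel

theorem f3 : ∀ n < 128, ∀ m < 128, bb n m = bb m n := by decide +kernel

theorem f4 : ∀ n < 128, bb n n = true := by decide +kernel

set_option synthInstance.maxSize 1024 in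
theorem f5 : ∀ n < 128, qq n = true → n % 64 ≠ 0 → ∀ m < 128, qq m = true → bb n m = true → m % 64 ≠ 0 →
    m % 64 ≠ n % 64 → ((List.range 128).filter fun w => qq w && bb n w && bb m w).length ≤ 8 := by
  decide +kernel

theorem f6 : ∀ n < 128, ((List.range 128).filter fun w => w % 64 == 0 || w % 64 == n % 64).length ≤ 8 := by
  decide +kernel

theorem rank3 : Cfsg.PRankLE 2 3 R0 := by
  intro A hA h2
  have hi : ∀ a : A, ∃ n < 128, pk (a : R0).1 = cd' n := fun a => by
    obtain ⟨n, hn, e⟩ := List.getElem_of_mem (mem_R0.1 (a : R0).2)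
    exact ⟨n, hn, by rw [cd', List.getD_eq_getElem _ _ hn, e]⟩
  choose f hf1 hf2 using hi
  have inj : Function.Injective f := fun a b e =>
    Subtype.ext (Subtype.ext (pk_inj (by rw [hf2, hf2, e])))
  have hq : ∀ a, qq (f a) = true := fun a => f1 _ (hf1 a) (by
    rw [← hf2, ← pk_mul, ← pk_one]
    have := congrArg Subtype.val (h2 a a.2)
    rw [pow_two, coe_mul, coe_one] at this
    rw [this])
  have hc : ∀ a b, mulN (cd' (f a)) (cd' (f b)) = mulN (cd' (f b)) (cd' (f a)) := fun a b => by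
    rw [← hf2, ← hf2, ← pk_mul, ← pk_mul]
    have := congrArg Subtype.val (congrArg Subtype.val (hA.is_comm.comm a b))
    simp only [coe_mul] at this
    rw [this]
  have hb : ∀ a b, bb (f a) (f b) = true := fun a b => by
    by_contra h
    rw [Bool.not_eq_true] at h
    rcases lt_trichotomy (f a) (f b) with l | l | l
    · exact f2 _ (hf1 b) (hq b) _ l (hq a) (by rw [← f3 _ (hf1 a) _ (hf1 b), h]) (hc b a)
    · rw [l, f4 _ (hf1 b)] at h
      exact Bool.noConfusion h
    · exact f2 _ (hf1 a) (hq a) _ l (hq b) h (hc a b)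
  have bound : ∀ P : ℕ → Bool, (∀ a, P (f a) = true) → Nat.card A ≤ ((List.range 128).filter P).length :=
    fun P hP => by
      refine le_trans ?_ (List.toFinset_card_le _)
      rw [← Nat.card_eq_finsetCard]
      exact Nat.card_le_card_of_injective
        (fun a => ⟨f a, List.mem_toFinset.2 (List.mem_filter.2 ⟨List.mem_range.2 (hf1 a), hP a⟩)⟩)
        fun a b e => inj (congrArg Subtype.val e)
  by_cases h : ∃ a, f a % 64 ≠ 0
  · obtain ⟨a, ha⟩ := h
    by_cases h : ∃ b, f b % 64 ≠ 0 ∧ f b % 64 ≠ f a % 64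
    · obtain ⟨b, h1, h3⟩ := h
      exact (bound _ fun w => by rw [hq, hb, hb]; rfl).trans
        (f5 _ (hf1 a) (hq a) ha _ (hf1 b) (hq b) (hb a b) h1 h3)
    · refine (bound _ fun w => ?_).trans (f6 _ (hf1 a))
      simp only [Bool.or_eq_true, beq_iff_eq]
      by_contra hw
      exact h ⟨w, fun e => hw (Or.inl e), fun e => hw (Or.inr e)⟩
  · refine (bound _ fun w => ?_).trans (f6 0 (by norm_num))
    simp only [Bool.or_eq_true, beq_iff_eq]
    by_contra hw
    exact h ⟨w, fun e => hw (Or.inl e)⟩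

theorem es : Cfsg.IsExtraspecial 2 R0 := by
  refine H57.isExtraspecial_of_hom R0.subtype R0.subtype_injective R0.range_subtype (e := 7) card_R0 neg_one_mem
    (fun h => absurd (congrArg pk h) (by rw [pk_one, pk_neg_one]; decide +kernel)) (fun g _ => ⟨fun h => ?_, ?_⟩)
    (fun g hg => ?_) ⟨gI 0, gI_mem 0, gJ 0, gJ_mem 0, fun h => absurd (congrArg pk h) ?_⟩
  · exact cent_R0 fun a => ⟨(h _ (gI_mem a)).symm, (h _ (gJ_mem a)).symm⟩
  · rintro (rfl | rfl) a _ <;> simp
  · have key : ∀ x ∈ R0L, mulN x x = oneN ∨ mulN x x = negN := by decide +kernel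
    rw [pow_two, pk_eq_iff, pk_eq_iff, pk_mul, pk_one, pk_neg_one]
    exact key _ (mem_R0.1 hg)
  · simp only [pk_mul, pk_gI, pk_gJ]
    decide +kernel

theorem mono {E : Type*} [Group E] {k l : ℕ} (h : k ≤ l) (a : Cfsg.PRankLE 2 k E) : Cfsg.PRankLE 2 l E :=
  fun A b c => (a A b c).trans (Nat.pow_le_pow_right (by norm_num) h)

end SetRX

open SetRX in
theorem R0_iso {E : Type*} [Group E] [Finite E] (hE : Cfsg.IsExtraspecial 2 E) (hc : Nat.card E = 2 ^ 7)
    (hm : ∀ A : Subgroup E, Cfsg.IsElementaryAbelian 2 A → Nat.card A ≤ 2 ^ 3) : Nonempty (E ≃* R0) := by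
  have h1 : Cfsg.PRankLE 2 3 E := fun A b c => hm A ⟨b, c⟩
  have h2 := S3763.result.{_, 0} hE 3 hc
  have h3 := (S3763.result.{0, 0} es 3 card_R0).1
  have h4 : ¬ Cfsg.PRankLE 2 2 E := h2.1.elim (·.2) fun h => absurd h1 h.2
  have h5 : ¬ Cfsg.PRankLE 2 2 R0 := h3.elim (·.2) fun h => absurd rank3 h.2
  refine h2.2 R0 es (card_R0.trans hc.symm) fun k => ?_
  rcases le_or_gt 3 k with l | l
  · exact iff_of_true (mono l h1) (mono l rank3)
  · exact iff_of_false (fun h => h4 (mono (by omega) h)) fun h => h5 (mono (by omega) h)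

end Cfsg.Agent.B3
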