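import Cfsg.Agent.B3.StA
import Cfsg.Agent.B3.ModW
import Cfsg.Agent.F3.I1

set_option autoImplicit false
set_option linter.unusedSectionVars false

namespace Cfsg.Agent.B3

open Subgroup H49 T3.Fr2 F3

variable {G : Type*} [Group G] [Finite G] {z r : G} {Q : Subgroup G} {s : V → G} {ρ : G → GG} {X : Subgroup GG}

namespace StB

omit [Finite G] in
theorem disj {y c : G} (z3 : orderOf z = 3) (y3 : orderOf y = 3) (hn : y ∉ zpowers z) (h1 : c ∈ zpowers z)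
    (h2 : c ∈ zpowers y) : c = 1 := by
  by_contra n
  rcases I1.zcases z3 h1 n with e | e
  · exact I1.not_mem z3 y3 hn (e ▸ h2)
  · exact I1.not_mem z3 y3 hn ((inv_mem_iff (x := z)).1 (e ▸ h2))

theorem iso (h : ST z r Q s ρ X) {y : G} {Q' : Subgroup G} (h' : E1 y Q') (hn : y ∉ zpowers z) :
    Nat.card (h.bar (Q ⊓ Q')) ≤ 81 := by
  refine iso_le ?_
  rintro v ⟨k, a⟩ w ⟨l, b⟩
  rw [← h.comm_iff v w k l, ← mul_inv_eq_iff_eq_mul, ← mul_inv_eq_one]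
  exact disj h.z3 h'.z3 hn (h.comm _ a.1 _ b.1) (h'.comm _ a.2 _ b.2)

theorem zQ (h : ST z r Q s ρ X) {g : G} (hy : g * z * g⁻¹ ∈ Q) (hn : g * z * g⁻¹ ∉ zpowers z) : z ∈ cj g Q := by
  by_contra n
  have c1 := h.toE1.card_le_cent le_rfl hy
  have c2 := (h.conj g).exp3 (A := Q ⊓ 𝒞[g * z * g⁻¹]) inf_le_right fun a ha => h.exp a ha.1
  have c3 : Nat.card ↥(Q ⊓ 𝒞[g * z * g⁻¹] ⊓ cj g Q) ≤ Nat.card ↥(Q ⊓ cj g Q) :=
    card_le_of_le (inf_le_inf_right _ inf_le_left)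
  have c4 := h.card_bar' (A := Q ⊓ cj g Q) inf_le_left fun k => n k.2
  have c5 := iso h (h.toE1.conj g) hn
  rw [h.card_Q] at c1
  omega

theorem im27 (h : ST z r Q s ρ X) {g : G} (hy : g * z * g⁻¹ ∈ Q) (hn : g * z * g⁻¹ ∉ zpowers z) :
    27 ≤ Nat.card (h.im (cj g Q ⊓ 𝒞[z])) := by
  have hz := zQ h hy hn
  have c1 := (h.toE1.conj g).card_le_cent le_rfl hz
  have c2 := h.card_im (A := cj g Q ⊓ 𝒞[z]) inf_le_right
  have c3 : Nat.card ↥(cj g Q ⊓ 𝒞[z] ⊓ Q) ≤ Nat.card ↥(Q ⊓ cj g Q) :=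
    card_le_of_le fun a ha => ⟨ha.2, ha.1.1⟩
  have c4 := h.card_bar (A := Q ⊓ cj g Q) inf_le_left ⟨h.zQ, hz⟩
  have c5 := iso h (h.toE1.conj g) hn
  rw [card_cj, h.card_Q, c2] at c1
  by_contra n
  have := Nat.mul_le_mul (show Nat.card ↥(cj g Q ⊓ 𝒞[z] ⊓ Q) ≤ 243 by omega)
    (show Nat.card (h.im (cj g Q ⊓ 𝒞[z])) ≤ 26 by omega)
  omega

theorem e0_ne : e0 ≠ 0 := fun e => by simpa [e0] using congrFun e 0

omit [Finite G] in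
theorem yQ (h : ST z r Q s ρ X) {g : G} (Y : YD z Q s ρ g) : g * z * g⁻¹ ∈ Q ∧ g * z * g⁻¹ ∉ zpowers z := by
  obtain ⟨k, e | e⟩ := Y.ye
  · exact e ▸ ⟨(h.memQ _).2 ⟨_, _, rfl⟩, fun n => e0_ne (h.mem_Z.1 n)⟩
  · exact e ▸ ⟨(h.memQ _).2 ⟨_, _, rfl⟩, fun n => e0_ne (neg_eq_zero.1 (h.mem_Z.1 n))⟩

end StB

open StB

theorem ST.stB (h : ST z r Q s ρ X) (hT : T3 ≤ X) (w : ¬ WC z Q) : ∃ g, YD z Q s ρ g := by
  obtain ⟨g, hy, hn⟩ : ∃ g : G, g * z * g⁻¹ ∈ Q ∧ g * z * g⁻¹ ∉ zpowers z := by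
    by_contra n
    exact w fun g a => by_contra fun b => n ⟨g, a, b⟩
  have h' := h.toE1.conj g
  obtain ⟨f, hf, e⟩ := ab27 (A := h.im (cj g Q ⊓ 𝒞[z])) h.XH hT (fun x hx => by
      obtain ⟨c, -, hc, rfl⟩ := h.mem_im.1 hx
      exact h.rho_mem hc) (fun x hx => by
      obtain ⟨c, k, hc, rfl⟩ := h.mem_im.1 hx
      rw [← h.rho_pow hc, h'.exp c k.1, h.rho_one]) (le_cent_iff.2 fun x hx y hy' => by
      obtain ⟨a, ka, ha, rfl⟩ := h.mem_im.1 hx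
      obtain ⟨b, kb, hb, rfl⟩ := h.mem_im.1 hy'
      rw [← mul_inv_eq_iff_eq_mul, ← mul_inv_eq_one, ← h.rho_conj hb ha, ← h.rho_inv ha,
        ← h.hom _ (mul_mem (mul_mem hb ha) (inv_mem hb)) _ (inv_mem ha),
        h.ker (mul_mem (mul_mem (mul_mem hb ha) (inv_mem hb)) (inv_mem ha))]
      exact zpowers_le.2 hy (h'.comm b kb.1 a ka.1)) (im27 h hy hn)
  obtain ⟨k, hk, rfl⟩ := (h.img f).1 hf
  have jj : ∀ j ∈ J0, ∃ c ∈ cj (k * g) Q, c ∈ 𝒞[z] ∧ ρ c = j := fun j hj => by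
    obtain ⟨x, hx, rfl⟩ := mem_cj'.1 (e.ge hj)
    obtain ⟨c, kc, hc, rfl⟩ := h.mem_im.1 hx
    exact ⟨k * c * k⁻¹, by rw [cj_mul]; exact conj_mem_cj.2 kc.1, mul_mem (mul_mem hk hc) (inv_mem hk),
      h.rho_conj hk hc⟩
  have ey : k * g * z * (k * g)⁻¹ = k * (g * z * g⁻¹) * k⁻¹ := by group
  refine ⟨k * g, ?_, ?_, jj⟩
  · rw [cj_mul, ← Z_conj hk (mem_zpowers z)]
    exact conj_mem_cj.2 (zQ h hy hn)
  · obtain ⟨v, l, ev⟩ := (h.memQ _).1 (ey ▸ Fa.conjQ h.toE1 hk hy)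
    rcases fix_J0 (v := v) (fun j hj => by
      obtain ⟨c, kc, hc, rfl⟩ := jj j hj
      obtain ⟨m, em⟩ := h.act' hc v l
      rw [← ev, mem_cent1.1 ((h.toE1.conj (k * g)).Qc kc), mul_inv_cancel_right, ev] at em
      exact (h.uniq em).1.symm) with rfl | rfl | rfl
    · have : k * (g * z * g⁻¹) * k⁻¹ ∈ zpowers z := by rw [← ey, ev]; exact h.mem_Z.2 rfl
      rw [← Z_conj hk (mem_zpowers z), Bas1a.mz, Z_conj hk (mem_zpowers z)] at this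
      exact absurd this hn
    exacts [⟨l, .inl ev⟩, ⟨l, .inr ev⟩]

theorem ST.move (h : ST z r Q s ρ X) {d : Fin 4 → G} (D : DD z r ρ d) {g : G} (Y : YD z Q s ρ g) :
    ∃ w ∈ 𝒞[d 0], w * z * w⁻¹ ∈ Q ∧ w * z * w⁻¹ ∉ zpowers z := by
  obtain ⟨hy, hn⟩ := yQ h Y
  have h' := h.toE1.conj g
  have dy : d 0 ∈ 𝒞[g * z * g⁻¹] := by
    have k : ∀ v l, gd 0 • v = v → d 0 ∈ 𝒞[s v * zp z l] := fun v l e => by
      have := h.actL (D.dz 0) (D.dr 0) v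
      rw [D.rd, e, mul_inv_eq_iff_eq_mul] at this
      rw [mem_cent1, ← mul_assoc, this, mul_assoc, ← h.zp_cent (D.dz 0), mul_assoc]
    obtain ⟨l, e | e⟩ := Y.ye
    · exact e ▸ k _ _ gd_e0
    · exact e ▸ k _ _ (by rw [smul_neg, gd_e0])
  generalize g * z * g⁻¹ = y at *
  obtain ⟨q, hq, n⟩ := I1.exists_nc h' Y.zQ (I1.not_mem h.z3 h'.z3 hn)
  obtain ⟨u, hu, uy, uz⟩ := I1.flip (mem_cent1.1 (h'.Qc hq)) (I1.mv h' Y.zQ hq n)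
  have hu := zpowers_le.2 hq hu
  have hu' := Fa.conjQ h' dy hu
  have di : (d 0)⁻¹ = d 0 := inv_eq_of_mul_eq_one_right (D.sq 0)
  have dd : d 0 * (d 0 * u * (d 0)⁻¹) * (d 0)⁻¹ = u := by
    rw [di, ← mul_assoc, ← mul_assoc, D.sq, one_mul, mul_assoc, D.sq, mul_one]
  have u'z : d 0 * u * (d 0)⁻¹ * z * (d 0 * u * (d 0)⁻¹)⁻¹ = z * y := by
    conv_lhs => rw [← Z_conj (D.dz 0) (mem_zpowers z)]
    conv_rhs => rw [← Z_conj (D.dz 0) (mem_zpowers z), ← Z_conj dy (mem_zpowers y), conj_mul, ← uz]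
    group
  obtain ⟨u', eu⟩ : ∃ u', d 0 * u * (d 0)⁻¹ = u' := ⟨_, rfl⟩
  rw [eu] at hu' u'z dd
  have c := h'.comm u hu u' hu'
  have c1 : u * u' * u⁻¹ * u'⁻¹ = 1 := Fa.Z_sq h' c (by
    nth_rewrite 1 [← Z_conj dy c]
    rw [show d 0 * (u * u' * u⁻¹ * u'⁻¹) * (d 0)⁻¹ = d 0 * u * (d 0)⁻¹ * (d 0 * u' * (d 0)⁻¹) *
      (d 0 * u * (d 0)⁻¹)⁻¹ * (d 0 * u' * (d 0)⁻¹)⁻¹ by group, eu, dd]
    group)
  have e : u * u' * z * (u * u')⁻¹ = z * (y * y) := by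
    rw [show u * u' * z * (u * u')⁻¹ = u * (u' * z * u'⁻¹) * u⁻¹ by group, u'z, ← conj_mul, uz, uy.eq]
    group
  refine ⟨u * u', ?_, e ▸ mul_mem h.zQ (mul_mem hy hy), fun k => hn (Bas1a.sqZ h.toE1 hy ?_)⟩
  · rw [mem_cent1_comm, mem_cent1, ← mul_inv_eq_iff_eq_mul, ← conj_mul, eu, dd, eq_comm,
      ← mul_inv_eq_iff_eq_mul, ← mul_inv_eq_one, c1]
  · rwa [e, mul_mem_cancel_left (mem_zpowers z)] at k

theorem ST.real (h : ST z r Q s ρ X) {g : G} (Y : YD z Q s ρ g) : ∃ n ∈ Q ⊔ cj g Q, n * z * n⁻¹ = z⁻¹ := by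
  obtain ⟨hy, hn⟩ := yQ h Y
  have h' := h.toE1.conj g
  obtain ⟨q, hq, n⟩ := I1.exists_nc h.toE1 hy hn
  obtain ⟨q', hq', n'⟩ := I1.exists_nc h' Y.zQ (I1.not_mem h.z3 h'.z3 hn)
  obtain ⟨p, hp, p1, p2⟩ := I1.sl2E h.toE1 h' hy Y.zQ hq hq' n n'
  have hp : p ∈ Q ⊔ cj g Q := (closure_le _).2 (by
    rintro _ (rfl | rfl)
    exacts [mem_sup_left hq, mem_sup_right hq']) hp
  exact ⟨p * p, mul_mem hp hp, by rw [← p2, ← p1]; group⟩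

end Cfsg.Agent.B3
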