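/-
Project B3: the group is simple.
-/
import Cfsg.Agent.B3.StB
import Cfsg.Agent.H49.SylowOf
import Cfsg.Prelude.Def_Solvable

set_option autoImplicit false
set_option linter.unusedSectionVars false

namespace Cfsg.Agent.B3

open Subgroup H49 T3.Fr2 F3

attribute [local irreducible] gm

variable {G : Type*} [Group G] [Finite G] {z r : G} {Q : Subgroup G} {s : V → G} {ρ : G → GG} {X : Subgroup GG}

namespace Simple

theorem zcases {c : G} (z3 : orderOf z = 3) (hc : c ∈ zpowers z) (h1 : c ≠ 1) : c = z ∨ c = z⁻¹ := by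
  have e := zp_lg z3 hc
  have z' : z ^ 3 = 1 := z3 ▸ pow_orderOf_eq_one z
  generalize lg z c = i at e
  have hi : ∀ i : ZMod 3, i = 0 ∨ i = 1 ∨ i = 1 + 1 := by decide
  rcases hi i with rfl | rfl | rfl
  · exact absurd (by rw [← e, zp_zero]) h1
  · exact Or.inl (by rw [← e, zp_one])
  · refine Or.inr ?_
    rw [← e, zp_add z', zp_one]
    exact eq_inv_of_mul_eq_one_left (by rw [← z', pow_succ, pow_two])

theorem meet (N : Subgroup G) [hN : N.Normal] (h3 : 3 ∣ Nat.card N) (P : Sylow 3 G) : N ⊓ (P : Subgroup G) ≠ ⊥ := by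
  obtain ⟨x, hx⟩ := exists_prime_orderOf_dvd_card' 3 h3
  have hp : IsPGroup 3 (zpowers (x : G)) :=
    IsPGroup.of_card (n := 1) (by rw [Nat.card_zpowers, Subgroup.orderOf_coe, hx, pow_one])
  obtain ⟨P', hP'⟩ := hp.exists_le_sylow
  obtain ⟨g, rfl⟩ := MulAction.exists_smul_eq G P' P
  intro e
  have h1 : g * x * g⁻¹ ∈ N ⊓ ((g • P' : Sylow 3 G) : Subgroup G) := by
    refine mem_inf.2 ⟨hN.conj_mem _ x.2 g, ?_⟩
    rw [Sylow.coe_subgroup_smul, Subgroup.mem_pointwise_smul_iff_inv_smul_mem]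
    have : (MulAut.conj g)⁻¹ • (g * x * g⁻¹) = (x : G) := by
      simp [MulAut.smul_def, mul_assoc]
    rw [this]
    exact hP' (mem_zpowers _)
  rw [e, mem_bot, conj_eq_one_iff] at h1
  have : x = 1 := Subtype.ext h1
  rw [this, orderOf_one] at hx
  omega

theorem gT_not : gT 0 ∉ R0 := by
  rw [mem_R0, pk_gT]
  decide +kernel

end Simple

open Simple

theorem ST.simple (h : ST z r Q s ρ HH) (hO : Cfsg.pPrimeCore 3 G = ⊥) (w : ¬ WC z Q) {T : Type*} [Group T]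
    [IsSimpleGroup T] (θ : HH →* T) (hs : Function.Surjective θ) (hk : θ.ker = R0.subgroupOf HH) :
    IsSimpleGroup G := by
  have hz1 : z ≠ 1 := fun e => by have := h.z3; rw [e, orderOf_one] at this; omega
  have : Nontrivial G := ⟨⟨z, 1, hz1⟩⟩
  refine ⟨fun N hN => ?_⟩
  by_cases hb : N = ⊥
  · exact Or.inl hb
  right
  have h3 : 3 ∣ Nat.card N := by
    by_contra hn
    apply hb
    have : N ≤ Cfsg.pPrimeCore 3 G :=
      le_sSup ⟨hN, ((Nat.Prime.coprime_iff_not_dvd Nat.prime_three).2 hn).symm⟩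
    rw [hO] at this
    exact le_bot_iff.1 this
  obtain ⟨P, hP⟩ := h.toE1.isP.exists_le_sylow
  have cP : 𝒞((P : Subgroup G)) ≤ zpowers z := (centralizer_le hP).trans h.toE1.cQ
  -- `z ∈ N` and `z` centralises `P`
  have hzN : z ∈ N ⊓ (P : Subgroup G) ⊓ 𝒞((P : Subgroup G)) := by
    have hne := inf_center_ne_bot_of_nilpotent (N := N ⊓ (P : Subgroup G)) (K := P) P.isPGroup'.isNilpotent
      inf_le_right (le_norm_iff.2 fun a ha x hx =>
        mem_inf.2 ⟨hN.conj_mem _ hx.1 a, mul_mem (mul_mem ha hx.2) (inv_mem ha)⟩) (meet N h3 P)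
    obtain ⟨⟨c, hc⟩, c1⟩ := (ne_bot_iff_exists_ne_one).1 hne
    rcases zcases h.z3 (cP hc.2) (fun e => c1 (Subtype.ext e)) with e | e
    · exact e ▸ hc
    · have := inv_mem hc
      rwa [e, inv_inv] at this
  have zN : z ∈ N := hzN.1.1
  obtain ⟨g, Y⟩ := h.stB T3_le_HH w
  have ZN : zpowers z ≤ N := zpowers_le.2 zN
  -- `Q ≤ N`
  have bt : h.bar N = ⊤ := by
    refine R0_irr ?_ ?_
    · obtain ⟨k, e | e⟩ := Y.ye
      · exact ⟨k, e ▸ hN.conj_mem _ zN g⟩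
      · exact neg_mem_iff.1 (show -e0 ∈ h.bar N from ⟨k, e ▸ hN.conj_mem _ zN g⟩)
    · rintro a ha v ⟨k, hv⟩
      obtain ⟨c, hc, rfl⟩ := (h.img a).1 (h.RX ha)
      obtain ⟨l, e⟩ := h.act' hc v k
      exact ⟨l, e ▸ hN.conj_mem _ hv c⟩
  have QN : Q ≤ N := fun q hq => by
    obtain ⟨v, k, rfl⟩ := (h.memQ q).1 hq
    obtain ⟨l, hl⟩ : v ∈ h.bar N := bt ▸ AddSubgroup.mem_top v
    have h1 : s v ∈ N := by
      have := mul_mem hl (inv_mem (zp_mem zN l))
      rwa [mul_inv_cancel_right] at this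
    exact mul_mem h1 (zp_mem zN k)
  have QN' : cj g Q ≤ N := fun q hq => by
    obtain ⟨y, hy, rfl⟩ := mem_cj'.1 hq
    exact hN.conj_mem _ (QN hy) g
  -- the image of `N` is `HH`
  have nY : HH ≤ 𝒩(h.im N) := le_norm_iff.2 fun a ha x hx => by
    obtain ⟨c, hc, rfl⟩ := (h.img a).1 ha
    obtain ⟨n, hn, nz, rfl⟩ := h.mem_im.1 hx
    exact h.mem_im.2 ⟨c * n * c⁻¹, hN.conj_mem _ hn c, mul_mem (mul_mem hc nz) (inv_mem hc), h.rho_conj hc nz⟩
  have JY : J0 ≤ h.im N := fun j hj => by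
    obtain ⟨c, hc, cz, e⟩ := Y.jj j hj
    exact h.mem_im.2 ⟨c, QN' hc, cz, e⟩
  have RY : R0 ≤ h.im N := R0_le_of JY (R0_le_HH.trans nY)
  have nY' : ((h.im N).subgroupOf HH).Normal := ⟨fun x hx a => conj_mem_of_norm nY a.2 hx⟩
  have tY : ((h.im N).subgroupOf HH).map θ = ⊤ := by
    refine (IsSimpleGroup.eq_bot_or_eq_top_of_normal _ (nY'.map θ hs)).resolve_left fun e => gT_not ?_
    have h1 : (⟨gT 0, gT_mem 0⟩ : HH) ∈ θ.ker :=
      (Subgroup.map_eq_bot_iff _).1 e (mem_subgroupOf.2 (JY (subset_closure ⟨0, rfl⟩)))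
    exact mem_subgroupOf.1 (hk.le h1)
  have HY : HH ≤ h.im N := fun x hx => by
    obtain ⟨y, hy, e⟩ : θ ⟨x, hx⟩ ∈ ((h.im N).subgroupOf HH).map θ := tY ▸ mem_top _
    have h1 : y⁻¹ * ⟨x, hx⟩ ∈ θ.ker := by rw [MonoidHom.mem_ker, map_mul, map_inv, e, inv_mul_cancel]
    rw [hk] at h1
    have h2 : (y : GG) * ((y : GG)⁻¹ * x) ∈ h.im N := mul_mem hy (RY h1)
    rwa [mul_inv_cancel_left] at h2
  have CN : 𝒞[z] ≤ N := fun c hc => by
    obtain ⟨n, hn, nz, e⟩ := h.mem_im.1 (HY (h.rho_mem hc))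
    have h1 : n⁻¹ * c ∈ Q := (h.ker (mul_mem (inv_mem nz) hc)).1 (by
      rw [h.hom _ (inv_mem nz) _ hc, h.rho_inv nz, e, inv_mul_cancel])
    have h2 := mul_mem hn (QN h1)
    rwa [mul_inv_cancel_left] at h2
  obtain ⟨n, hn, en⟩ := h.real Y
  have nN : n ∈ N := sup_le QN QN' hn
  have PN : (P : Subgroup G) ≤ N := fun x hx =>
    CN (mem_cent1.2 (mem_centralizer_iff.1 hzN.2 x hx))
  have nP : normalizer (P : Set G) ≤ N := fun a ha => by
    have ha' : a ∈ 𝒩((P : Subgroup G)) := ha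
    have h1 : a * z * a⁻¹ ∈ 𝒞((P : Subgroup G)) := by
      rw [← cj_eq_of_mem_norm ha', ← cj_centralizer, conj_mem_cj]
      exact hzN.2
    rcases zcases h.z3 (cP h1) (by rwa [Ne, conj_eq_one_iff]) with e | e
    · exact CN (mem_cent1.2 (mul_inv_eq_iff_eq_mul.1 e))
    · have h2 : n⁻¹ * a ∈ 𝒞[z] := mem_cent1.2 (by
        have : a * z * a⁻¹ = n * z * n⁻¹ := e.trans en.symm
        calc n⁻¹ * a * z = n⁻¹ * (a * z * a⁻¹) * a := by group
          _ = z * (n⁻¹ * a) := by rw [this]; group)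
      have h3 := mul_mem nN (CN h2)
      rwa [mul_inv_cancel_left] at h3
  have := Sylow.normalizer_sup_eq_top' P PN
  rwa [sup_eq_right.2 nP] at this

end Cfsg.Agent.B3
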