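/-
Project B3: `⟨z⟩` is not weakly closed in `Q`.
-/
import Cfsg.Agent.B3.Bas
import Cfsg.Agent.B3.Lin
import Cfsg.Agent.B3.ModU

set_option autoImplicit false

namespace Cfsg.Agent.B3

open Subgroup H49 T3.Fr2 F3

variable {G : Type*} [Group G] [Finite G] {z r : G} {Q : Subgroup G} {s : V → G} {ρ : G → GG} {X : Subgroup GG}

theorem ST.exp3 (h : ST z r Q s ρ X) {A : Subgroup G} (hA : A ≤ 𝒞[z]) (h3 : ∀ a ∈ A, a ^ 3 = 1) :
    Nat.card A ≤ 27 * Nat.card ↥(A ⊓ Q) := by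
  rw [h.card_im hA, mul_comm]
  refine Nat.mul_le_mul_right _ (exp3_le (fun x hx => ?_) fun x hx => ?_)
  · obtain ⟨g, -, hg, rfl⟩ := h.mem_im.1 hx
    exact h.XH (h.rho_mem hg)
  · obtain ⟨g, a, hg, rfl⟩ := h.mem_im.1 hx
    rw [← h.rho_pow hg, h3 g a, h.rho_one]

namespace StA

attribute [local irreducible] om

omit [Finite G] in
theorem gen3 (h : orderOf z = 3) {c : G} (hc : c ∈ zpowers z) {H : Subgroup G} (hz : z ∉ H) (m : c ∈ H) :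
    c = 1 := by
  have e := zp_lg h hc
  have z3 : z ^ 3 = 1 := h ▸ pow_orderOf_eq_one z
  generalize lg z c = k at e
  subst e
  have : k = 0 ∨ k = 1 ∨ k + k = 1 := by clear hc m; revert k; decide
  rcases this with e | e | e
  · rw [e, zp_zero]
  · rw [e, zp_one] at m; exact (hz m).elim
  · have := mul_mem m m
    rw [← zp_add z3, e, zp_one] at this; exact (hz this).elim

/-- a conjugate of `z` in `C(z) ∖ Q` -/
structure PA (z : G) (Q : Subgroup G) (g : G) : Prop where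
  e : E1 z Q
  w : WC z Q
  yz : g * z * g⁻¹ ∈ 𝒞[z]
  yQ : g * z * g⁻¹ ∉ Q

variable {g : G}

omit [Finite G] in
theorem PA.zQ (a : PA z Q g) : z ∉ cj g Q := fun m => by
  have k := a.w g⁻¹ (by rw [inv_inv]; exact mem_cj.1 m)
  have := gen3 a.e.z3 k (H := cj g⁻¹ Q) (fun m => a.yQ (by simpa using mem_cj.1 m))
    (cj_mono _ (zpowers_le.2 a.e.zQ) (by
      rw [cj_zpowers]; exact mem_zpowers _))
  have e := a.e.z3
  rw [show z = 1 from conj_eq_one_iff.1 this, orderOf_one] at e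
  omega

omit [Finite G] in
theorem PA.symm (a : PA z Q g) : PA (g * z * g⁻¹) (cj g Q) g⁻¹ :=
  have e : g⁻¹ * (g * z * g⁻¹) * g⁻¹⁻¹ = z := by group
  ⟨a.e.conj g, a.w.conj g, by rw [e]; exact mem_cent1_comm.1 a.yz, by rw [e]; exact a.zQ⟩

omit [Finite G] in
theorem PA.cj (a : PA z Q g) {q : G} (hq : q ∈ Q) : PA z Q (q * g) :=
  have e : q * g * z * (q * g)⁻¹ = q * (g * z * g⁻¹) * q⁻¹ := by group
  ⟨a.e, a.w, by rw [e]; exact conj_mem_of_norm (norm_of_le a.e.Qc) hq a.yz, by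
    rw [e, mul_mem_cancel_right (inv_mem hq), mul_mem_cancel_left hq]; exact a.yQ⟩

omit [Finite G] in
theorem PA.K (a : PA z Q g) {u : G} (hu : u ∈ Q ⊓ H49.cj g Q) (c : IsConj (g * z * g⁻¹) (u * (g * z * g⁻¹))) :
    u = 1 := by
  obtain ⟨k, e⟩ := isConj_iff.1 c
  have := a.symm.w k (by rw [e]; exact mul_mem hu.2 a.symm.e.zQ)
  rw [e, mul_mem_cancel_right (mem_zpowers _)] at this
  exact gen3 a.symm.e.z3 this a.yQ hu.1

omit [Finite G] in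
theorem PA.cen (a : PA z Q g) {u c : G} (hu : u ∈ Q ⊓ H49.cj g Q) (hc : c ∈ Q ⊓ 𝒞[g * z * g⁻¹]) :
    c * u = u * c := by
  have := gen3 a.e.z3 (a.e.comm c hc.1 u hu.1) a.zQ
    (mul_mem (conj_mem_of_norm (Fa.cQ a.symm.e) hc.2 hu.2) (inv_mem hu.2))
  rwa [mul_inv_eq_one, mul_inv_eq_iff_eq_mul] at this

omit [Finite G] in
theorem conj_y (h : ST z r Q s ρ X) {l : G} (hz : l ∈ 𝒞[z]) (hr : l ∈ 𝒞[r]) (q v : V) (k : F) :
    s q * l * (s v * zp z k) * (s q * l)⁻¹ = s (ρ l • v) * zp z (k - om q (ρ l • v)) := by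
  have := h.conj_s q (ρ l • v) 0 k
  rw [zp_zero, mul_one] at this
  rw [← this, ← h.actL hz hr, mul_assoc _ l⁻¹, ← h.zp_cent (inv_mem hz)]; group

omit [Finite G] in
theorem cent_iff (h : ST z r Q s ρ X) {l : G} (hz : l ∈ 𝒞[z]) (hr : l ∈ 𝒞[r]) (q v : V) (k : F) :
    s v * zp z k ∈ 𝒞[s q * l] ↔ ρ l • v = v ∧ om q v = 0 := by
  rw [mem_cent1, eq_comm, ← mul_inv_eq_iff_eq_mul, conj_y h hz hr]
  refine ⟨fun e => ?_, fun e => by rw [e.1, e.2, sub_zero]⟩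
  obtain ⟨a, b⟩ := h.uniq e
  exact ⟨a, by simpa [a] using b⟩

omit [Finite G] in
theorem conj_w (h : ST z r Q s ρ X) {l : G} (hz : l ∈ 𝒞[z]) (hr : l ∈ 𝒞[r]) (q w : V) (k : F) :
    (s w)⁻¹ * (zp z k * (s q * l)) * (s w)⁻¹⁻¹ =
      s (ρ l • w - w) * zp z (k - om w (ρ l • w) - om q (ρ l • w)) * (s q * l) := by
  have := conj_y h hz hr q w 0
  rw [zp_zero, mul_one, mul_inv_eq_iff_eq_mul] at this
  rw [inv_inv, mul_assoc, mul_assoc, this, ← h.s_neg, ← mul_assoc (s (-w)), ← mul_assoc (s (-w) * _), h.mul',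
    om_neg_left, neg_add_eq_sub, show ∀ a b c : F, -a + b + (0 - c) = b - a - c from fun a b c => by ring]

omit [Finite G] in
theorem wlog (h : ST z r Q s ρ X) {y : G} (hy : y ∈ 𝒞[z]) : (∃ q ∈ Q, q * y * q⁻¹ ∈ 𝒞[r]) ∨
    ∃ l ∈ 𝒞[z], l ∈ 𝒞[r] ∧ ∃ q v, y = s q * l ∧ ρ l • v = v ∧ om q v = 1 := by
  obtain ⟨l, hz, hr, -, q, rfl⟩ := h.dec hy
  by_cases c : ∀ v ∈ Fix (ρ l), om q v = 0
  · obtain ⟨w, rfl⟩ := range_of_perp (h.XH (h.rho_mem hz)) c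
    have := conj_w h hz hr 0 w (om w (ρ l • w))
    rw [h.s_zero, one_mul, sub_self, om_zero_left, sub_self, zp_zero, mul_one] at this
    refine Or.inl ⟨s w, h.s_mem w, ?_⟩
    rw [← this, show ∀ a b : G, a * (a⁻¹ * b * a⁻¹⁻¹) * a⁻¹ = b from fun a b => by group]
    exact mul_mem (mem_cent1.2 (h.zp_cent h.rz _)) hr
  · push Not at c
    obtain ⟨v, hv, e⟩ := c
    refine Or.inr ⟨l, hz, hr, q, om q v • v, rfl, by rw [smul_comm, hv], ?_⟩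
    rw [om_smul_right]
    revert e; generalize om q v = k; revert k; decide

omit [Finite G] in
/-- the second case -/
theorem PA.bot (a : PA z Q g) (h : ST z r Q s ρ X) {l : G} (hz : l ∈ 𝒞[z]) (hr : l ∈ 𝒞[r]) {q v1 : V}
    (e : g * z * g⁻¹ = s q * l) (h1 : ρ l • v1 = v1) (h2 : om q v1 = 1) : Q ⊓ H49.cj g Q = ⊥ := by
  have c1 : ∀ k, IsConj (s q * l) (zp z k * (s q * l)) := fun k => isConj_iff.2 ⟨(s (-k • v1))⁻¹, by
    have := conj_w h hz hr q (-k • v1) 0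
    rwa [zp_zero, one_mul, smul_comm, h1, sub_self, h.s_zero, one_mul, om_self, om_smul_right, h2, mul_one,
      sub_self, zero_sub, neg_neg] at this⟩
  have c2 : ∀ w k, IsConj (s q * l) (s (ρ l • w - w) * zp z k * (s q * l)) := fun w k =>
    (c1 (k + om w (ρ l • w) + om q (ρ l • w))).trans (isConj_iff.2 ⟨(s w)⁻¹, by
      rw [conj_w h hz hr, show ∀ a b c : F, a + b + c - b - c = a from fun a b c => by ring]⟩)
  have key : ∀ v k, s v * zp z k ∈ Q ⊓ H49.cj g Q → om v v1 = 0 ∨ om v v1 = 1 → s v * zp z k = 1 := by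
    intro v k hu hv
    obtain ⟨w, hw⟩ := range_of_perp (h.XH (h.rho_mem hz)) (q := v - om v v1 • q) fun x hx => by
      have m : s (x - om q x • v1) * zp z 0 ∈ Q ⊓ 𝒞[g * z * g⁻¹] := mem_inf.2 ⟨(h.memQ _).2 ⟨_, _, rfl⟩, by
        rw [e, cent_iff h hz hr, smul_sub, smul_comm, h1, mem_Fix.1 hx, om_sub_right, om_smul_right, h2]
        exact ⟨rfl, by ring⟩⟩
      have := (h.comm_iff v _ k 0).1 (a.cen hu m).symm
      rw [om_sub_right, om_smul_right] at this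
      rw [om_sub_left, om_smul_left]
      linear_combination this
    refine a.K hu ?_
    rw [e]
    rcases hv with hv | hv
    · rw [hv, zero_smul, sub_zero] at hw
      exact hw ▸ c2 w k
    · rw [hv, one_smul] at hw
      refine (c2 (-w) (om v q + k + om (-(v + q)) (-q))).trans (isConj_iff.2 ⟨r, ?_⟩).symm
      have e1 : ρ l • -w - -w = -(v + q) + -q := by
        have : (3 : F) • q = 0 := by rw [show (3 : F) = 0 from rfl, zero_smul]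
        rw [smul_neg, ← neg_sub', ← hw]
        linear_combination (norm := module) this
      have e2 := h.mul' v q k 0
      have e3 := h.mul' (-(v + q)) (-q) (om v q + k) 0
      simp only [zp_zero, mul_one, add_zero] at e2 e3
      rw [e1, add_comm _ (om (-(v + q)) (-q)), ← e3, h.s_neg q, mul_assoc _ (s q)⁻¹, inv_mul_cancel_left, ← mul_assoc,
        ← mul_assoc, mul_assoc r, mul_assoc r, e2, ← h.rs, mul_assoc _ r⁻¹, ← h.zp_cent (inv_mem h.rz),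
        mul_assoc (r * _) (_ * r⁻¹), mul_assoc _ r⁻¹, mem_cent1.1 (inv_mem (mem_cent1_comm.1 hr))]
      group
  refine (eq_bot_iff_forall _).2 fun u hu => ?_
  obtain ⟨v, k, rfl⟩ := (h.memQ u).1 hu.1
  have : om v v1 = 0 ∨ om v v1 = 1 ∨ -om v v1 = 1 := by generalize om v v1 = m; revert m; decide
  rcases this with t | t | t
  exacts [key v k hu (.inl t), key v k hu (.inr t),
    inv_eq_one.1 (h.inv' v k ▸ key _ _ (h.inv' v k ▸ inv_mem hu) (.inr (by rwa [om_neg_left])))]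

omit [Finite G] in
theorem PA.sec (a : PA z Q g) (h : ST z r Q s ρ X) (hr : g * z * g⁻¹ ∈ 𝒞[r]) {v : V} {k : F}
    (hu : s v * zp z k ∈ H49.cj g Q) : s v ∈ H49.cj g Q := by
  have m := mul_mem (conj_mem_of_norm (Fa.cQ a.symm.e) (mem_cent1_comm.1 hr) hu) hu
  rw [← mul_assoc r, mul_assoc _ (zp z k), h.zp_cent (inv_mem h.rz), ← mul_assoc (r * _), h.rs, h.mul',
    neg_add_cancel, h.s_zero, one_mul, om_neg_left, om_self, neg_zero, zero_add] at m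
  have := zp_inj h.z3 ((gen3 h.z3 (zp_mem (mem_zpowers z) _) a.zQ m).trans (zp_zero z).symm)
  rwa [show k = 0 by revert this; generalize k = k; revert k; decide, zp_zero, mul_one] at hu

omit [Finite G] in
theorem PA.aniso (a : PA z Q g) (h : ST z r Q s ρ X) (hr : g * z * g⁻¹ ∈ 𝒞[r]) {v w : V}
    (e : v = ρ (g * z * g⁻¹) • w - w) (e0 : om w v = 0) (hu : s v ∈ H49.cj g Q) : v = 0 := by
  have := conj_w h a.yz hr 0 w 0
  rw [h.s_zero, zp_zero, one_mul, one_mul, ← e, om_zero_left, sub_zero, eq_add_of_sub_eq e.symm, om_add_right, e0,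
    om_self, add_zero, sub_zero, zp_zero, mul_one] at this
  exact h.inj v (a.K ⟨h.s_mem v, hu⟩ (isConj_iff.2 ⟨_, this⟩) ▸ one_mem _)

omit [Finite G] in
theorem ab_of (h : ST z r Q s ρ X) {C : Subgroup G} (hC : C ≤ Q) (i : ∀ v ∈ h.bar C, ∀ w ∈ h.bar C, om v w = 0) :
    C ≤ 𝒞(C) := fun c hc d hd => by
  obtain ⟨v, k, rfl⟩ := (h.memQ c).1 (hC hc)
  obtain ⟨w, l, rfl⟩ := (h.memQ d).1 (hC hd)
  exact (h.comm_iff ..).2 (i w ⟨l, hd⟩ v ⟨k, hc⟩)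

theorem PA.main (a : PA z Q g) (h : ST z r Q s ρ X) :
    Q ⊓ 𝒞[g * z * g⁻¹] ≤ 𝒞(Q ⊓ 𝒞[g * z * g⁻¹]) ∧
      27 * Nat.card ↥(Q ⊓ H49.cj g Q) ≤ Nat.card ↥(Q ⊓ 𝒞[g * z * g⁻¹]) := by
  have pre : ∀ {g : G}, PA z Q g → ρ (g * z * g⁻¹) ^ 3 = 1 ∧
      Nat.card ↥(Q ⊓ 𝒞[g * z * g⁻¹]) ≤ 27 * Nat.card ↥(Q ⊓ H49.cj g Q) ∧
      Nat.card ↥(Q ⊓ 𝒞[g * z * g⁻¹]) = 3 * Nat.card (h.bar (Q ⊓ 𝒞[g * z * g⁻¹])) ∧
      ∃ U : AddSubgroup V, Nat.card U = 9 ∧ U ≤ Fix (ρ (g * z * g⁻¹)) ∧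
        (∀ u ∈ U, ∀ v ∈ Fix (ρ (g * z * g⁻¹)), om u v = 0) ∧
        ∀ u ∈ U, ∃ w, u = ρ (g * z * g⁻¹) • w - w ∧ om w u = 0 := fun {g} a => by
    have t3 : ρ (g * z * g⁻¹) ^ 3 = 1 := by rw [← h.rho_pow a.yz, a.symm.e.exp _ a.symm.e.zQ, h.rho_one]
    have tH := h.XH (h.rho_mem a.yz)
    obtain ⟨U, u1, u2⟩ := hasU tH t3 fun e => a.yQ ((h.ker a.yz).1 e)
    refine ⟨t3, ((h.conj g).exp3 inf_le_right fun c hc => h.exp c hc.1).trans
      (Nat.mul_le_mul_left _ (card_le_of_le (inf_le_inf_right _ inf_le_left))),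
      h.card_bar inf_le_left ⟨h.zQ, mem_cent1_comm.1 a.yz⟩, U, u1, fun u hu => (u2 u hu).1, fun u hu v hv => ?_,
      fun u hu => (u2 u hu).2⟩
    obtain ⟨-, w, rfl, -⟩ := u2 u hu
    rw [om_sub_left, ← om_smul tH w v, mem_Fix.1 hv, sub_self]
  rcases wlog h a.yz with ⟨q, hq, hr⟩ | ⟨l, hz, hr, q, v1, e, h1, h2⟩
  · have ey : q * g * z * (q * g)⁻¹ = q * (g * z * g⁻¹) * q⁻¹ := by group
    have e1 : H49.cj q (Q ⊓ 𝒞[g * z * g⁻¹]) = Q ⊓ 𝒞[q * g * z * (q * g)⁻¹] := by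
      rw [cj_inf, cj_cent1, cj_eq_of_mem hq, ey]
    have e2 : H49.cj q (Q ⊓ H49.cj g Q) = Q ⊓ H49.cj (q * g) Q := by rw [cj_inf, cj_cj, cj_eq_of_mem hq]
    rw [← abelian_iff, ← isMulCommutative_cj (g := q), ← card_cj q (Q ⊓ 𝒞[_]), ← card_cj q (Q ⊓ H49.cj _ _), e1, e2,
      abelian_iff]
    rw [← ey] at hr
    have a := a.cj hq
    generalize q * g = g at a hr
    obtain ⟨-, p1, p2, U, u1, u2, u3, u4⟩ := pre a
    have ci := fun v k => cent_iff h a.yz hr 0 v k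
    simp only [h.s_zero, one_mul, om_zero_left, and_true] at ci
    have b1 : h.bar (Q ⊓ 𝒞[g * z * g⁻¹]) = Fix (ρ (g * z * g⁻¹)) := AddSubgroup.ext fun v =>
      ⟨fun ⟨k, m⟩ => (ci v k).1 m.2, fun m => ⟨0, (h.memQ _).2 ⟨_, _, rfl⟩, (ci v 0).2 m⟩⟩
    have b2 := h.card_bar' (A := Q ⊓ H49.cj g Q) inf_le_left fun m => a.zQ m.2
    obtain ⟨c1, c2⟩ := card_mul_le u2 (D := h.bar (Q ⊓ H49.cj g Q))
      (fun v ⟨k, m⟩ => (ci v k).1 (a.symm.e.Qc m.2)) fun v hv ⟨k, m⟩ =>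
        let ⟨_, e, e0⟩ := u4 v hv
        a.aniso h hr e e0 (a.sec h hr m.2)
    rw [b1] at p2
    refine ⟨ab_of h inf_le_left fun v hv w hw => ?_, by rw [u1] at c1; omega⟩
    obtain ⟨u, hu, x, ⟨k, m⟩, rfl⟩ := c2 (by rw [u1]; omega) v (b1 ▸ hv)
    obtain ⟨l, hl⟩ := hw
    rw [om_add_left, u3 u hu w (b1 ▸ ⟨l, hl⟩), (h.comm_iff ..).1 (a.cen m hl).symm, add_zero]
  · obtain ⟨t3, p1, p2, U, u1, u2, u3, -⟩ := pre a
    have er : ρ (g * z * g⁻¹) = ρ l := by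
      rw [e, h.hom _ (h.Qc (h.s_mem q)) _ hz, (h.ker (h.Qc (h.s_mem q))).2 (h.s_mem q), one_mul]
    obtain ⟨C, c1, c2⟩ := card_hyp (Fix (ρ l)) q
    have b1 : h.bar (Q ⊓ 𝒞[g * z * g⁻¹]) = C := AddSubgroup.ext fun v => by
      rw [c1, e]
      exact ⟨fun ⟨k, m⟩ => (cent_iff h hz hr q v k).1 m.2,
        fun m => ⟨0, (h.memQ _).2 ⟨_, _, rfl⟩, (cent_iff h hz hr q v 0).2 m⟩⟩
    have c3 := card_Fix t3
    rw [a.bot h hz hr e h1 h2, card_bot] at p1 ⊢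
    rw [er] at c3 u2 u3
    rw [b1] at p2
    refine ⟨ab_of h inf_le_left fun v hv w hw => ?_, by omega⟩
    rw [b1, c1] at hv hw
    exact iso_of_le u2 u3 (by omega) v hv.1 w hw.1

theorem PA.fin (a : PA z Q g) (h : ST z r Q s ρ X) (c : g * z * g⁻¹ ∈ 𝒞[r] ∨ Q ⊓ H49.cj g Q = ⊥)
    (hJ : ∀ j ∈ J0, ∃ x ∈ H49.cj g Q ⊓ 𝒞[z], ρ x = j) (hy : ρ (g * z * g⁻¹) ∈ J0) : False := by
  have fx : ∀ v k, (∀ x ∈ H49.cj g Q ⊓ 𝒞[z], x * (s v * zp z k) * x⁻¹ = s v * zp z k) →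
      v = 0 ∨ v = e0 ∨ v = -e0 := fun v k m => fix_J0 fun j hj => by
    obtain ⟨x, hx, rfl⟩ := hJ j hj
    obtain ⟨l, e⟩ := h.act' hx.2 v k
    exact (h.uniq (e.symm.trans (m x hx))).1
  by_cases b : Q ⊓ H49.cj g Q = ⊥
  · have c1 := (a.main h).2
    have c2 : h.bar (Q ⊓ 𝒞[g * z * g⁻¹]) ≤ AddSubgroup.zmultiples e0 := fun v ⟨k, m⟩ => by
      rcases fx v k fun x hx => mul_inv_eq_one.1 (mem_bot.1 (b ▸ mem_inf.2
        ⟨mul_mem (conj_mem_of_norm (Fa.cQ a.e) hx.2 m.1) (inv_mem m.1), by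
          rw [mul_assoc, mul_assoc, ← mul_assoc (s v * zp z k)]
          exact mul_mem hx.1 (conj_mem_of_norm (Fa.cQ a.symm.e) m.2 (inv_mem hx.1))⟩)) with rfl | rfl | rfl
      exacts [zero_mem _, AddSubgroup.mem_zmultiples _, neg_mem (AddSubgroup.mem_zmultiples _)]
    have c3 := AddSubgroup.card_le_of_le c2
    have c4 : addOrderOf e0 ≤ 3 := addOrderOf_le_of_nsmul_eq_zero (by norm_num) (by decide)
    rw [b, card_bot, h.card_bar inf_le_left ⟨h.zQ, mem_cent1_comm.1 a.yz⟩] at c1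
    rw [Nat.card_zmultiples] at c3
    omega
  · have hr := c.resolve_right b
    obtain ⟨u, hu, u1⟩ := ne_bot_iff_exists.1 b
    obtain ⟨v, k, rfl⟩ := (h.memQ u).1 hu.1
    obtain ⟨w, e, e1⟩ := e0_im hy fun e => a.yQ ((h.ker a.yz).1 e)
    have m := a.sec h hr hu.2
    have ne : e0 ≠ 0 := by decide
    rcases fx v k fun x hx => mul_inv_eq_iff_eq_mul.2 (a.symm.cen (u := s v * zp z k)
      ⟨hu.2, by rw [cj_cj, inv_mul_cancel, cj_one]; exact hu.1⟩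
      ⟨hx.1, by rw [show g⁻¹ * (g * z * g⁻¹) * g⁻¹⁻¹ = z by group]; exact hx.2⟩) with rfl | rfl | rfl
    · exact u1 (gen3 h.z3 (h.mem_Z.2 rfl) a.zQ hu.2)
    · exact ne (a.aniso h hr e e1 m)
    · exact ne (a.aniso h hr e e1 (by rwa [h.s_neg, inv_mem_iff] at m))

end StA

open StA in
theorem ST.nwc (h : ST z r Q s ρ X) {g : G} (hy : g * z * g⁻¹ ∈ 𝒞[z]) (hn : g * z * g⁻¹ ∉ zpowers z) :
    ¬ WC z Q := fun w => by
  have a : PA z Q g := ⟨h.toE1, w, hy, fun m => hn (w g m)⟩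
  obtain ⟨g, a, c⟩ : ∃ g, PA z Q g ∧ (g * z * g⁻¹ ∈ 𝒞[r] ∨ Q ⊓ cj g Q = ⊥) := by
    rcases StA.wlog h hy with ⟨q, hq, hr⟩ | ⟨l, hz, hr, q, v1, e, h1, h2⟩
    · exact ⟨_, a.cj hq, .inl (by rwa [show q * g * z * (q * g)⁻¹ = q * (g * z * g⁻¹) * q⁻¹ by group])⟩
    · exact ⟨g, a, .inr (a.bot h hz hr e h1 h2)⟩
  obtain ⟨p1, p2⟩ := a.symm.main (h.conj g)
  rw [show g⁻¹ * (g * z * g⁻¹) * g⁻¹⁻¹ = z by group] at p1 p2
  rw [cj_cj, inv_mul_cancel, cj_one, h.card_im (A := cj g Q ⊓ 𝒞[z]) inf_le_right,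
    show cj g Q ⊓ 𝒞[z] ⊓ Q = cj g Q ⊓ Q from by rw [inf_assoc, inf_eq_right.2 h.Qc], mul_comm] at p2
  obtain ⟨f, hf, e⟩ := ab27 le_rfl T3_le_HH (A := h.im (cj g Q ⊓ 𝒞[z]))
    (fun x hx => by
      obtain ⟨c, -, hc, rfl⟩ := h.mem_im.1 hx
      exact h.XH (h.rho_mem hc))
    (fun x hx => by
      obtain ⟨c, m, hc, rfl⟩ := h.mem_im.1 hx
      rw [← h.rho_pow hc, a.symm.e.exp c m.1, h.rho_one])
    (fun x hx y hy => by
      obtain ⟨c, m, hc, rfl⟩ := h.mem_im.1 hx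
      obtain ⟨d, n, hd, rfl⟩ := h.mem_im.1 hy
      rw [← h.hom _ hd _ hc, ← h.hom _ hc _ hd, p1 m d n])
    (Nat.le_of_mul_le_mul_left p2 Nat.card_pos)
  refine a.fin (h.recoord hf) c (fun j hj => ?_) ?_
  · obtain ⟨x, hx, rfl⟩ := mem_cj'.1 (e ▸ hj)
    obtain ⟨c, m, -, rfl⟩ := h.mem_im.1 hx
    exact ⟨c, m, rfl⟩
  · exact e ▸ conj_mem_cj.2 (h.mem_im.2 ⟨_, ⟨a.symm.e.zQ, a.yz⟩, a.yz, rfl⟩)

end Cfsg.Agent.B3
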