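/-
Project B3: the double cover in the centraliser of `d 0` is a standard subgroup.
-/
import Cfsg.Agent.B3.Cd
import Cfsg.Agent.H44.Subnormal
import Cfsg.Prelude.Def_Local
import Cfsg.Prelude.Def_SporadicB

set_option autoImplicit false
set_option linter.unusedSectionVars false

namespace Cfsg.Agent.B3

open Subgroup H49 T3.Fr2 F3
open scoped commutatorElement

attribute [local irreducible] gm

variable {G : Type*} [Group G] [Finite G] {z r : G} {Q : Subgroup G} {s : V → G} {ρ : G → GG} {X : Subgroup GG}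

namespace StdA

theorem cube6 {Γ : Type*} [Group Γ] (h : Nat.card Γ ∣ 6) (a b : Γ) : (a * b * a⁻¹ * b⁻¹) ^ 3 = 1 := by
  have hn : Nat.card Γ ≠ 0 := fun e => by rw [e] at h; omega
  have : Finite Γ := Nat.finite_of_card_ne_zero hn
  have hle : Nat.card Γ ≤ 6 := Nat.le_of_dvd (by norm_num) h
  have hc : Nat.card Γ = 1 ∨ Nat.card Γ = 2 ∨ Nat.card Γ = 3 ∨ Nat.card Γ = 6 := by
    generalize Nat.card Γ = n at *
    interval_cases n <;> simp_all
  rcases hc with e | e | e | e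
  · have := (Nat.card_eq_one_iff_unique.1 e).1
    exact Subsingleton.elim _ _
  · have : Fact (Nat.Prime 2) := ⟨Nat.prime_two⟩
    have := isCyclic_of_prime_card e
    have c : a * b = b * a := (IsCyclic.commGroup (α := Γ)).mul_comm a b
    rw [c]; simp
  · rw [← e]; exact pow_card_eq_one'
  · obtain ⟨x, hx⟩ := exists_prime_orderOf_dvd_card' (G := Γ) 3 (by rw [e]; norm_num)
    have c3 : Nat.card (zpowers x) = 3 := by rw [Nat.card_zpowers, hx]
    have i2 : (zpowers x).index = 2 := by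
      have := (zpowers x).card_mul_index
      rw [c3, e] at this
      omega
    have m : a * b * a⁻¹ * b⁻¹ ∈ zpowers x := by
      simp only [mul_mem_iff_of_index_two i2, inv_mem_iff]
      tauto
    have := pow_card_eq_one' (G := zpowers x) (x := ⟨_, m⟩)
    rw [c3] at this
    exact congrArg Subtype.val this

theorem two_cases {d c : G} (hd : orderOf d = 2) (hc : c ∈ zpowers d) : c = 1 ∨ c = d := by
  classical
  obtain ⟨n, hn, rfl⟩ := Finset.mem_image.1 ((mem_zpowers_iff_mem_range_orderOf).1 hc)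
  rw [hd, Finset.mem_range] at hn
  interval_cases n <;> simp

theorem lift (h : ST z r Q s ρ HH) {d : Fin 4 → G} (D : DD z r ρ d) {x : GG} (hx : x ∈ KK) :
    ∃ l : 𝒞[d 0], (l : G) ∈ 𝒞[z] ∧ (l : G) ∈ 𝒞[r] ∧ ρ l = x := by
  obtain ⟨l, lz, lr, e⟩ := h.liftL (mem_KK.1 hx).1
  have c : Commute l (d 0) := h.commL lz lr (D.dz 0) (D.dr 0) (by rw [e, D.rd]; exact (mem_KK.1 hx).2 0)
    (by rw [show d 0 ^ 4 = d 0 * d 0 * (d 0 * d 0) by simp only [pow_succ, pow_zero, one_mul, mul_assoc], D.sq, one_mul])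
  exact ⟨⟨l, mem_cent1.2 c.eq⟩, lz, lr, e⟩

theorem liftM (h : ST z r Q s ρ HH) {d : Fin 4 → G} (D : DD z r ρ d) (M : Subgroup 𝒞[d 0]) [M.Normal]
    (hi : M.index ∣ 6) {t k u : GG} (ht : t ∈ KK) (hk : k ∈ KK) (hu : u ^ 4 = 1) (e : u = t * k * t⁻¹ * k⁻¹) :
    ∃ U ∈ M, (U : G) ∈ 𝒞[z] ∧ (U : G) ∈ 𝒞[r] ∧ ρ U = u := by
  obtain ⟨a, az, ar, ea⟩ := lift h D ht
  obtain ⟨b, bz, br, eb⟩ := lift h D hk
  have m : (a * b * a⁻¹ * b⁻¹) ^ 3 ∈ M := by
    rw [← QuotientGroup.eq_one_iff]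
    simpa using cube6 (Γ := 𝒞[d 0] ⧸ M) hi (a : 𝒞[d 0] ⧸ M) (b : 𝒞[d 0] ⧸ M)
  have cz : (a : G) * b * (a : G)⁻¹ * (b : G)⁻¹ ∈ 𝒞[z] := mul_mem (mul_mem (mul_mem az bz) (inv_mem az)) (inv_mem bz)
  have cr : (a : G) * b * (a : G)⁻¹ * (b : G)⁻¹ ∈ 𝒞[r] := mul_mem (mul_mem (mul_mem ar br) (inv_mem ar)) (inv_mem br)
  refine ⟨((a * b * a⁻¹ * b⁻¹) ^ 3) ^ 3, pow_mem m 3, pow_mem (pow_mem cz 3) 3, pow_mem (pow_mem cr 3) 3, ?_⟩
  change ρ ((((a : G) * b * (a : G)⁻¹ * (b : G)⁻¹) ^ 3) ^ 3) = u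
  rw [h.rho_pow (pow_mem cz 3), h.rho_pow cz, h.hom _ (mul_mem (mul_mem az bz) (inv_mem az)) _ (inv_mem bz),
    h.rho_conj az bz, h.rho_inv bz, ea, eb, ← e, ← pow_mul, show 3 * 3 = 4 * 2 + 1 from rfl, pow_succ, pow_mul, hu,
    one_pow, one_mul]

theorem no_compl {H : Type*} [Group H] [Group.IsPerfect H] (hz : center H ≠ ⊥) (L : Subgroup H) :
    ¬ (center H).IsComplement' L := fun hL => by
  have h1 : commutator H ≤ L := commutator_le.2 fun a _ b _ => by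
    obtain ⟨⟨⟨c, hc⟩, ⟨x, hx⟩⟩, rfl⟩ := (isComplement'_def.1 hL).2 a
    obtain ⟨⟨⟨c', hc'⟩, ⟨y, hy⟩⟩, rfl⟩ := (isComplement'_def.1 hL).2 b
    have e1 : ∀ g, g * c = c * g := mem_center_iff.1 hc
    have e2 : ∀ g, g * c' = c' * g := mem_center_iff.1 hc'
    have : ⁅c * x, c' * y⁆ = x * y * x⁻¹ * y⁻¹ := by
      rw [commutatorElement_def]
      calc c * x * (c' * y) * (c * x)⁻¹ * (c' * y)⁻¹ = c * (x * c' * y * x⁻¹) * c⁻¹ * y⁻¹ * c'⁻¹ := by group
        _ = x * c' * y * x⁻¹ * y⁻¹ * c'⁻¹ := by rw [← e1]; group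
        _ = c' * (x * y * x⁻¹ * y⁻¹) * c'⁻¹ := by rw [e2 x]; group
        _ = _ := by rw [← e2]; group
    change ⁅c * x, c' * y⁆ ∈ L
    rw [this]
    exact mul_mem (mul_mem (mul_mem hx hy) (inv_mem hx)) (inv_mem hy)
  rw [Group.IsPerfect.commutator_eq_top, top_le_iff] at h1
  have := hL.disjoint
  rw [h1, disjoint_top] at this
  exact hz this

end StdA

open StdA

theorem ST.mem_comm (h : ST z r Q s ρ HH) {d : Fin 4 → G} (D : DD z r ρ d) (M : Subgroup 𝒞[d 0]) [M.Normal]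
    (hi : M.index ∣ 6) : (⟨d 0, self_mem_cent1 _⟩ : 𝒞[d 0]) ∈ ⁅M, M⁆ := by
  obtain ⟨k, hk, k', hk', u, hu, v, hv, hT, eu, ev, e⟩ := exists_uv
  obtain ⟨U, UM, Uz, Ur, eU⟩ := liftM h D M hi hT (K0_le hk) (pow_four hu.1) eu
  obtain ⟨W, WM, Wz, Wr, eW⟩ := liftM h D M hi hT (K0_le hk') (pow_four hv.1) ev
  have m : ⁅U, W⁆ ^ 3 ∈ ⁅M, M⁆ := pow_mem (commutator_mem_commutator UM WM) 3
  have cz : (U : G) * W * (U : G)⁻¹ * (W : G)⁻¹ ∈ 𝒞[z] := mul_mem (mul_mem (mul_mem Uz Wz) (inv_mem Uz)) (inv_mem Wz)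
  have cr : (U : G) * W * (U : G)⁻¹ * (W : G)⁻¹ ∈ 𝒞[r] := mul_mem (mul_mem (mul_mem Ur Wr) (inv_mem Ur)) (inv_mem Wr)
  have e1 : ρ ((U : G) * W * (U : G)⁻¹ * (W : G)⁻¹) = ρ (d 0) := by
    rw [h.hom _ (mul_mem (mul_mem Uz Wz) (inv_mem Uz)) _ (inv_mem Wz), h.rho_conj Uz Wz, h.rho_inv Wz, eU, eW, e, D.rd]
  have e3 : ((U : G) * W * (U : G)⁻¹ * (W : G)⁻¹) ^ 3 = d 0 := by
    generalize (U : G) * W * (U : G)⁻¹ * (W : G)⁻¹ = c at cz cr e1
    have hz : c * (d 0)⁻¹ ∈ zpowers z := h.kerL (mul_mem cz (inv_mem (D.dz 0))) (mul_mem cr (inv_mem (D.dr 0)))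
      (by rw [h.hom _ cz _ (inv_mem (D.dz 0)), h.rho_inv (D.dz 0), e1, mul_inv_cancel])
    have c3 : (c * (d 0)⁻¹) ^ 3 = 1 := h.exp _ (zpowers_le.2 h.zQ hz)
    have cm : Commute (c * (d 0)⁻¹) (d 0) := Z_comm (D.dz 0) hz
    calc c ^ 3 = (c * (d 0)⁻¹ * d 0) ^ 3 := by rw [inv_mul_cancel_right]
      _ = d 0 := by rw [cm.mul_pow, c3, one_mul, pow_succ, pow_two, D.sq, one_mul]
  have : (⟨d 0, self_mem_cent1 _⟩ : 𝒞[d 0]) = ⁅U, W⁆ ^ 3 := Subtype.ext e3.symm
  rw [this]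
  exact m

theorem cover {C Γ : Type*} [Group C] [Finite C] [Group Γ] {f : C →* Γ} {d : C} (hf : H22.DC f d)
    {N : Subgroup Γ} {S : Type*} [Group S] [IsSimpleGroup S] (hS : ¬ IsMulCommutative S) (e : N ≃* S)
    (hc : 𝒞(N) = ⊥) (hd : d ∈ ⁅N.comap f, N.comap f⁆) :
    Cfsg.IsQuasisimple (N.comap f) ∧ Cfsg.IsNonsplitDoubleCover (N.comap f) S ∧ 𝒞(N.comap f) = zpowers d := by
  have dN : d ∈ N.comap f := by rw [mem_comap, hf.map_d]; exact one_mem _
  have d2 : orderOf d = 2 := orderOf_eq_prime (by rw [pow_two, hf.sq]) hf.ne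
  have h3 : 𝒞(N.comap f) = zpowers d := by
    refine le_antisymm (fun c hc' => ?_) (zpowers_le.2 (mem_centralizer_iff.2 fun g _ => (hf.cen g).eq))
    have : f c ∈ 𝒞(N) := mem_centralizer_iff.2 fun n hn => by
      obtain ⟨y, rfl⟩ := hf.surj n
      rw [← map_mul, ← map_mul, mem_centralizer_iff.1 hc' y hn]
    rw [hc, mem_bot] at this
    rcases (hf.ker c).1 this with rfl | rfl
    exacts [one_mem _, mem_zpowers _]
  have pS : Group.IsPerfect S := ⟨(IsSimpleGroup.eq_bot_or_eq_top_of_normal (commutator S) inferInstance).resolve_left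
    fun e => hS ⟨⟨fun a b => by
      have : ⁅a, b⁆ ∈ commutator S := commutator_mem_commutator (mem_top a) (mem_top b)
      rw [e, mem_bot] at this
      exact commutatorElement_eq_one_iff_mul_comm.1 this⟩⟩⟩
  have pN : Group.IsPerfect N := Group.IsPerfect.ofSurjective (f := e.symm.toMonoidHom) e.symm.surjective
  have pM : Group.IsPerfect (N.comap f) := by
    rw [isPerfect_iff]
    refine le_antisymm (commutator_le_self _) fun x hx => ?_
    have : f x ∈ (⁅N.comap f, N.comap f⁆).map f := by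
      rw [map_commutator, map_comap_eq_self_of_surjective hf.surj, commutator_eq_self]
      exact hx
    obtain ⟨y, hy, ey⟩ := this
    rcases hf.eq_or ey with rfl | rfl
    exacts [hy, mul_mem hy hd]
  let φ : N.comap f →* S := e.toMonoidHom.comp (f.subgroupComap N)
  have sφ : Function.Surjective φ := e.surjective.comp (f.subgroupComap_surjective_of_surjective N hf.surj)
  have cz : center (N.comap f) = zpowers ⟨d, dN⟩ := by
    refine le_antisymm (fun c hc' => ?_) (zpowers_le.2 (mem_center_iff.2 fun g => Subtype.ext (hf.cen g).eq))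
    have : (c : C) ∈ zpowers d := h3 ▸ mem_centralizer_iff.2 fun g hg =>
      congrArg Subtype.val (mem_center_iff.1 hc' ⟨g, hg⟩)
    obtain ⟨n, hn⟩ := this
    exact ⟨n, Subtype.ext hn⟩
  have kφ : center (N.comap f) = φ.ker := by
    rw [cz]
    refine le_antisymm (zpowers_le.2 ?_) fun c hc' => ?_
    · change e _ = 1
      rw [map_eq_one_iff _ e.injective]
      exact Subtype.ext hf.map_d
    · have h1 : e (f.subgroupComap N c) = 1 := hc'
      rw [map_eq_one_iff _ e.injective] at h1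
      rcases (hf.ker c).1 (congrArg Subtype.val h1) with h2 | h2
      · rw [show c = 1 from Subtype.ext h2]; exact one_mem _
      · rw [show c = ⟨d, dN⟩ from Subtype.ext h2]; exact mem_zpowers _
  let ε : N.comap f ⧸ center (N.comap f) ≃* S :=
    (QuotientGroup.quotientMulEquivOfEq kφ).trans (QuotientGroup.quotientKerEquivOfSurjective φ sφ)
  have c2 : Nat.card (center (N.comap f)) = 2 := by
    rw [cz, Nat.card_zpowers, ← Subgroup.orderOf_coe]
    exact d2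
  refine ⟨⟨pM, ε.isSimpleGroup⟩, ⟨c2, ⟨ε⟩, no_compl fun e => ?_⟩, h3⟩
  rw [e, card_bot] at c2
  omega

theorem standard {d : G} (hd : orderOf d = 2) (M : Subgroup 𝒞[d]) [M.Normal] (hq : Cfsg.IsQuasisimple M)
    (hm : (⟨d, self_mem_cent1 _⟩ : 𝒞[d]) ∈ M) (hc : 𝒞(M) = zpowers ⟨d, self_mem_cent1 _⟩) :
    Cfsg.IsStandardSubgroup (M.map (𝒞[d]).subtype) := by
  have d1 : d ≠ 1 := fun e => by rw [e, orderOf_one] at hd; omega
  have qA : Cfsg.IsQuasisimple (M.map (𝒞[d]).subtype) :=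
    H44.isQuasisimple_of_equiv (M.equivMapOfInjective _ (𝒞[d]).subtype_injective) hq
  have dA : d ∈ M.map (𝒞[d]).subtype := ⟨_, hm, rfl⟩
  have nA : 𝒞[d] ≤ 𝒩(M.map (𝒞[d]).subtype) := le_norm_iff.2 fun a ha x ⟨y, hy, e⟩ =>
    ⟨⟨a, ha⟩ * y * ⟨a, ha⟩⁻¹, Normal.conj_mem inferInstance _ hy _, by rw [← e]; rfl⟩
  have cA : 𝒞(M.map (𝒞[d]).subtype) = zpowers d := by
    refine le_antisymm (fun c hc' => ?_) (zpowers_le.2 (mem_centralizer_iff.2 ?_))
    · have : (⟨c, cent_le_cent1 dA hc'⟩ : 𝒞[d]) ∈ 𝒞(M) := mem_centralizer_iff.2 fun g hg =>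
        Subtype.ext (mem_centralizer_iff.1 hc' g ⟨g, hg, rfl⟩)
      rw [hc] at this
      obtain ⟨n, hn⟩ := this
      exact ⟨n, congrArg Subtype.val hn⟩
    · rintro _ ⟨y, -, rfl⟩
      exact mem_cent1.1 y.2
  generalize M.map (𝒞[d]).subtype = A at qA dA nA cA
  have c2 : Nat.card (zpowers d) = 2 := by rw [Nat.card_zpowers, hd]
  refine ⟨qA, ?_, fun g _ e => ?_, le_antisymm (fun g hg => ?_) fun g hg => ?_⟩
  · rw [cA]
    refine ⟨by rw [c2]; exact even_two, fun g hg => ?_⟩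
    have : zpowers d ⊓ cj g (zpowers d) = ⊥ := by
      rw [eq_bot_iff]
      intro c hc'
      rcases two_cases hd hc'.1 with rfl | rfl
      · exact one_mem _
      · exact absurd (mem_norm_of_le_cj (zpowers_le.2 hc'.2)) hg
    rw [← cj_def, this, card_bot]
    exact odd_one
  · rw [← cj_def, commutator_comm, commutator_eq_bot_iff_le_centralizer, cA] at e
    have p : ⁅A, A⁆ = A := isPerfect_iff.1 qA.1
    have h1 : cj g A ≤ ⊥ := by
      rw [← p, cj_commutator]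
      refine (commutator_mono e e).trans (le_of_eq ?_)
      rw [commutator_eq_bot_iff_le_centralizer, cent_zpowers]
      exact zpowers_le.2 (self_mem_cent1 d)
    rw [le_bot_iff, cj_eq_bot_iff] at h1
    rw [h1, mem_bot] at dA
    exact d1 dA
  · refine mem_norm_iff_cj.2 ?_
    rw [cj_centralizer, cj_eq_of_mem_norm hg]
  · rw [cA] at hg
    rcases two_cases hd (conj_mem_of_norm le_rfl hg (mem_zpowers d)) with e | e
    · exact absurd (conj_eq_one_iff.1 e) d1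
    · exact nA (mem_cent1.2 (mul_inv_eq_iff_eq_mul.1 e))

end Cfsg.Agent.B3
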