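import Cfsg.Agent.B3.ModT
import Cfsg.Agent.H56.Mod.S43
import Cfsg.Agent.H56.ClsTools
import Cfsg.Agent.S0270

set_option autoImplicit false

namespace Cfsg.Agent.B3

open Subgroup H49 T3.Fr2 F3

variable {X : Subgroup GG} {K : Type} [Field K] [Fintype K]

namespace TopAux

theorem card_psp (hK : Fintype.card K = 3) : Nat.card (Cfsg.PSp 2 K) = 25920 := by
  obtain ⟨e⟩ := H56.S43.equiv hK
  rw [Nat.card_congr e.toEquiv, H56.S43.card]

theorem card_X {T : Type*} [Group T] (hR : R0 ≤ X) (θ : X →* T)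
    (hs : Function.Surjective θ) (hk : θ.ker = R0.subgroupOf X) :
    Nat.card X = Nat.card T * 128 := by
  rw [card_eq_card_quotient_mul_card_subgroup θ.ker,
    Nat.card_congr (QuotientGroup.quotientKerEquivOfSurjective θ hs).toEquiv, hk,
    Nat.card_congr (subgroupOfEquivOfLe hR).toEquiv, card_R0]

theorem card_cent_equiv {A B : Type*} [Group A] [Group B] (e : A ≃* B) (x : A) :
    Nat.card (centralizer ({x} : Set A)) = Nat.card (centralizer ({e x} : Set B)) := by
  refine Nat.card_congr (e.toEquiv.subtypeEquiv fun a => ?_)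
  simp only [mem_centralizer_singleton_iff, MulEquiv.toEquiv_eq_coe, EquivLike.coe_coe,
    ← map_mul, e.injective.eq_iff]

theorem card_cent (hK : Fintype.card K = 3) (x : Cfsg.PSp 2 K) (hx : orderOf x = 3)
    (h : 81 ∣ Nat.card (centralizer ({x} : Set (Cfsg.PSp 2 K)))) :
    Nat.card (centralizer ({x} : Set (Cfsg.PSp 2 K))) = 648 := by
  obtain ⟨e⟩ := H56.S43.equiv hK
  rw [card_cent_equiv e] at h ⊢
  have := H56.card_centralizer_of_order H56.S43.classes 13 3
    (fun c => decide (c = 648 ∨ c = 108 ∨ c = 54)) (by decide +kernel) (e x)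
    (by rw [e.orderOf_eq, hx])
  simp only [decide_eq_true_eq] at this
  omega

theorem fin {T : Type*} [Group T] (hX : X ≤ HH) (hR : R0 ≤ X) (x : T) (hx : orderOf x = 3)
    (h648 : Nat.card (centralizer ({x} : Set T)) = 648) (θ : X →* centralizer ({x} : Set T))
    (hs : Function.Surjective θ) (hk : θ.ker = R0.subgroupOf X) : ∃ f ∈ HH, cj f X = C0 := by
  have hxx : x ∈ 𝒞[x] := mem_centralizer_singleton_iff.2 rfl
  obtain ⟨y, hy⟩ := hs ⟨x, hxx⟩
  have hmem : ∀ g : X, (g : GG) ∈ R0 ↔ θ g = 1 := fun g => by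
    rw [← MonoidHom.mem_ker, hk, mem_subgroupOf]
  refine top23 hX hR (by rw [card_X hR θ hs hk, h648]) y.2 (fun h => ?_) ?_ fun g hg => ?_
  · rw [hmem, hy] at h
    have : x = 1 := congrArg Subtype.val h
    rw [this, orderOf_one] at hx
    omega
  · rw [← coe_pow, hmem]
    rw [map_pow, hy]
    exact Subtype.ext (by simpa [hx] using pow_orderOf_eq_one x)
  · have h0 := (hmem (⟨g, hg⟩ * y * ⟨g, hg⟩⁻¹ * y⁻¹)).2
    simp only [coe_mul, coe_inv] at h0
    refine h0 ?_
    simp only [map_mul, map_inv, hy]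
    have := mem_centralizer_singleton_iff.1 (θ ⟨g, hg⟩).2
    refine Subtype.ext ?_
    simp only [coe_mul, coe_inv, coe_one]
    rw [this]
    group

end TopAux

theorem topB (hK : Fintype.card K = 3) (hX : X ≤ HH) (hR : R0 ≤ X) (θ : X →* Cfsg.PSp 2 K)
    (hs : Function.Surjective θ) (hk : θ.ker = R0.subgroupOf X) : X = HH ∧ IsSimpleGroup (Cfsg.PSp 2 K) := by
  refine ⟨eq_of_le_of_card_ge hX ?_, S0270.result 2 le_rfl fun _ => hK.ge⟩
  rw [TopAux.card_X hR θ hs hk, TopAux.card_psp hK]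
  exact card_HH

theorem topF (hK : Fintype.card K = 3) (hX : X ≤ HH) (hR : R0 ≤ X) (x : Cfsg.PSp 2 K) (hx : orderOf x = 3)
    (P : Sylow 3 (Cfsg.PSp 2 K)) (hP : (P : Subgroup (Cfsg.PSp 2 K)) ≤ 𝒞[x]) (θ : X →* 𝒞[x])
    (hs : Function.Surjective θ) (hk : θ.ker = R0.subgroupOf X) : ∃ f ∈ HH, cj f X = C0 := by
  have hc := TopAux.card_psp hK
  have hfin : Finite (Cfsg.PSp 2 K) := Nat.finite_of_card_ne_zero (by omega)
  have h81 : Nat.card P = 81 := by
    have : Fact (Nat.Prime 3) := ⟨Nat.prime_three⟩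
    rw [P.card_eq_multiplicity, hc]
    decide +kernel
  have h648 := TopAux.card_cent hK x hx (h81 ▸ card_dvd_of_le hP)
  exact TopAux.fin hX hR x hx h648 θ hs hk

end Cfsg.Agent.B3
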